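import Mathlib
import Cfsg.Agent.H2.Subnormal
import Cfsg.Agent.Core.Basic

/-! Flavell's strengthening of the zipper lemma. -/

set_option autoImplicit false

namespace Cfsg.Agent.Fil

open Subgroup Cfsg.Agent.H2
open scoped Pointwise

variable {G : Type*} [Group G] [Finite G]

/-- `R` is minimal among the subgroups of `H` normalized by `H` and properly containing `C`. -/
def MinOver (C H R : Subgroup G) : Prop :=
  C < R ∧ R ≤ H ∧ H ≤ normalizer (R : Set G) ∧ ∀ X, C < X → X ≤ R → H ≤ normalizer (X : Set G) → X = R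

theorem exists_minOver {C H K : Subgroup G} (h1 : C < K) (h2 : K ≤ H) (h3 : H ≤ normalizer (K : Set G)) :
    ∃ R, R ≤ K ∧ MinOver C H R := by
  obtain ⟨R, ⟨k1, k2, k3⟩, hR⟩ := exists_minimal_of_wellFoundedLT
    (fun R : Subgroup G => C < R ∧ R ≤ K ∧ H ≤ normalizer (R : Set G)) ⟨K, h1, le_rfl, h3⟩
  exact ⟨R, k2, k1, k2.trans h2, k3, fun X a b c => le_antisymm b (hR ⟨a, b.trans k2, c⟩ b)⟩

theorem MinOver.le_normalizer {C : Subgroup G} [hC : C.Normal] {S : Subgroup G} (hS : C ≤ S) (H : Subgroup G) :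
    ∀ R, MinOver C H R → SN H S → R ≤ normalizer (S : Set G) := by
  induction H using WellFoundedLT.induction with | ind H ih => ?_
  intro R ⟨h1, h2, h3, h4⟩ h
  rcases h.eq_or_exists_normal with rfl | ⟨X, k1, k2, k3⟩
  · exact h2.trans Subgroup.le_normalizer
  by_cases hc : C < R ⊓ X
  · have hRX : R ≤ X := inf_eq_left.1 (h4 _ hc inf_le_left (Core.le_normalizer_inf h3 k3))
    obtain ⟨R', l1, l2⟩ := exists_minOver h1 hRX (k2.le.trans h3)
    rw [← h4 (sSup {R' | R' ≤ R ∧ MinOver C X R'}) (l2.1.trans_le (le_sSup ⟨l1, l2⟩)) (sSup_le fun _ h => h.1)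
      fun g hg => mem_normalizer_of_conj_smul_le ?_]
    · exact sSup_le fun R' hR' => ih X k2 R' hR'.2 (h.mono k1 k2.le)
    rw [conj_smul_sSup]
    refine sSup_le_sSup ?_
    rintro _ ⟨R', ⟨m1, m2, m3, m4, m5⟩, rfl⟩
    have e1 := mem_normalizer_iff_conj_smul.1 (k3 hg)
    have e2 := mem_normalizer_iff_conj_smul.1 (inv_mem (k3 hg))
    refine ⟨conj_smul_le_of_mem_normalizer m1 (h3 hg), ?_, conj_smul_le_of_mem_normalizer m3 (k3 hg), ?_,
      fun Y n1 n2 n3 => ?_⟩
    · rw [← Normal.conj_smul_eq_self g C]; exact (MulAut.conj g).mapSubgroup.lt_iff_lt.2 m2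
    · rw [normalizer_conj_smul, ← e1]; exact conj_smul_mono g m4
    · dsimp only at n2 ⊢
      rw [← m5 (MulAut.conj g⁻¹ • Y) ?_ ?_ ?_, conj_smul_conj_smul, mul_inv_cancel, conj_one_smul]
      · rw [← Normal.conj_smul_eq_self g⁻¹ C]; exact (MulAut.conj g⁻¹).mapSubgroup.lt_iff_lt.2 n1
      · simpa [conj_smul_conj_smul, conj_one_smul] using conj_smul_mono g⁻¹ n2
      · rw [normalizer_conj_smul, ← e2]; exact conj_smul_mono _ n3
  · have hRX : R ⊓ X = C := ((le_inf h1.le (hS.trans k1)).lt_or_eq.resolve_left hc).symm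
    intro r hr
    refine mem_normalizer_fintype fun s hs => ?_
    have : r * s * r⁻¹ * s⁻¹ ∈ R ⊓ X := mem_inf.2 ⟨by
      have := Core.conj_mem_of_le_normalizer h3 (k2.le (k1 hs)) (inv_mem hr)
      simpa [mul_assoc] using mul_mem hr this,
      mul_mem (Core.conj_mem_of_le_normalizer k3 (h2 hr) (k1 hs)) (inv_mem (k1 hs))⟩
    simpa using mul_mem (hS (hRX.le this)) hs

theorem exists_pres {I P : Subgroup G} (h : I < P) :
    ∃ t ∈ P, t ∉ I ∧ ∀ U, SN P U → U ≤ I → MulAut.conj t • U ≤ I := by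
  set B := sSup {U | SN P U ∧ U ≤ I}
  have hB : SN P B := SN.sSup fun _ h => h.1
  have hBI : B ≤ I := sSup_le fun _ h => h.2
  obtain ⟨K, ⟨k1, k2, k3⟩, hK⟩ := exists_minimal_of_wellFoundedLT
    (fun K : Subgroup G => B ≤ K ∧ K ≤ P ∧ ¬ K ≤ I) ⟨P, hB.le, le_rfl, h.not_ge⟩
  rcases (hB.mono k1 k2).eq_or_exists_normal with rfl | ⟨X, l1, l2, l3⟩
  · exact absurd hBI k3
  have hX : X ≤ I := by
    by_contra hc
    exact l2.not_ge (hK ⟨l1, l2.le.trans k2, hc⟩ l2.le)
  obtain ⟨t, ht, ht2⟩ := SetLike.not_le_iff_exists.1 k3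
  exact ⟨t, k2 ht, ht2, fun U h1 h2 =>
    (conj_smul_le_of_mem_normalizer ((le_sSup (show U ∈ {U | SN P U ∧ U ≤ I} from ⟨h1, h2⟩)).trans l1) (l3 ht)).trans hX⟩

omit [Finite G] in
theorem not_sn_top {A K : Subgroup G} (hA : normalClosure (A : Set G) = ⊤) (h : A ≤ K) (hK : K ≠ ⊤) : ¬ SN ⊤ K := by
  intro k
  rcases k.eq_or_exists_normal with e | ⟨X, l1, l2, l3⟩
  · exact hK e
  · haveI := Core.normal_of_le_normalizer l3
    exact l2.not_ge (hA ▸ normalClosure_le_normal (h.trans l1))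

omit [Finite G] in
theorem coatom_conj {M : Subgroup G} (hM : IsCoatom M) (g : G) : IsCoatom (MulAut.conj g • M) :=
  ((MulAut.conj g).mapSubgroup.isCoatom_iff M).2 hM

theorem flavell_core {A M : Subgroup G} (hA : normalClosure (A : Set G) = ⊤) (hM : IsCoatom M) (hAM : A ≤ M)
    (hC : M.normalCore ≤ A) (h : ∀ L, IsCoatom L → L ≠ M → A ≤ L → SN L A) {L : Subgroup G} (hL : IsCoatom L)
    (hAL : A ≤ L) : L = M := by
  by_contra hne
  have hb : ¬ SN M A := fun k => by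
    obtain ⟨M', k1, k2⟩ := zipper (H := ⊤) (S := A) le_top (fun K k1 k2 => by
      obtain ⟨P, hP, hKP⟩ := (eq_top_or_exists_le_coatom K).resolve_left k2.ne
      by_cases e : P = M
      · exact (e ▸ k).mono k1 hKP
      · exact (h P hP e (k1.trans hKP)).mono k1 hKP) (not_sn_top hA le_rfl fun e => hM.1 (top_le_iff.1 (e ▸ hAM)))
    exact hne (((hL.le_iff.1 (k2 L hAL hL.lt_top)).resolve_left k1.ne).symm.trans
      ((hM.le_iff.1 (k2 M hAM hM.lt_top)).resolve_left k1.ne))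
  have ha : ∀ (g : G) (P : Subgroup G), IsCoatom P → P ≠ MulAut.conj g • M → MulAut.conj g • A ≤ P → SN P (MulAut.conj g • A) := by
    intro g P h1 h2 h3
    have := (h (MulAut.conj g⁻¹ • P) (coatom_conj h1 _) (fun e => h2 (by
      rw [← e, conj_smul_conj_smul, mul_inv_cancel, conj_one_smul])) (by
      simpa [conj_smul_conj_smul, conj_one_smul] using conj_smul_mono g⁻¹ h3)).conj g
    rwa [conj_smul_conj_smul, mul_inv_cancel, conj_one_smul] at this
  have hNM : normalizer (M : Set G) = M := (hM.le_iff.1 M.le_normalizer).resolve_left fun e => by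
    haveI := Core.normal_of_le_normalizer e.ge
    exact hM.1 (top_le_iff.1 (hA ▸ normalClosure_le_normal hAM))
  have hN : normalizer (A : Set G) ≤ M := fun n hn => by
    by_contra hc
    have := ha n M hM (fun e => hc (hNM ▸ mem_normalizer_iff_conj_smul.2 e.symm))
    rw [mem_normalizer_iff_conj_smul.1 hn] at this
    exact hb (this hAM)
  obtain ⟨H, ⟨h1, h2, h3⟩, hmax⟩ := Set.exists_max_image {H : Subgroup G | IsCoatom H ∧ H ≠ M ∧ A ≤ H}
    (fun H => Nat.card ↥(H ⊓ M)) (Set.toFinite _) ⟨L, hL, hne, hAL⟩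
  set I := H ⊓ M with hI
  let Φ : Set (Subgroup G) := {P | ∃ g : G, MulAut.conj g • A ≤ I ∧ P = MulAut.conj g • M}
  let X : Subgroup G := (MulAction.stabilizer (MulAut G) Φ).comap MulAut.conj
  have hX : ∀ x : G, (∀ P ∈ Φ, MulAut.conj x • P ∈ Φ) → x ∈ X := fun x hx =>
    Set.eq_of_subset_of_ncard_le (by rintro _ ⟨P, hP, rfl⟩; exact hx P hP) (Set.ncard_smul_set _ _).ge
  have hX2 : ∀ P : Subgroup G, IsCoatom P → I ≤ P → ∀ t ∈ P, (∀ U, SN P U → U ≤ I → MulAut.conj t • U ≤ I) → t ∈ X :=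
    fun P k1 k2 t ht k3 => hX t (by
      rintro _ ⟨g, l1, rfl⟩
      by_cases e : P = MulAut.conj g • M
      · exact ⟨g, l1, by rw [← e]; exact mem_normalizer_iff_conj_smul.1 (le_normalizer ht)⟩
      · exact ⟨t * g, conj_smul_conj_smul t g A ▸ k3 _ (ha g P k1 e (l1.trans k2)) l1, conj_smul_conj_smul _ _ _⟩)
  have hIX : I ≤ X := fun t ht => hX2 M hM inf_le_right t ht.2 fun U _ k => conj_smul_le_of_mem k ht
  obtain ⟨t, ht1, ht2, ht3⟩ := exists_pres (show I < M from inf_lt_right.2 fun k =>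
    h2 ((hM.le_iff.1 k).resolve_left h1.1))
  obtain ⟨s, hs1, hs2, hs3⟩ := exists_pres (show I < H from inf_lt_left.2 fun k =>
    h2 ((h1.le_iff.1 k).resolve_left hM.1).symm)
  have hXt : X = ⊤ := by
    by_contra hc
    obtain ⟨K, k1, k2⟩ := (eq_top_or_exists_le_coatom X).resolve_left hc
    have := hmax K ⟨k1, fun e => hs2 ⟨hs1, e ▸ k2 (hX2 H h1 inf_le_left s hs1 hs3)⟩,
      (le_inf h3 hAM).trans (hIX.trans k2)⟩
    exact this.not_gt (Core.card_lt_of_lt (lt_of_le_of_ne (le_inf (hIX.trans k2) inf_le_right) fun e =>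
      ht2 (e.ge ⟨k2 (hX2 M hM inf_le_right t ht1 ht3), ht1⟩)))
  obtain ⟨R, -, hR⟩ := exists_minOver (C := M.normalCore) (lt_of_le_of_ne (hC.trans h3) fun e =>
    hM.1 (top_le_iff.1 ((hA ▸ normalClosure_le_normal (h3.trans e.ge)).trans M.normalCore_le))) le_rfl le_normalizer
  refine hR.1.not_ge fun r hr x => ?_
  have k1 : MulAut.conj x⁻¹ • Φ = Φ := (hXt ▸ mem_top x⁻¹ : x⁻¹ ∈ X)
  obtain ⟨g, l1, l2⟩ : MulAut.conj x⁻¹ • M ∈ Φ := k1 ▸ Set.smul_mem_smul_set ⟨1, by
    rw [conj_one_smul]; exact le_inf h3 hAM, (conj_one_smul M).symm⟩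
  have : r ∈ MulAut.conj x⁻¹ • M := by
    rw [l2]
    by_cases e : H = MulAut.conj g • M
    · exact e ▸ hR.2.1 hr
    · have := MinOver.le_normalizer (Normal.conj_smul_eq_self g M.normalCore ▸ conj_smul_mono g hC) H R hR
        (ha g H h1 e (l1.trans inf_le_left)) hr
      rw [normalizer_conj_smul] at this
      exact conj_smul_mono g hN this
  rwa [mem_conj_smul, inv_inv] at this

theorem flavell {A M : Subgroup G} (hA : normalClosure (A : Set G) = ⊤) (hM : IsCoatom M) (hAM : A ≤ M)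
    (h : ∀ L, IsCoatom L → L ≠ M → A ≤ L → SN L A) {L : Subgroup G} (hL : IsCoatom L) (hAL : A ≤ L) : L = M := by
  have hn : ∀ K : Subgroup G, K ≤ normalizer (M.normalCore : Set G) := fun K => le_top.trans (normalizer_eq_top _).ge
  have h1 : A ⊔ M.normalCore ≤ M := sup_le hAM M.normalCore_le
  by_contra hne
  refine hne (flavell_core (A := A ⊔ M.normalCore) (top_le_iff.1 (hA ▸ normalClosure_mono (fun x hx => mem_sup_left hx)))
    hM h1 le_sup_right (fun P k1 k2 k3 => (h P k1 k2 (le_sup_left.trans k3)).sup_normal' (le_sup_right.trans k3) (hn _))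
    hL (sup_le hAL ?_))
  by_contra hc
  have := (h L hL hne hAL).sup_normal (hn L)
  rw [hL.2 _ (left_lt_sup.2 hc)] at this
  exact not_sn_top hA le_sup_left (fun e => hM.1 (top_le_iff.1 (e ▸ h1))) this

end Cfsg.Agent.Fil
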