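import Mathlib
import Cfsg.Agent.RankOne.Util

set_option autoImplicit false
set_option linter.unusedSectionVars false

/-! Binary actions: general criteria. -/

namespace Cfsg.Agent.Fil.Bn

open MulAction

/-- the action of `G` on `X` is binary. -/
def Bin (G X : Type*) [Group G] [MulAction G X] : Prop :=
  ∀ (n : ℕ) (I J : Fin n → X), 2 ≤ n →
    (∀ i j : Fin n, i ≠ j → ∃ g : G, g • I i = J i ∧ g • I j = J j) → ∃ g : G, ∀ i, g • I i = J i

variable {G X : Type*} [Group G] [MulAction G X]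

theorem Bin.quad (hb : Bin G X) {x0 x1 x2 x3 : X} {a b : G} (ha0 : a • x0 = x0) (ha : a • x1 = x1)
    (hb0 : b • x0 = x0) (hb2 : b • x2 = x2) (h : a • x3 = b • x3) :
    ∃ g : G, g • x0 = x0 ∧ g • x1 = x1 ∧ g • x2 = x2 ∧ g • x3 = a • x3 := by
  obtain ⟨g, hg⟩ := hb 4 ![x0, x1, x2, x3] ![x0, x1, x2, a • x3] (by norm_num) (by
    intro i j hij
    fin_cases i <;> fin_cases j <;>
      first
        | exact absurd rfl hij
        | (refine ⟨1, ?_, ?_⟩ <;> (simp; done))
        | (refine ⟨a, ?_, ?_⟩ <;> (simp [ha0, ha]; done))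
        | (refine ⟨b, ?_, ?_⟩ <;> (simp [hb2, h]; done)))
  exact ⟨g, hg 0, hg 1, hg 2, hg 3⟩

theorem Bin.tri (hb : Bin G X) {x1 x2 x3 : X} {a b : G} (ha : a • x1 = x1)
    (hb2 : b • x2 = x2) (h : a • x3 = b • x3) :
    ∃ g : G, g • x1 = x1 ∧ g • x2 = x2 ∧ g • x3 = a • x3 := by
  obtain ⟨g, hg⟩ := hb 3 ![x1, x2, x3] ![x1, x2, a • x3] (by norm_num) (by
    intro i j hij
    fin_cases i <;> fin_cases j <;>
      first
        | exact absurd rfl hij
        | (refine ⟨1, ?_, ?_⟩ <;> (simp; done))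
        | (refine ⟨a, ?_, ?_⟩ <;> (simp [ha]; done))
        | (refine ⟨b, ?_, ?_⟩ <;> (simp [hb2, h]; done)))
  exact ⟨g, hg 0, hg 1, hg 2⟩

theorem Bin.set [Finite X] (hb : Bin G X) (L : Set X) (f : X → X)
    (h : ∀ x ∈ L, ∀ y ∈ L, ∃ g : G, g • x = f x ∧ g • y = f y) : ∃ g : G, ∀ x ∈ L, g • x = f x := by
  rcases L.eq_empty_or_nonempty with rfl | ⟨x0, hx0⟩
  · exact ⟨1, by simp⟩
  have : Nonempty L := ⟨⟨x0, hx0⟩⟩
  let e := Finite.equivFin (L × Fin 2)
  have h2 : 2 ≤ Nat.card (L × Fin 2) := by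
    rw [Nat.card_prod, Nat.card_eq_fintype_card (α := Fin 2), Fintype.card_fin]
    have := Nat.card_pos (α := L)
    omega
  obtain ⟨g, hg⟩ := hb _ (fun i => ((e.symm i).1 : X)) (fun i => f (e.symm i).1) h2
    (fun i j _ => h _ (e.symm i).1.2 _ (e.symm j).1.2)
  refine ⟨g, fun x hx => ?_⟩
  simpa using hg (e (⟨x, hx⟩, 0))

theorem ncard_fixedBy_conj {s t : G} (h : IsConj s t) : (fixedBy X s).ncard = (fixedBy X t).ncard := by
  obtain ⟨c, hc⟩ := isConj_iff.mp h
  rw [← hc, ← smul_fixedBy]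
  exact (Set.ncard_image_of_injective _ (MulAction.injective c)).symm

/-- in a binary action of a group with one class of involutions, commuting involutions have the same fixed
points. -/
theorem Bin.fix_eq [Finite G] [Finite X] (hb : Bin G X)
    (hone : ∀ s t : G, s ≠ 1 → s * s = 1 → t ≠ 1 → t * t = 1 → IsConj s t)
    {g h : G} (g1 : g ≠ 1) (g2 : g * g = 1) (h1 : h ≠ 1) (h2 : h * h = 1) (hc : g * h = h * g) :
    fixedBy X g = fixedBy X h := by
  classical
  by_cases hgh : g * h = 1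
  · have : g = h := by
      rw [← mul_left_cancel_iff (a := g), g2, hgh]
    rw [this]
  have k2 : g * h * (g * h) = 1 := by
    calc _ = g * (h * g) * h := by group
      _ = (g * g) * (h * h) := by rw [← hc]; group
      _ = 1 := by rw [g2, h2, one_mul]
  have hgy : ∀ y ∈ fixedBy X (g * h), h • y = g • y := by
    intro y hy
    have : g • (g * h) • y = g • y := by rw [hy]
    rwa [← mul_smul, ← mul_assoc, g2, one_mul] at this
  let f : X → X := fun x => if x ∈ fixedBy X (g * h) then g • x else x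
  have fg : ∀ x ∈ fixedBy X g, f x = x := by
    intro x hx
    simp only [f]
    split_ifs
    · exact hx
    · rfl
  have fh : ∀ x ∈ fixedBy X h, f x = x := by
    intro x hx
    simp only [f]
    split_ifs with h3
    · rw [← hgy x h3]; exact hx
    · rfl
  have fk : ∀ x ∈ fixedBy X (g * h), f x = g • x := fun x hx => if_pos hx
  obtain ⟨τ, hτ⟩ := hb.set (fixedBy X g ∪ fixedBy X h ∪ fixedBy X (g * h)) f (by
    rintro x ((hx | hx) | hx) y ((hy | hy) | hy)
    · exact ⟨1, by simp [fg x hx], by simp [fg y hy]⟩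
    · exact ⟨1, by simp [fg x hx], by simp [fh y hy]⟩
    · exact ⟨g, by rw [fg x hx]; exact hx, (fk y hy).symm⟩
    · exact ⟨1, by simp [fh x hx], by simp [fg y hy]⟩
    · exact ⟨1, by simp [fh x hx], by simp [fh y hy]⟩
    · exact ⟨h, by rw [fh x hx]; exact hx, by rw [fk y hy, hgy y hy]⟩
    · exact ⟨g, (fk x hx).symm, by rw [fg y hy]; exact hy⟩
    · exact ⟨h, by rw [fk x hx, hgy x hx], by rw [fh y hy]; exact hy⟩
    · exact ⟨g, (fk x hx).symm, (fk y hy).symm⟩)
  have key : ∀ {s t : G}, s ≠ 1 → s * s = 1 → t ≠ 1 → t * t = 1 → fixedBy X s ⊆ fixedBy X t →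
      fixedBy X s = fixedBy X t := fun a1 a2 b1 b2 hs =>
    Set.eq_of_subset_of_ncard_le hs (ncard_fixedBy_conj (hone _ _ a1 a2 b1 b2)).ge
  by_cases hk : fixedBy X (g * h) ⊆ fixedBy X g
  · have e := key hgh k2 g1 g2 hk
    refine key g1 g2 h1 h2 fun x hx => ?_
    have hx' : x ∈ fixedBy X (g * h) := e ▸ hx
    exact (hgy x hx').trans hx
  obtain ⟨y, hy, hyg⟩ := Set.not_subset.mp hk
  have t1 : τ • y = g • y := (hτ y (Or.inr hy)).trans (fk y hy)
  have hy' : g • y ∈ fixedBy X (g * h) := by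
    change (g * h) • g • y = g • y
    rw [← mul_smul, mul_assoc, ← hc, mul_smul, hy]
  have t2 : (τ * τ) • y = y := by
    rw [mul_smul, t1, hτ _ (Or.inr hy'), fk _ hy', ← mul_smul, g2, one_smul]
  have hev : Even (orderOf τ) := by
    by_contra ho
    obtain ⟨k, hk⟩ := Nat.not_even_iff_odd.mp ho
    have h3 : (τ * τ) ^ (k + 1) = τ := RankOne.eq_pow_of_odd (by rw [← hk, pow_orderOf_eq_one])
    have h4 : (τ * τ) ^ (k + 1) ∈ stabilizer G y := Subgroup.pow_mem _ t2 _
    rw [h3] at h4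
    exact hyg (t1.symm.trans h4)
  obtain ⟨k, k1, k3⟩ := RankOne.exists_involution_pow hev
  have s1 : ∀ x, f x = x → x ∈ fixedBy X g ∪ fixedBy X h ∪ fixedBy X (g * h) → x ∈ fixedBy X (τ ^ k) := by
    intro x hx hL
    have : τ ∈ stabilizer G x := (hτ x hL).trans hx
    exact Subgroup.pow_mem _ this k
  have e1 := key g1 g2 k1 k3 fun x hx => s1 x (fg x hx) (Or.inl (Or.inl hx))
  have e2 := key h1 h2 k1 k3 fun x hx => s1 x (fh x hx) (Or.inl (Or.inr hx))
  rw [e1, e2]

theorem smul_mk_iff (H : Subgroup G) (x g : G) : x • (g : G ⧸ H) = g ↔ g⁻¹ * x * g ∈ H := by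
  rw [MulAction.Quotient.smul_coe, smul_eq_mul, eq_comm, QuotientGroup.eq, mul_assoc]

theorem Bin.mem_of_comm [Finite G] {H : Subgroup G} (hb : Bin G (G ⧸ H))
    (hone : ∀ s t : G, s ≠ 1 → s * s = 1 → t ≠ 1 → t * t = 1 → IsConj s t)
    {g h : G} (hg : g ∈ H) (g1 : g ≠ 1) (g2 : g * g = 1) (h2 : h * h = 1) (hc : g * h = h * g) : h ∈ H := by
  by_cases h1 : h = 1
  · rw [h1]; exact H.one_mem
  have e := hb.fix_eq hone g1 g2 h1 h2 hc
  have : ((1 : G) : G ⧸ H) ∈ fixedBy (G ⧸ H) g := (smul_mk_iff H g 1).mpr (by simpa using hg)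
  rw [e] at this
  simpa using (smul_mk_iff H h 1).mp this

/-- a sufficient condition. -/
theorem bin_of (h : ∀ (x0 x1 x2 : X) (a b : G), stabilizer G x0 ≠ stabilizer G x1 → a • x0 = x0 → b • x1 = x1 →
    a • x2 = b • x2 → a • x2 = x2) : Bin G X := by
  intro n I J hn hp
  have key : ∀ i j k : Fin n, ∀ g : G, g • I i = J i → k ≠ i →
      ∃ a : G, a • I i = I i ∧ a • I k = g⁻¹ • J k := by
    intro i j k g hg hk
    obtain ⟨u, u1, u2⟩ := hp i k hk.symm
    exact ⟨g⁻¹ * u, by rw [mul_smul, u1, ← hg, inv_smul_smul], by rw [mul_smul, u2]⟩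
  by_cases hall : ∀ i j, stabilizer G (I i) = stabilizer G (I j)
  · let i0 : Fin n := ⟨0, by omega⟩
    let i1 : Fin n := ⟨1, by omega⟩
    obtain ⟨g, g0, -⟩ := hp i0 i1 (by simp [i0, i1])
    refine ⟨g, fun k => ?_⟩
    by_cases hk : k = i0
    · rw [hk, g0]
    obtain ⟨a, a1, a2⟩ := key i0 i0 k g g0 hk
    have : a ∈ stabilizer G (I k) := hall i0 k ▸ a1
    rw [mem_stabilizer_iff, a2, inv_smul_eq_iff] at this
    exact this.symm
  push Not at hall
  obtain ⟨i, j, hij⟩ := hall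
  obtain ⟨g, gi, gj⟩ := hp i j (by rintro rfl; exact hij rfl)
  refine ⟨g, fun k => ?_⟩
  by_cases hk : k = i
  · rw [hk, gi]
  by_cases hk' : k = j
  · rw [hk', gj]
  obtain ⟨a, a1, a2⟩ := key i i k g gi hk
  obtain ⟨b, b1, b2⟩ := key j j k g gj hk'
  have := h _ _ _ a b hij a1 b1 (a2.trans b2.symm)
  rw [a2, inv_smul_eq_iff] at this
  exact this.symm

theorem bin_bot : Bin G (G ⧸ (⊥ : Subgroup G)) := by
  refine bin_of fun x0 x1 x2 a b _ ha _ _ => ?_
  induction x0 using QuotientGroup.induction_on with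
  | H g =>
  have := (smul_mk_iff ⊥ a g).mp ha
  rw [Subgroup.mem_bot] at this
  have : a = 1 := by
    calc a = g * (g⁻¹ * a * g) * g⁻¹ := by group
      _ = 1 := by rw [this]; group
  rw [this, one_smul]

/-- an elementary abelian 2-subgroup such that commuting nonidentity elements of two conjugates force the
conjugates to be equal. -/
theorem bin_of_elem {H : Subgroup G} (h2 : ∀ x ∈ H, x * x = 1)
    (hc : ∀ g : G, ∀ a ∈ H, ∀ b ∈ H, a ≠ 1 → b ≠ 1 → a * (g * b * g⁻¹) = (g * b * g⁻¹) * a →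
      ∀ x, x ∈ H ↔ g⁻¹ * x * g ∈ H) : Bin G (G ⧸ H) := by
  have sq : ∀ (x : G ⧸ H) (a : G), a • x = x → a * a = 1 := by
    intro x a ha
    induction x using QuotientGroup.induction_on with
    | H g =>
    have := h2 _ ((smul_mk_iff H a g).mp ha)
    calc a * a = g * (g⁻¹ * a * g * (g⁻¹ * a * g)) * g⁻¹ := by group
      _ = 1 := by rw [this]; group
  refine bin_of fun x0 x1 x2 a b hne ha hb hab => ?_
  by_cases a1 : a = 1
  · rw [a1, one_smul]
  by_cases b1 : b = 1
  · rw [hab, b1, one_smul]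
  exfalso
  apply hne
  have a2 := sq _ _ ha
  have b2 := sq _ _ hb
  have c2 := sq x2 (b * a) (by rw [mul_smul, hab, ← mul_smul, b2, one_smul])
  have hcomm : a * b = b * a := by
    calc a * b = (b * b) * (a * b) * (a * a) := by rw [a2, b2]; group
      _ = b * (b * a * (b * a)) * a := by group
      _ = b * a := by rw [c2]; group
  induction x0 using QuotientGroup.induction_on with
  | H g0 =>
  induction x1 using QuotientGroup.induction_on with
  | H g1 =>
  have := hc (g0⁻¹ * g1) _ ((smul_mk_iff H a g0).mp ha) _ ((smul_mk_iff H b g1).mp hb)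
    (fun e => a1 (by
      calc a = g0 * (g0⁻¹ * a * g0) * g0⁻¹ := by group
        _ = 1 := by rw [e]; group))
    (fun e => b1 (by
      calc b = g1 * (g1⁻¹ * b * g1) * g1⁻¹ := by group
        _ = 1 := by rw [e]; group))
    (by
      calc _ = g0⁻¹ * (a * b) * g0 := by group
        _ = g0⁻¹ * (b * a) * g0 := by rw [hcomm]
        _ = _ := by group)
  ext x
  rw [mem_stabilizer_iff, mem_stabilizer_iff, smul_mk_iff, smul_mk_iff, this]
  have : (g0⁻¹ * g1)⁻¹ * (g0⁻¹ * x * g0) * (g0⁻¹ * g1) = g1⁻¹ * x * g1 := by group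
  rw [this]

end Cfsg.Agent.Fil.Bn
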