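import Mathlib
import Cfsg.Agent.Fil.R
import Cfsg.Agent.RankOne.SzSolv
import Cfsg.Agent.RankOne.SzClass

set_option autoImplicit false
set_option linter.unusedSectionVars false

/-! Binary actions of the Suzuki groups. -/

namespace Cfsg.Agent.Fil.Bn

open MulAction Cfsg.Agent.RankOne Cfsg.Agent.RankOne.Sz Cfsg.Agent.RankOne.Sz.Model

variable {G Ω F : Type*} [Group G] [MulAction G Ω] [Field F] [Fintype F] {m : ℕ} (Z : Model G Ω F m)

include Z in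
theorem sz_one (s t : G) (s1 : s ≠ 1) (s2 : s * s = 1) (t1 : t ≠ 1) (t2 : t * t = 1) : IsConj s t :=
  (Z.isConj_involution s1 s2).symm.trans (Z.isConj_involution t1 t2)

theorem sz_le_B {H : Subgroup G} (hH : H ≠ ⊤) (h0 : ∀ b, Z.S 0 b ∈ H) : H ≤ Z.B := by
  by_contra hB
  obtain ⟨g, hg, hga⟩ := SetLike.not_le_iff_exists.mp hB
  have hs : g * Z.S 0 1 * g⁻¹ ∈ H := H.mul_mem (H.mul_mem hg (h0 1)) (H.inv_mem hg)
  have hs2 : g * Z.S 0 1 * g⁻¹ * (g * Z.S 0 1 * g⁻¹) = 1 := by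
    calc _ = g * (Z.S 0 1 * Z.S 0 1) * g⁻¹ := by group
      _ = 1 := by rw [S_zero_mul_self]; group
  have hsa : (g * Z.S 0 1 * g⁻¹) • Z.a ≠ Z.a := fun h =>
    hga (Z.mem_B_of_conj_fix (Z.S_mem 0 1) Z.S_zero_one_ne h)
  obtain ⟨k, hk1, hk2⟩ := Z.exists_conj_t hsa hs2
  have hall : ∀ w, (Z.conj k).S 0 w ∈ H := by
    intro w
    obtain ⟨b, hb⟩ := Z.exists_S_zero_of_involution (s := (Z.conj k).S 0 w)
      (by have := (Z.conj k).S_a 0 w; rwa [conj_a, hk1] at this) ((Z.conj k).S_zero_mul_self w)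
    rw [hb]; exact h0 b
  obtain ⟨κ, hκ⟩ := Z.exists_unit_ne_one
  obtain ⟨K, -, hK⟩ := (Z.conj k).sub_of_t_mem (H := H) (by rw [conj_t, hk2]; exact hs) (w := 1) (w' := κ)
    one_ne_zero κ.ne_zero (fun e => hκ (Units.ext e.symm)) (hall _) (hall _)
  apply hH
  have : K = ⊤ := by
    rw [eq_top_iff]
    intro w _
    have h1 := hall w
    rw [hK, mem_sub] at h1
    have h2 := h1 1 3
    rw [(Z.conj k).ρ_S] at h2
    simpa [Smat] using h2
  rw [hK, this, sub_top]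

theorem sz_no_torus {H : Subgroup G} (hb : Bin G (G ⧸ H)) (hB : H ≤ Z.B) (h0 : ∀ b, Z.S 0 b ∈ H)
    {κ : Fˣ} (hκ : κ ≠ 1) (hM : Z.M κ ∈ H) : False := by
  have := Z.charP
  set c : F := κ * Z.θ κ with hc
  have hc1 : c ≠ 1 := fun e => hκ (Units.ext (Z.one_of_mul_θ e))
  have hc2 : 1 + c ≠ 0 := fun e => hc1 (by grind)
  have hfix : ∀ g x : G, x • (g : G ⧸ H) = g → x • g • Z.a = g • Z.a := by
    intro g x hx
    have : (g⁻¹ * x * g) • Z.a = Z.a := hB ((smul_mk_iff H x g).mp hx)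
    rwa [mul_smul, mul_smul, inv_smul_eq_iff] at this
  have tM : ∀ l : Fˣ, Z.t⁻¹ * Z.M l * Z.t = (Z.M l)⁻¹ := by
    intro l; rw [Z.t_inv, Z.t_M_t, map_inv]
  set n := Z.S 0 (1 + c) with hn
  set n' := Z.S 0 1 with hn'
  have key : n * Z.M κ * n⁻¹ * Z.M κ = n' * (Z.M κ * Z.M κ) * n'⁻¹ := by
    have e1 : n⁻¹ = n := inv_eq_of_mul_self (Z.S_zero_mul_self _)
    have e2 : n'⁻¹ = n' := inv_eq_of_mul_self (Z.S_zero_mul_self _)
    rw [e1, e2]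
    calc n * Z.M κ * n * Z.M κ = n * (Z.M κ * n) * Z.M κ := by group
      _ = Z.S 0 (1 + c + c * (1 + c)) * (Z.M κ * Z.M κ) := by
        rw [hn, Z.M_mul_S, mul_zero, ← hc, ← Z.S_zero_mul (1 + c)]; simp only [mul_assoc]
      _ = Z.S 0 (1 + c * (c * 1)) * (Z.M κ * Z.M κ) := by
        congr 2; grind
      _ = n' * (Z.M κ * (Z.M κ * n')) := by
        rw [hn', Z.M_mul_S, ← mul_assoc (Z.M κ), Z.M_mul_S, mul_zero, mul_zero, ← hc, ← Z.S_zero_mul]; group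
      _ = _ := by group
  obtain ⟨g, g0, g1, g2, g3⟩ := hb.quad (x0 := ((1 : G) : G ⧸ H)) (x1 := (Z.t : G ⧸ H))
    (x2 := ((n * Z.t : G) : G ⧸ H)) (x3 := ((n' * Z.t : G) : G ⧸ H)) (a := Z.M κ)
    (b := n * (Z.M κ)⁻¹ * n⁻¹) ((smul_mk_iff _ _ _).mpr (by simpa using hM))
    ((smul_mk_iff _ _ _).mpr (by rw [tM]; exact H.inv_mem hM))
    ((smul_mk_iff _ _ _).mpr (by
      simpa using H.mul_mem (H.mul_mem (h0 _) (H.inv_mem hM)) (H.inv_mem (h0 (1 + c)))))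
    ((smul_mk_iff _ _ _).mpr (by
      have : (n * Z.t)⁻¹ * (n * (Z.M κ)⁻¹ * n⁻¹) * (n * Z.t) = (Z.t⁻¹ * Z.M κ * Z.t)⁻¹ := by group
      rw [this, tM, inv_inv]; exact hM))
    (by
      rw [← inv_smul_eq_iff, ← mul_smul, smul_mk_iff]
      have : (n' * Z.t)⁻¹ * ((n * (Z.M κ)⁻¹ * n⁻¹)⁻¹ * Z.M κ) * (n' * Z.t) =
          (Z.t⁻¹ * Z.M κ * Z.t) * (Z.t⁻¹ * Z.M κ * Z.t) := by
        have : (n * (Z.M κ)⁻¹ * n⁻¹)⁻¹ * Z.M κ = n * Z.M κ * n⁻¹ * Z.M κ := by group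
        rw [this, key]; group
      rw [this, tM]
      exact H.mul_mem (H.inv_mem hM) (H.inv_mem hM))
  have ne1 : ∀ b : F, b ≠ 0 → Z.t • Z.a ≠ (Z.S 0 b * Z.t) • Z.a := by
    intro b hb e
    have : Z.S 0 0 • Z.t • Z.a = Z.S 0 b • Z.t • Z.a := by rw [Z.S_zero, one_smul, ← mul_smul]; exact e
    exact hb (Z.point_inj this).2.symm
  have ne2 : ∀ b : F, Z.a ≠ (Z.S 0 b * Z.t) • Z.a := fun b e => Z.point_ne 0 b (by rw [← mul_smul]; exact e.symm)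
  have hg : g = 1 := Z.one_of_fix_three Z.ta_ne.symm (ne1 _ hc2) (ne2 _)
    (by simpa using hfix _ _ g0) (hfix _ _ g1) (hfix _ _ g2)
  rw [hg, one_smul] at g3
  exact Z.M_ne_one hκ (Z.one_of_fix_three Z.ta_ne.symm (ne1 _ one_ne_zero) (ne2 _) (Z.M_a κ) (Z.M_b κ)
    (hfix _ _ g3.symm))

theorem sz_vt_four : (Z.S 1 0 * Z.t) ^ 4 = 1 := by
  have := Z.charP
  apply Z.ρ_inj
  rw [map_pow, map_mul, Z.ρ_S, Z.ρ_t, map_one]
  have h2 : (1 : F) + 1 = 0 := by grind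
  ext i j
  fin_cases i <;> fin_cases j <;>
    simp [Smat, Jmat, ff, pow_succ, Matrix.mul_apply, Fin.sum_univ_succ, h2]

theorem sz_vt_sq : (Z.S 1 0 * Z.t) * (Z.S 1 0 * Z.t) ≠ 1 := by
  have := Z.charP
  intro h
  have h1 := congrArg Z.ρ h
  rw [map_mul, map_mul, Z.ρ_S, Z.ρ_t, map_one] at h1
  have h2 : (1 : F) + 1 = 0 := by grind
  have h3 := congrFun (congrFun h1 3) 0
  simp [Smat, Jmat, ff, Matrix.mul_apply, Fin.sum_univ_succ, h2] at h3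

theorem sz_trans (c : Ω) : ∃ g : G, g • Z.a = c := by
  by_cases hc : c = Z.a
  · exact ⟨1, by rw [hc, one_smul]⟩
  · obtain ⟨x, y, rfl⟩ := Z.exists_point hc
    exact ⟨Z.S x y * Z.t, mul_smul _ _ _⟩

theorem sz_no_four {H : Subgroup G} (hb : Bin G (G ⧸ H)) (hQ : H ≤ Z.Q) (h1 : ∀ y, Z.S 1 y ∈ H) : False := by
  have := Z.finite
  have := Z.charP
  have h0 : Z.S 0 1 ∈ H := by
    have := H.mul_mem (h1 0) (h1 0)
    rw [Z.S_sq] at this
    simpa using this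
  have v1 : Z.S 1 0 ≠ 1 := by simp [S_eq_one_iff]
  set u := Z.S 1 0 * Z.t with hu
  obtain ⟨g, hg⟩ : ∃ g : G, g⁻¹ * u * g ∈ H := by
    have hp : IsPGroup 2 (Subgroup.zpowers u) := by
      apply IsPGroup.of_card_dvd_pow (n := 2)
      rw [Nat.card_zpowers]
      exact orderOf_dvd_of_pow_eq_one (sz_vt_four Z)
    obtain ⟨Y, hY⟩ := Z.exists_model_of_isPGroup hp
    obtain ⟨g, hg⟩ := sz_trans Z Y.a
    have h2 : (g⁻¹ * u * g) • Z.a = Z.a := by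
      rw [mul_smul, mul_smul, hg, inv_smul_eq_iff, hg]
      exact Y.Q_le_B (hY (Subgroup.mem_zpowers u))
    have h3 : g⁻¹ * u * g ∈ Z.Q := (Z.mem_Q_iff_pow_four h2).mpr (by
      have : (g⁻¹ * u * g) ^ 4 = g⁻¹ * u ^ 4 * g := by
        have := conj_pow (a := g⁻¹) (b := u) (i := 4)
        simpa using this
      rw [this, sz_vt_four Z]; group)
    obtain ⟨x, y, hxy⟩ := (Z.mem_Q _).mp h3
    have hx : x ≠ 0 := by
      rintro rfl
      apply sz_vt_sq Z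
      calc u * u = g * ((g⁻¹ * u * g) * (g⁻¹ * u * g)) * g⁻¹ := by group
        _ = 1 := by rw [hxy, Z.S_zero_mul_self]; group
    refine ⟨g * (Z.M (Units.mk0 x hx)⁻¹)⁻¹, ?_⟩
    have : (g * (Z.M (Units.mk0 x hx)⁻¹)⁻¹)⁻¹ * u * (g * (Z.M (Units.mk0 x hx)⁻¹)⁻¹) =
        Z.M (Units.mk0 x hx)⁻¹ * (g⁻¹ * u * g) * (Z.M (Units.mk0 x hx)⁻¹)⁻¹ := by group
    rw [this, hxy, Z.M_conj_S]
    simpa [inv_mul_cancel₀ hx] using h1 _
  obtain ⟨k, hk⟩ := isConj_iff.mp (Z.isConj_involution Z.t_ne_one Z.t_mul_t)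
  obtain ⟨g0, a1, a2, a3⟩ := hb.tri (x1 := ((1 : G) : G ⧸ H)) (x2 := (k : G ⧸ H)) (x3 := (g : G ⧸ H))
    (a := (Z.S 1 0)⁻¹) (b := Z.t) ((smul_mk_iff _ _ _).mpr (by simpa using h1 0))
    ((smul_mk_iff _ _ _).mpr (by rw [← hk]; simpa [mul_assoc] using h0))
    (by
      rw [inv_smul_eq_iff, ← mul_smul, eq_comm, smul_mk_iff]; exact hg)
  have b1 : g0 ∈ Z.Q := hQ (by simpa using (smul_mk_iff _ _ _).mp a1)
  have b2 : k⁻¹ * g0 * k⁻¹⁻¹ ∈ Z.Q := hQ (by simpa using (smul_mk_iff _ _ _).mp a2)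
  by_cases h01 : g0 = 1
  · rw [h01, one_smul, eq_comm, inv_smul_eq_iff, eq_comm, smul_mk_iff] at a3
    have b3 : g⁻¹ • Z.a = Z.a := Z.mem_B_of_conj_mem_Q (Z.S_mem 1 0) v1 (by simpa using hQ a3)
    have b4 : (g⁻¹ * u * g) • Z.a = Z.a := Z.Q_le_B (hQ hg)
    have b5 : g • Z.a = Z.a := (inv_smul_eq_iff.mp b3).symm
    rw [mul_smul, mul_smul, b5, inv_smul_eq_iff, b5, hu, mul_smul] at b4
    exact Z.point_ne 1 0 b4
  · have b3 : k⁻¹ • Z.a = Z.a := Z.mem_B_of_conj_mem_Q b1 h01 b2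
    apply Z.ta_ne
    rw [← hk, mul_smul, mul_smul, b3, Z.S_a]
    exact (inv_smul_eq_iff.mp b3).symm

theorem sz_trace_conj (g x : G) : (Z.ρ (g * x * g⁻¹)).trace = (Z.ρ x).trace := by
  rw [map_mul, Matrix.trace_mul_comm, ← map_mul, inv_mul_cancel_left]

theorem sz_trace_S (b : F) : (Z.ρ (Z.S 0 b)).trace = 0 := by
  have := Z.charP
  rw [Z.ρ_S]
  simp [Smat, Matrix.trace, Fin.sum_univ_succ]
  grind

theorem sz_trace_St (b : F) : (Z.ρ (Z.S 0 b * Z.t)).trace = Z.θ b := by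
  rw [map_mul, Z.ρ_S, Z.ρ_t]
  simp [Smat, Jmat, ff, Matrix.trace, Matrix.mul_apply, Fin.sum_univ_succ]

theorem sz_trace_comm (a b : F) :
    (Z.ρ (Z.t * (Z.S a b * Z.t * (Z.S a b)⁻¹))).trace = ff Z.θ a (b + a + Z.θ a + a * Z.θ a) ^ 2 := by
  have := Z.charP
  rw [Z.S_inv, map_mul, map_mul, map_mul, Z.ρ_S, Z.ρ_S, Z.ρ_t]
  simp [Smat, Jmat, ff, Matrix.trace, Matrix.mul_apply, Fin.sum_univ_succ, Z.θθ]
  grind

theorem sz_prod {s r : G} (s1 : s ≠ 1) (s2 : s * s = 1) (r2 : r * r = 1) :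
    ∃ (g : G) (b : F), s = g * Z.S 0 b * g⁻¹ ∧ (r = g * Z.t * g⁻¹ ∨ ∃ c, r = g * Z.S 0 c * g⁻¹) := by
  obtain ⟨k, hk⟩ := isConj_iff.mp (Z.isConj_involution s1 s2)
  by_cases hr : r • k • Z.a = k • Z.a
  · obtain ⟨c, hc⟩ := (Z.conj k).exists_S_zero_of_involution hr r2
    exact ⟨k, 1, hk.symm, Or.inr ⟨c, hc⟩⟩
  · obtain ⟨g, g1, g2⟩ := Z.exists_conj_t hr r2
    obtain ⟨b, hb⟩ := (Z.conj g).exists_S_zero_of_involution (s := s)
      (by rw [conj_a, g1, ← hk, mul_smul, mul_smul, inv_smul_smul, Z.S_a]) s2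
    exact ⟨g, b, hb, Or.inl g2.symm⟩

theorem sz_exists_ff {τ : F} (hτ : τ ≠ 0) (a0 : F) : ∃ a b : F, a ≠ 0 ∧ a ≠ a0 ∧ ff Z.θ a b = τ := by
  have := Z.charP
  have inj : Function.Injective fun x : F => Z.θ x * x ^ 2 := by
    intro x y h
    simp only at h
    have h2 := congrArg Z.θ h
    simp only [map_mul, map_pow, Z.θθ] at h2
    by_cases hx : x = 0
    · subst hx
      simp at h
      exact h.symm
    have hy : y ≠ 0 := by
      rintro rfl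
      simp at h
      exact hx h
    have h3 : Z.θ x = Z.θ y := by
      have hx' : Z.θ x * x ^ 2 ≠ 0 := by simpa using hx
      apply mul_left_cancel₀ hx'
      calc Z.θ x * x ^ 2 * Z.θ x = x ^ 2 * Z.θ x ^ 2 := by ring
        _ = Z.θ y * y ^ 2 * Z.θ y := by rw [h2]; ring
        _ = _ := by rw [h]
    exact Z.θ.injective h3
  have surj := Finite.injective_iff_surjective.mp inj
  have key : ∀ y : F, ∃ k : F, k ≠ 0 ∧ Z.θ k * k ^ 2 * ff Z.θ 1 y = τ := by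
    intro y
    have h1 : ff Z.θ 1 y ≠ 0 := ff_ne_zero Z.θθ (by simp)
    obtain ⟨k, hk⟩ := surj (τ / ff Z.θ 1 y)
    simp only at hk
    refine ⟨k, ?_, by rw [hk]; field_simp⟩
    rintro rfl
    simp only [map_zero, zero_mul] at hk
    exact div_ne_zero hτ h1 hk.symm
  have sc : ∀ k y : F, ff Z.θ k (k * Z.θ k * y) = Z.θ k * k ^ 2 * ff Z.θ 1 y := by
    intro k y
    simp [ff, Z.θθ]
    ring
  obtain ⟨k0, k01, k02⟩ := key 0
  by_cases h0 : k0 = a0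
  · obtain ⟨y, hy⟩ := Z.exists_θ_ne_self
    obtain ⟨k, k1, k2⟩ := key y
    refine ⟨k, _, k1, ?_, (sc k y).trans k2⟩
    rintro rfl
    rw [← h0, ← k02] at k2
    have h3 := mul_left_cancel₀ (by simpa using k01) k2
    simp [ff] at h3
    apply hy
    grind
  · exact ⟨k0, _, k01, h0, (sc k0 0).trans k02⟩

theorem sz_no_odd_aux {H : Subgroup G} (hb : Bin G (G ⧸ H)) {γ : F} (hu : Z.S 0 γ * Z.t ∈ H)
    (h4 : (Z.S 0 γ * Z.t) ^ 4 ≠ 1) (hH : H ≤ Subgroup.centralizer {Z.S 0 γ * Z.t}) : False := by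
  have := Z.charP
  set u := Z.S 0 γ * Z.t with hu'
  have hγ : γ ≠ 0 := by
    rintro rfl
    apply h4
    rw [hu', Z.S_zero, one_mul, show 4 = 2 * 2 from rfl, pow_mul, sq Z.t, Z.t_mul_t, one_pow]
  have u1 : u ≠ 1 := by rintro e; exact h4 (by rw [e, one_pow])
  obtain ⟨a0, ha0⟩ := Z.exists_mul_θ γ
  obtain ⟨a, b', ha, haa, hab⟩ := sz_exists_ff Z (τ := Z.ψ γ)
    (by simpa using hγ) a0
  set r := Z.S a (b' + a + Z.θ a + a * Z.θ a) with hr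
  have tr : (Z.ρ (Z.t * (r * Z.t * r⁻¹))).trace = Z.θ γ := by
    rw [hr, sz_trace_comm, show b' + a + Z.θ a + a * Z.θ a + a + Z.θ a + a * Z.θ a = b' by grind, hab, Z.ψ_sq]
  obtain ⟨g, hg⟩ : ∃ g : G, Z.t * (r * Z.t * r⁻¹) = g * u * g⁻¹ := by
    obtain ⟨g, b, e1, e2 | ⟨c, e2⟩⟩ := sz_prod Z (r := r * Z.t * r⁻¹) Z.t_ne_one Z.t_mul_t (by
      calc _ = r * (Z.t * Z.t) * r⁻¹ := by group
        _ = 1 := by rw [Z.t_mul_t]; group)
    · have e3 : Z.t * (r * Z.t * r⁻¹) = g * (Z.S 0 b * Z.t) * g⁻¹ := by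
        rw [e2]; nth_rw 1 [e1]; group
      rw [e3, sz_trace_conj, sz_trace_St] at tr
      exact ⟨g, by rw [e3, Z.θ.injective tr]⟩
    · have e3 : Z.t * (r * Z.t * r⁻¹) = g * (Z.S 0 (b + c)) * g⁻¹ := by
        rw [e2, ← Z.S_zero_mul]; nth_rw 1 [e1]; group
      rw [e3, sz_trace_conj, sz_trace_S] at tr
      exact absurd tr.symm (by simpa using hγ)
  have hrs : r * Z.S 0 γ * r⁻¹ = Z.S 0 γ := by rw [hr, ← Z.S_zero_comm, mul_inv_cancel_right]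
  have e4 : u⁻¹ * (r * u * r⁻¹) = g * u * g⁻¹ := by
    rw [← hg]
    calc u⁻¹ * (r * u * r⁻¹) = Z.t⁻¹ * (Z.S 0 γ)⁻¹ * (r * Z.S 0 γ * r⁻¹) * (r * Z.t * r⁻¹) := by
          rw [hu']; group
      _ = _ := by rw [hrs, Z.t_inv]; group
  obtain ⟨g0, a1, a2, a3⟩ := hb.tri (x1 := (r : G ⧸ H)) (x2 := ((1 : G) : G ⧸ H)) (x3 := (g : G ⧸ H))
    (a := r * u * r⁻¹) (b := u) ((smul_mk_iff _ _ _).mpr (by simpa [mul_assoc] using hu))
    ((smul_mk_iff _ _ _).mpr (by simpa using hu))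
    (by rw [← inv_smul_eq_iff, ← mul_smul, e4, smul_mk_iff]; simpa [mul_assoc] using hu)
  have hN : r ∈ Subgroup.normalizer (Subgroup.centralizer ({u} : Set G) : Set G) := by
    by_cases h01 : g0 = 1
    · rw [h01, one_smul, eq_comm, smul_mk_iff] at a3
      have c1 : g⁻¹ * (r * u * r⁻¹) * g * u = u * (g⁻¹ * (r * u * r⁻¹) * g) :=
        Subgroup.mem_centralizer_singleton_iff.mp (hH a3)
      refine Z.tor_TI h4 (self_mem_cent u) u1 (Subgroup.mem_centralizer_singleton_iff.mpr ?_)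
      have c2 : (r * u * r⁻¹) * (g * u * g⁻¹) = (g * u * g⁻¹) * (r * u * r⁻¹) := by
        calc _ = g * (g⁻¹ * (r * u * r⁻¹) * g * u) * g⁻¹ := by group
          _ = _ := by rw [c1]; group
      rw [← e4] at c2
      generalize r * u * r⁻¹ = w at c2
      have c3 : w * u⁻¹ = u⁻¹ * w := mul_right_cancel (b := w) (by rw [mul_assoc, c2])
      calc w * u = u * (u⁻¹ * w) * u := by group
        _ = u * w := by rw [← c3]; group
    · have c1 : g0 ∈ H := by simpa using (smul_mk_iff _ _ _).mp a2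
      have c2 : r⁻¹ * g0 * r⁻¹⁻¹ ∈ H := by simpa using (smul_mk_iff _ _ _).mp a1
      exact (Subgroup.inv_mem_iff _).mp (Z.tor_TI h4 (hH c1) h01 (hH c2))
  have r2 : r * r = Z.S 0 (Z.θ a * a) := Z.S_sq _ _
  have i1 := Z.inverts_of_mem_norm h4 (s := Z.S 0 (Z.θ a * a)) (by simpa [S_eq_one_iff] using ha)
    (Z.S_zero_mul_self _) (r2 ▸ Subgroup.mul_mem _ hN hN)
  have i2 : Z.S 0 γ * u * Z.S 0 γ = u⁻¹ := by
    rw [hu', ← mul_assoc, Z.S_zero_mul_self, one_mul, mul_inv_rev, Z.t_inv,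
      inv_eq_of_mul_self (Z.S_zero_mul_self γ)]
  have i3 : Z.S 0 (γ + Z.θ a * a) ∈ Subgroup.centralizer ({u} : Set G) := by
    rw [Subgroup.mem_centralizer_singleton_iff]
    calc Z.S 0 (γ + Z.θ a * a) * u = Z.S 0 γ * (Z.S 0 (Z.θ a * a) * u * Z.S 0 (Z.θ a * a)) *
          (Z.S 0 (Z.θ a * a))⁻¹ := by rw [← Z.S_zero_mul]; group
      _ = (Z.S 0 γ * (Z.S 0 γ)) * u * (Z.S 0 γ * (Z.S 0 (Z.θ a * a))⁻¹) := by rw [i1, ← i2]; group
      _ = _ := by rw [Z.S_zero_mul_self, one_mul, inv_eq_of_mul_self (Z.S_zero_mul_self _), Z.S_zero_mul]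
  have i4 := Z.tor_one_of_pow_four h4 i3 (Z.pow_four_of_mem_Q (Z.S_mem _ _))
  rw [S_eq_one_iff] at i4
  apply haa
  apply Z.mul_θ_inj
  grind

include Z in
theorem sz_no_odd {H : Subgroup G} (hb : Bin G (G ⧸ H)) (h0 : H ≠ ⊥) (ho : Odd (Nat.card H)) : False := by
  have := Z.finite
  have h4 : ∀ g ∈ H, g ≠ 1 → g ^ 4 ≠ 1 := by
    intro g hg g1 h
    apply g1
    apply eq_one_of_mul_self ho hg
    apply eq_one_of_mul_self ho (H.mul_mem hg hg)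
    rw [← h]; simp only [pow_succ, pow_zero, one_mul, mul_assoc]
  have hs : Group.IsSolvable H := by
    rcases Z.solvable_or_four H with h | ⟨Y, b, c, hb, -, -, h1, -⟩
    · exact h
    · exact absurd (Y.pow_four_of_mem_Q (Y.S_mem 0 b)) (h4 _ h1 (by simpa [S_eq_one_iff] using hb))
  obtain ⟨A, A0, AH, Ac, An⟩ := exists_abelian_normal hs h0
  obtain ⟨⟨u, hu⟩, u1⟩ := (Subgroup.ne_bot_iff_exists_ne_one).mp A0
  have u1 : u ≠ 1 := by simpa using u1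
  have u4 := h4 u (AH hu) u1
  have hH : H ≤ Subgroup.centralizer {u} := by
    intro g hg
    by_cases g1 : g = 1
    · rw [g1]; exact Subgroup.one_mem _
    have hN := Z.tor_TI u4 (self_mem_cent u) u1
      (Subgroup.mem_centralizer_singleton_iff.mpr (Ac _ (An g hg u hu) u hu))
    rw [← Z.tor_cent_eq u4 hN (h4 g hg g1)]
    exact self_mem_cent g
  have hev : Even (Nat.card (Subgroup.normalizer (Subgroup.centralizer ({u} : Set G) : Set G))) := by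
    by_cases hf : ∃ c : Ω, u • c = c
    · obtain ⟨c, hc⟩ := hf
      rw [Z.tor_card_norm_fix u4 hc]; exact even_two_mul _
    · push Not at hf
      rw [Z.card_normalizer_torus hf]; exact (by decide : Even 4).mul_right _
  obtain ⟨s, hs, s1, s2⟩ := exists_involution_mem hev
  have hi := Z.inverts_of_mem_norm u4 s1 s2 hs
  obtain ⟨g, b, e1, e2 | ⟨c, e2⟩⟩ := sz_prod Z (r := s * u) s1 s2 (by rw [← mul_assoc, hi, inv_mul_cancel])
  · have e : (Z.conj g).S 0 b * (Z.conj g).t = u := by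
      rw [conj_S, conj_t, ← e1, ← e2, ← mul_assoc, s2, one_mul]
    exact sz_no_odd_aux (Z.conj g) hb (γ := b) (e ▸ AH hu) (e ▸ u4) (e ▸ hH)
  · have e : (Z.conj g).S 0 b * (Z.conj g).S 0 c = u := by
      rw [conj_S, conj_S, ← e1, ← e2, ← mul_assoc, s2, one_mul]
    rw [S_zero_mul] at e
    exact u4 (e ▸ (Z.conj g).pow_four_of_mem_Q ((Z.conj g).S_mem _ _))

theorem sz_mem_center (x : G) :
    x ∈ (Subgroup.center Z.Q).map Z.Q.subtype ↔ ∃ b, x = Z.S 0 b := by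
  constructor
  · rintro ⟨y, hy, rfl⟩
    exact (Z.mem_center_Q_iff y).mp hy
  · rintro ⟨b, rfl⟩
    exact ⟨⟨_, Z.S_mem 0 b⟩, (Z.mem_center_Q_iff _).mpr ⟨b, rfl⟩, rfl⟩

include Z in
theorem sz_even {H : Subgroup G} (hb : Bin G (G ⧸ H)) (hH : H ≠ ⊤) (he : Even (Nat.card H)) :
    ∃ P : Sylow 2 G, H = (Subgroup.center (P : Subgroup G)).map (P : Subgroup G).subtype := by
  have := Z.finite
  have := Z.charP
  obtain ⟨s, hs, s1, s2⟩ := exists_involution_mem he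
  obtain ⟨k, hk⟩ := isConj_iff.mp (Z.isConj_involution s1 s2)
  have all : ∀ Y : Model G Ω F m, Y.a = k • Z.a → ∀ b, Y.S 0 b ∈ H := by
    intro Y hY b
    obtain ⟨c, rfl⟩ := Y.exists_S_zero_of_involution (s := s)
      (by rw [hY, ← hk, mul_smul, mul_smul, inv_smul_smul, Z.S_a]) s2
    exact hb.mem_of_comm (sz_one Z) hs s1 s2 (Y.S_zero_mul_self b) (Y.S_zero_comm _ _ _)
  set Y := Z.conj k with hY
  have hB := sz_le_B Y hH (all Y rfl)
  have hQ : H ≤ Y.Q := by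
    intro g hg
    obtain ⟨W, hW, h | ⟨κ, hκ, rfl⟩⟩ := Z.exists_model_of_fix (hB hg)
    · rwa [Y.Q_eq_of_a_eq W hW] at h
    · exact (sz_no_torus W hb (by rw [B, hW]; exact hB) (all W hW) hκ hg).elim
  refine ⟨Y.sylowQ, ?_⟩
  ext x
  rw [Y.coe_sylowQ, sz_mem_center]
  constructor
  · intro hx
    obtain ⟨a, b, rfl⟩ := (Y.mem_Q x).mp (hQ hx)
    by_cases ha : a = 0
    · exact ⟨b, by rw [ha]⟩
    exfalso
    have hW : (Y.conj (Y.M (Units.mk0 a ha))).a = Y.a := Y.M_a _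
    refine sz_no_four (Y.conj (Y.M (Units.mk0 a ha))) hb (by rw [Y.Q_eq_of_a_eq _ hW]; exact hQ) fun y => ?_
    rw [conj_S, Y.M_conj_S]
    have := H.mul_mem (all Y rfl (a * Y.θ a * y + b)) hx
    rw [Y.S_mul] at this
    convert this using 2
    · simp
    · simp; grind
  · rintro ⟨b, rfl⟩
    exact all Y rfl b

theorem sz_bin_center : Bin G (G ⧸ (Subgroup.center Z.Q).map Z.Q.subtype) := by
  apply bin_of_elem
  · intro x hx
    obtain ⟨b, rfl⟩ := (sz_mem_center Z x).mp hx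
    exact Z.S_zero_mul_self b
  · intro g a ha b hb a1 b1 hc
    obtain ⟨a, rfl⟩ := (sz_mem_center Z a).mp ha
    obtain ⟨b, rfl⟩ := (sz_mem_center Z b).mp hb
    have h1 := Z.mem_B_of_conj_mem_Q (Z.S_mem 0 b) b1 (Z.mem_Q_of_comm (Z.S_mem 0 a) a1 hc.symm)
    have h2 : g⁻¹ • Z.a = Z.a := by rw [inv_smul_eq_iff, h1]
    intro x
    rw [sz_mem_center, sz_mem_center]
    constructor
    · rintro ⟨c, rfl⟩
      obtain ⟨κ, h, -⟩ := Z.B_conj_S_zero h2 c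
      exact ⟨_, by simpa using h⟩
    · rintro ⟨c, hc⟩
      obtain ⟨κ, h, -⟩ := Z.B_conj_S_zero h1 c
      exact ⟨_, by rw [← h, ← hc]; group⟩

include Z in
theorem sz_main (H : Subgroup G) (hH : H ≠ ⊤) : Bin G (G ⧸ H) ↔
    (H = ⊥ ∨ ∃ P : Sylow 2 G, H = (Subgroup.center (P : Subgroup G)).map (P : Subgroup G).subtype) := by
  constructor
  · intro hb
    by_cases h0 : H = ⊥
    · exact Or.inl h0
    rcases Nat.even_or_odd (Nat.card H) with h | h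
    · exact Or.inr (sz_even Z hb hH h)
    · exact (sz_no_odd Z hb h0 h).elim
  · rintro (rfl | ⟨P, rfl⟩)
    · exact bin_bot
    · obtain ⟨Y, hY⟩ := Z.exists_model_sylow P
      rw [← hY]
      exact sz_bin_center Y

end Cfsg.Agent.Fil.Bn
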