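import Mathlib
import Cfsg.Agent.Fil.R
import Cfsg.Agent.Herm.SU3

set_option autoImplicit false
set_option linter.unusedSectionVars false

/-! A matrix model of `SU₃(q)`, `q` even, in a hyperbolic basis. -/

namespace Cfsg.Agent.Fil.U3

open Matrix Cfsg.Agent.Herm

variable {F : Type*} [Field F]

def Jm (F : Type*) [Field F] : Matrix (Fin 3) (Fin 3) F := !![0, 0, 1; 0, 1, 0; 1, 0, 0]
def Sm (σ : F →+* F) (a b : F) : Matrix (Fin 3) (Fin 3) F := !![1, σ a, b; 0, 1, a; 0, 0, 1]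
def Dm (σ : F →+* F) (l : F) : Matrix (Fin 3) (Fin 3) F := !![l, 0, 0; 0, σ l / l, 0; 0, 0, (σ l)⁻¹]
def Pm (σ : F →+* F) (l m : F) : Matrix (Fin 3) (Fin 3) F :=
  !![l * m ^ 2, σ l * m, l ^ 2 * m ^ 2; m, 0, σ l * m; m ^ 2, m, l * m ^ 2]

structure Mod (G F : Type*) [Group G] [Field F] (q : ℕ) where
  σ : F →+* F
  ρ : G →* Matrix (Fin 3) (Fin 3) F
  two : CharP F 2
  fin : Finite F
  inv : Inv σ
  cardF : Nat.card F = q ^ 2
  inj : Function.Injective ρ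
  form : ∀ g, ((ρ g).map σ)ᵀ * Jm F * ρ g = Jm F
  det : ∀ g, (ρ g).det = 1
  surj : ∀ A : Matrix (Fin 3) (Fin 3) F, (A.map σ)ᵀ * Jm F * A = Jm F → A.det = 1 → ∃ g, ρ g = A
  ν : F
  ν1 : ν * σ ν = 1
  ν3 : ν ^ 3 ≠ 1
  syl : ∀ P : Sylow 2 G, Nat.card P = q ^ 3
  qpow : ∃ n, q = 2 ^ n

namespace Mod

variable {G : Type*} [Group G] {q : ℕ} (Z : Mod G F q)

theorem σσ (x : F) : Z.σ (Z.σ x) = x := Z.inv.invol x

include Z in
theorem finite : Finite G := by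
  have := Z.fin
  exact Finite.of_injective _ Z.inj

theorem f (g : G) (i j : Fin 3) :
    Z.σ (Z.ρ g 0 i) * Z.ρ g 2 j + Z.σ (Z.ρ g 1 i) * Z.ρ g 1 j + Z.σ (Z.ρ g 2 i) * Z.ρ g 0 j = Jm F i j := by
  have := congrFun (congrFun (Z.form g) i) j
  rw [← this]
  simp [Matrix.mul_apply, Fin.sum_univ_succ, Jm]
  ring

theorem d (g : G) : Z.ρ g 0 0 * Z.ρ g 1 1 * Z.ρ g 2 2 - Z.ρ g 0 0 * Z.ρ g 1 2 * Z.ρ g 2 1 -
    Z.ρ g 0 1 * Z.ρ g 1 0 * Z.ρ g 2 2 + Z.ρ g 0 1 * Z.ρ g 1 2 * Z.ρ g 2 0 + Z.ρ g 0 2 * Z.ρ g 1 0 * Z.ρ g 2 1 -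
    Z.ρ g 0 2 * Z.ρ g 1 1 * Z.ρ g 2 0 = 1 := by
  rw [← Matrix.det_fin_three, Z.det]

open scoped _root_.Classical in
noncomputable def el (A : Matrix (Fin 3) (Fin 3) F) : G := if h : ∃ g, Z.ρ g = A then h.choose else 1

theorem ρ_el {A : Matrix (Fin 3) (Fin 3) F} (h1 : (A.map Z.σ)ᵀ * Jm F * A = Jm F) (h2 : A.det = 1) :
    Z.ρ (Z.el A) = A := by
  have h := Z.surj A h1 h2
  rw [el, dif_pos h]
  exact h.choose_spec

noncomputable def S (a b : F) : G := Z.el (Sm Z.σ a b)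
noncomputable def M (l : F) : G := Z.el (Dm Z.σ l)
noncomputable def t : G := Z.el (Jm F)
noncomputable def p (l m : F) : G := Z.el (Pm Z.σ l m)

def ok (a b : F) : Prop := b + Z.σ b = Z.σ a * a

theorem ρ_S {a b : F} (h : Z.ok a b) : Z.ρ (Z.S a b) = Sm Z.σ a b := by
  have := Z.two
  unfold ok at h
  apply Z.ρ_el
  · ext i j
    fin_cases i <;> fin_cases j <;> simp [Sm, Jm, Matrix.mul_apply, Fin.sum_univ_succ, Z.σσ] <;> grind
  · simp [Sm, Matrix.det_fin_three]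

theorem ρ_M {l : F} (h : l ≠ 0) : Z.ρ (Z.M l) = Dm Z.σ l := by
  have h' : Z.σ l ≠ 0 := by simpa using h
  apply Z.ρ_el
  · ext i j
    fin_cases i <;> fin_cases j <;> simp [Dm, Jm, Matrix.mul_apply, Fin.sum_univ_succ, Z.σσ, h, h']
  · simp [Dm, Matrix.det_fin_three]
    field_simp

theorem ρ_t : Z.ρ Z.t = Jm F := by
  have := Z.two
  apply Z.ρ_el
  · ext i j
    fin_cases i <;> fin_cases j <;> simp [Jm, Matrix.mul_apply, Fin.sum_univ_succ]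
  · simp [Jm, Matrix.det_fin_three]
    grind

theorem ρ_p {l m : F} (h1 : l * Z.σ l = 1) (h2 : Z.σ m = m) (h3 : m ^ 2 * (l + Z.σ l) = 1) :
    Z.ρ (Z.p l m) = Pm Z.σ l m := by
  have := Z.two
  apply Z.ρ_el
  · ext i j
    fin_cases i <;> fin_cases j <;> simp [Pm, Jm, Matrix.mul_apply, Fin.sum_univ_succ, Z.σσ, h2] <;> grind
  · simp [Pm, Matrix.det_fin_three, Z.σσ]
    grind

/-- `g` fixes the line spanned by `v`, with eigenvalue `c`. -/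
def Fx (g : G) (v : Fin 3 → F) (c : F) : Prop := Z.ρ g *ᵥ v = c • v

theorem Fx.mul {Z : Mod G F q} {g h : G} {v : Fin 3 → F} {c d : F} (h1 : Z.Fx g v c) (h2 : Z.Fx h v d) :
    Z.Fx (g * h) v (c * d) := by
  unfold Fx at *
  rw [map_mul, ← mulVec_mulVec, h2, mulVec_smul, h1, smul_smul, mul_comm]

theorem mv_inv (g : G) (v : Fin 3 → F) : Z.ρ g⁻¹ *ᵥ (Z.ρ g *ᵥ v) = v := by
  rw [mulVec_mulVec, ← map_mul, inv_mul_cancel, map_one, one_mulVec]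

theorem mv_inv' (g : G) (v : Fin 3 → F) : Z.ρ g *ᵥ (Z.ρ g⁻¹ *ᵥ v) = v := by
  rw [mulVec_mulVec, ← map_mul, mul_inv_cancel, map_one, one_mulVec]

theorem Fx.ne {Z : Mod G F q} {g : G} {v : Fin 3 → F} {c : F} (h : Z.Fx g v c) (hv : v ≠ 0) : c ≠ 0 := by
  rintro rfl
  apply hv
  rw [← Z.mv_inv g v, h, zero_smul, mulVec_zero]

theorem Fx.inv {Z : Mod G F q} {g : G} {v : Fin 3 → F} {c : F} (h : Z.Fx g v c) (hv : v ≠ 0) :
    Z.Fx g⁻¹ v c⁻¹ := by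
  have h1 := Z.mv_inv g v
  rw [h, mulVec_smul] at h1
  unfold Fx
  rw [eq_inv_smul_iff₀ (h.ne hv), h1]

theorem fx_conj {g k : G} {v : Fin 3 → F} {c : F} : Z.Fx (k⁻¹ * g * k) v c ↔ Z.Fx g (Z.ρ k *ᵥ v) c := by
  unfold Fx
  rw [map_mul, map_mul, ← mulVec_mulVec, ← mulVec_mulVec]
  constructor
  · intro h
    rw [← Z.mv_inv' k (Z.ρ g *ᵥ _), h, mulVec_smul]
  · intro h
    rw [h, mulVec_smul, mv_inv]

def e0 : Fin 3 → F := ![1, 0, 0]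
def e1 : Fin 3 → F := ![0, 1, 0]
def e2 : Fin 3 → F := ![0, 0, 1]

theorem e0_ne : (e0 : Fin 3 → F) ≠ 0 := fun h => by simpa [e0] using congrFun h 0
theorem e1_ne : (e1 : Fin 3 → F) ≠ 0 := fun h => by simpa [e1] using congrFun h 1

theorem fx_iff {g : G} {x y z c : F} : Z.Fx g ![x, y, z] c ↔
    Z.ρ g 0 0 * x + Z.ρ g 0 1 * y + Z.ρ g 0 2 * z = c * x ∧ Z.ρ g 1 0 * x + Z.ρ g 1 1 * y + Z.ρ g 1 2 * z = c * y ∧
      Z.ρ g 2 0 * x + Z.ρ g 2 1 * y + Z.ρ g 2 2 * z = c * z := by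
  unfold Fx
  rw [funext_iff, Fin.forall_fin_succ, Fin.forall_fin_succ, Fin.forall_fin_one]
  simp [mulVec, dotProduct, Fin.sum_univ_succ, add_assoc]

theorem mv (g : G) (x y z : F) : Z.ρ g *ᵥ ![x, y, z] = ![Z.ρ g 0 0 * x + Z.ρ g 0 1 * y + Z.ρ g 0 2 * z,
    Z.ρ g 1 0 * x + Z.ρ g 1 1 * y + Z.ρ g 1 2 * z, Z.ρ g 2 0 * x + Z.ρ g 2 1 * y + Z.ρ g 2 2 * z] := by
  ext i
  fin_cases i <;> simp [mulVec, dotProduct, Fin.sum_univ_succ, add_assoc]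

theorem ok_zero {b : F} (h : Z.σ b = b) : Z.ok 0 b := by
  have := Z.two
  unfold ok; rw [h]; grind

theorem fix_of_ok {b : F} (h : Z.ok 0 b) : Z.σ b = b := by
  have := Z.two
  unfold ok at h; grind

theorem ok_mul {a b c d : F} (h1 : Z.ok a b) (h2 : Z.ok c d) : Z.ok (a + c) (b + d + Z.σ a * c) := by
  unfold ok at *
  simp only [map_add, map_mul, Z.σσ]
  linear_combination h1 + h2

theorem ok_inv {a b : F} (h1 : Z.ok a b) : Z.ok a (Z.σ b) := by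
  unfold ok at *
  rw [Z.σσ, add_comm, h1]

theorem ok_M {a b l : F} (hl : l ≠ 0) (h1 : Z.ok a b) : Z.ok (Z.σ l ^ 2 / l * a) (l * Z.σ l * b) := by
  have h' : Z.σ l ≠ 0 := by simpa using hl
  unfold ok at *
  simp only [map_mul, map_div₀, map_pow, Z.σσ]
  field_simp
  linear_combination h1

theorem exists_ok (a : F) : ∃ b, Z.ok a b := by
  have := Z.fin
  obtain ⟨x, rfl⟩ := Heis.exists_a Z.inv a
  exact ⟨x.l, x.prop⟩

theorem S_mul {a b c d : F} (h1 : Z.ok a b) (h2 : Z.ok c d) :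
    Z.S a b * Z.S c d = Z.S (a + c) (b + d + Z.σ a * c) := by
  apply Z.inj
  rw [map_mul, Z.ρ_S h1, Z.ρ_S h2, Z.ρ_S (Z.ok_mul h1 h2)]
  ext i j
  fin_cases i <;> fin_cases j <;> simp [Sm, Matrix.mul_apply, Fin.sum_univ_succ] <;> ring

theorem S_zero : Z.S 0 0 = 1 := by
  apply Z.inj
  rw [Z.ρ_S (Z.ok_zero (map_zero _)), map_one]
  ext i j
  fin_cases i <;> fin_cases j <;> simp [Sm]

theorem S_inv {a b : F} (h : Z.ok a b) : (Z.S a b)⁻¹ = Z.S a (Z.σ b) := by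
  have := Z.two
  rw [inv_eq_iff_mul_eq_one, Z.S_mul h (Z.ok_inv h), ← Z.S_zero]
  unfold ok at h
  congr 1 <;> grind

theorem S_inj {a b c d : F} (h1 : Z.ok a b) (h2 : Z.ok c d) (h : Z.S a b = Z.S c d) : a = c ∧ b = d := by
  have h3 := congrArg Z.ρ h
  rw [Z.ρ_S h1, Z.ρ_S h2] at h3
  exact ⟨by simpa [Sm] using congrFun (congrFun h3 1) 2, by simpa [Sm] using congrFun (congrFun h3 0) 2⟩

theorem S_eq_one {a b : F} (h1 : Z.ok a b) (h : Z.S a b = 1) : a = 0 ∧ b = 0 :=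
  Z.S_inj h1 (Z.ok_zero (map_zero _)) (h.trans Z.S_zero.symm)

theorem S0_mul {b d : F} (h1 : Z.σ b = b) (h2 : Z.σ d = d) : Z.S 0 b * Z.S 0 d = Z.S 0 (b + d) := by
  rw [Z.S_mul (Z.ok_zero h1) (Z.ok_zero h2)]; simp

theorem S0_sq {b : F} (h1 : Z.σ b = b) : Z.S 0 b * Z.S 0 b = 1 := by
  have := Z.two
  rw [Z.S0_mul h1 h1, ← Z.S_zero]; congr 1; grind

theorem S0_comm {b c d : F} (h1 : Z.σ b = b) (h2 : Z.ok c d) : Z.S 0 b * Z.S c d = Z.S c d * Z.S 0 b := by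
  rw [Z.S_mul (Z.ok_zero h1) h2, Z.S_mul h2 (Z.ok_zero h1)]; simp [add_comm]

theorem M_mul {k l : F} (hk : k ≠ 0) (hl : l ≠ 0) : Z.M k * Z.M l = Z.M (k * l) := by
  apply Z.inj
  rw [map_mul, Z.ρ_M hk, Z.ρ_M hl, Z.ρ_M (mul_ne_zero hk hl)]
  ext i j
  fin_cases i <;> fin_cases j <;> simp [Dm, Matrix.mul_apply, Fin.sum_univ_succ] <;> ring

theorem M_one : Z.M 1 = 1 := by
  apply Z.inj
  rw [Z.ρ_M one_ne_zero, map_one]
  ext i j
  fin_cases i <;> fin_cases j <;> simp [Dm]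

theorem M_inv {l : F} (hl : l ≠ 0) : (Z.M l)⁻¹ = Z.M l⁻¹ := by
  rw [inv_eq_iff_mul_eq_one, Z.M_mul hl (inv_ne_zero hl), mul_inv_cancel₀ hl, Z.M_one]

theorem M_pow {l : F} (hl : l ≠ 0) (n : ℕ) : Z.M l ^ n = Z.M (l ^ n) := by
  induction n with
  | zero => simp [Z.M_one]
  | succ n ih => rw [pow_succ, ih, Z.M_mul (pow_ne_zero _ hl) hl, pow_succ]

theorem M_S {a b l : F} (hl : l ≠ 0) (h : Z.ok a b) :
    Z.M l * Z.S a b = Z.S (Z.σ l ^ 2 / l * a) (l * Z.σ l * b) * Z.M l := by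
  have h' : Z.σ l ≠ 0 := by simpa using hl
  apply Z.inj
  rw [map_mul, map_mul, Z.ρ_M hl, Z.ρ_S h, Z.ρ_S (Z.ok_M hl h)]
  ext i j
  fin_cases i <;> fin_cases j <;> simp [Dm, Sm, Matrix.mul_apply, Fin.sum_univ_succ, Z.σσ] <;> field_simp

theorem M_conj {a b l : F} (hl : l ≠ 0) (h : Z.ok a b) :
    Z.M l * Z.S a b * (Z.M l)⁻¹ = Z.S (Z.σ l ^ 2 / l * a) (l * Z.σ l * b) := by
  rw [Z.M_S hl h, mul_inv_cancel_right]

theorem t_sq : Z.t * Z.t = 1 := by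
  apply Z.inj
  rw [map_mul, Z.ρ_t, map_one]
  ext i j
  fin_cases i <;> fin_cases j <;> simp [Jm, Matrix.mul_apply, Fin.sum_univ_succ]

theorem t_inv : Z.t⁻¹ = Z.t := RankOne.inv_eq_of_mul_self Z.t_sq

theorem t_M {l : F} (hl : l ≠ 0) : Z.t * Z.M l * Z.t = Z.M (Z.σ l)⁻¹ := by
  have h' : Z.σ l ≠ 0 := by simpa using hl
  apply Z.inj
  rw [map_mul, map_mul, Z.ρ_t, Z.ρ_M hl, Z.ρ_M (inv_ne_zero h')]
  ext i j
  fin_cases i <;> fin_cases j <;> simp [Dm, Jm, Matrix.mul_apply, Fin.sum_univ_succ, Z.σσ] <;> field_simp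

theorem fx_S {a b : F} (h : Z.ok a b) : Z.Fx (Z.S a b) e0 1 := by
  rw [e0, fx_iff, Z.ρ_S h]; simp [Sm]

theorem fx_M {l : F} (h : l ≠ 0) : Z.Fx (Z.M l) e0 l := by
  rw [e0, fx_iff, Z.ρ_M h]; simp [Dm]

theorem borel {g : G} {c : F} (h : Z.Fx g e0 c) : ∃ a b, Z.ok a b ∧ g = Z.S a b * Z.M c := by
  have := Z.two
  have hc := h.ne e0_ne
  have hc' : Z.σ c ≠ 0 := by simpa using hc
  rw [e0, fx_iff] at h
  simp only [mul_one, mul_zero, add_zero] at h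
  obtain ⟨h0, h1, h2⟩ := h
  have f01 := Z.f g 0 1
  have f02 := Z.f g 0 2
  have f11 := Z.f g 1 1
  have f12 := Z.f g 1 2
  have f22 := Z.f g 2 2
  have hd := Z.d g
  simp [h0, h1, h2, Jm, hc] at f01 f02 f11 f12 f22 hd
  simp [f01] at f11 f12 hd
  have g22 : Z.ρ g 2 2 = (Z.σ c)⁻¹ := by field_simp; linear_combination f02
  have g11 : Z.ρ g 1 1 = Z.σ c / c := by rw [g22] at hd; field_simp at hd ⊢; exact hd
  rw [g22, g11] at f12
  rw [g22] at f22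
  simp only [map_inv₀, map_div₀, Z.σσ] at f12 f22
  have f21 := congrArg Z.σ f12
  simp only [map_add, map_mul, map_inv₀, map_div₀, Z.σσ, map_zero] at f21
  have hok : Z.ok (Z.ρ g 1 2 * Z.σ c) (Z.ρ g 0 2 * Z.σ c) := by
    unfold ok
    simp only [map_mul, Z.σσ]
    field_simp at f22
    grind
  refine ⟨_, _, hok, Z.inj ?_⟩
  rw [map_mul, Z.ρ_S hok, Z.ρ_M hc]
  ext i j
  fin_cases i <;> fin_cases j <;>
    simp [Dm, Sm, Matrix.mul_apply, Fin.sum_univ_succ, Z.σσ, h0, h1, h2, f01, g22, g11, hc, hc']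
  field_simp at f21 ⊢
  grind

def P : Subgroup G where
  carrier := {g | ∃ a b, Z.ok a b ∧ g = Z.S a b}
  mul_mem' := by
    rintro _ _ ⟨a, b, h1, rfl⟩ ⟨c, d, h2, rfl⟩
    exact ⟨_, _, Z.ok_mul h1 h2, Z.S_mul h1 h2⟩
  one_mem' := ⟨0, 0, Z.ok_zero (map_zero _), Z.S_zero.symm⟩
  inv_mem' := by
    rintro _ ⟨a, b, h1, rfl⟩
    exact ⟨_, _, Z.ok_inv h1, Z.S_inv h1⟩

theorem card_P : Nat.card Z.P = q ^ 3 := by
  have := Z.fin
  rw [← Heis.card (h := Z.inv) Z.cardF]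
  refine (Nat.card_eq_of_bijective (fun x : Heis Z.inv => (⟨Z.S x.a x.l, x.a, x.l, x.prop, rfl⟩ : Z.P)) ⟨?_, ?_⟩).symm
  · intro x y h
    have := Z.S_inj x.prop y.prop (congrArg Subtype.val h)
    exact Heis.ext this.1 this.2
  · rintro ⟨_, a, b, h, rfl⟩
    exact ⟨⟨a, b, h⟩, rfl⟩

theorem isP : IsPGroup 2 Z.P := by
  obtain ⟨n, hn⟩ := Z.qpow
  exact IsPGroup.of_card (n := n * 3) (by rw [Z.card_P, hn, pow_mul])

theorem sylow_of {K : Type*} [Group K] [Finite K] {R : Subgroup K} (h1 : IsPGroup 2 R)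
    (h2 : ∀ P : Sylow 2 K, Nat.card P = Nat.card R) : ∃ P : Sylow 2 K, (P : Subgroup K) = R := by
  obtain ⟨P, hP⟩ := h1.exists_le_sylow
  exact ⟨P, (Subgroup.eq_of_le_of_card_ge hP (h2 P).le).symm⟩

theorem two_elt {g : G} (h : g ^ 4 = 1) : ∃ (k : G) (a b : F), Z.ok a b ∧ k⁻¹ * g * k = Z.S a b := by
  have := Z.finite
  have : Fact (Nat.Prime 2) := ⟨Nat.prime_two⟩
  obtain ⟨P, hP⟩ := sylow_of Z.isP (fun P => by rw [Z.syl, Z.card_P])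
  have hp : IsPGroup 2 (Subgroup.zpowers g) := by
    apply IsPGroup.of_card_dvd_pow (n := 2)
    rw [Nat.card_zpowers]
    exact orderOf_dvd_of_pow_eq_one h
  obtain ⟨R, hR⟩ := hp.exists_le_sylow
  obtain ⟨k, rfl⟩ := MulAction.exists_smul_eq G P R
  have := hR (Subgroup.mem_zpowers g)
  rw [Sylow.coe_subgroup_smul, Subgroup.mem_pointwise_smul_iff_inv_smul_mem, hP] at this
  obtain ⟨a, b, h1, h2⟩ := this
  exact ⟨k, a, b, h1, by simpa using h2⟩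

theorem sqrt (b : F) : ∃ c, c ^ 2 = b ∧ (Z.σ b = b → Z.σ c = c) := by
  have := Z.two
  have := Z.fin
  have : Fact (Nat.Prime 2) := ⟨Nat.prime_two⟩
  obtain ⟨c, hc⟩ := (frobeniusEquiv F 2).surjective b
  have hc : c ^ 2 = b := hc
  refine ⟨c, hc, fun h => ?_⟩
  have h1 : (Z.σ c + c) ^ 2 = 0 := by
    have : Z.σ c ^ 2 = b := by rw [← map_pow, hc, h]
    grind
  have h2 : Z.σ c + c = 0 := by simpa using h1
  grind

theorem S_sq {a b : F} (h : Z.ok a b) : Z.S a b * Z.S a b = Z.S 0 (Z.σ a * a) := by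
  have := Z.two
  rw [Z.S_mul h h]; congr 1 <;> grind

theorem zero_of_sq {a b : F} (h : Z.ok a b) (h2 : Z.S a b * Z.S a b = 1) : a = 0 := by
  rw [Z.S_sq h] at h2
  have := (Z.S_eq_one (Z.ok_zero (by simp [Z.σσ, mul_comm])) h2).2
  simpa using this

theorem inv_conj {s : G} (h1 : s ≠ 1) (h2 : s * s = 1) : IsConj (Z.S 0 1) s := by
  obtain ⟨k, a, b, h, e⟩ := Z.two_elt (g := s) (by rw [show 4 = 2 * 2 from rfl, pow_mul, sq s, h2, one_pow])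
  have ha : a = 0 := Z.zero_of_sq h (by
    rw [← e]
    calc _ = k⁻¹ * (s * s) * k := by group
      _ = 1 := by rw [h2]; group)
  subst ha
  have hb : b ≠ 0 := by
    rintro rfl
    apply h1
    calc s = k * (k⁻¹ * s * k) * k⁻¹ := by group
      _ = 1 := by rw [e, Z.S_zero]; group
  obtain ⟨c, c1, c2⟩ := Z.sqrt b
  have hc : c ≠ 0 := by rintro rfl; exact hb (by simpa using c1.symm)
  have e2 := Z.M_conj hc (Z.ok_zero (map_one _))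
  rw [c2 (Z.fix_of_ok h), mul_zero, mul_one, ← sq, c1, ← e] at e2
  refine isConj_iff.mpr ⟨k * Z.M c, ?_⟩
  calc _ = k * (Z.M c * Z.S 0 1 * (Z.M c)⁻¹) * k⁻¹ := by group
    _ = s := by rw [e2]; group

include Z in
theorem one (s t : G) (s1 : s ≠ 1) (s2 : s * s = 1) (t1 : t ≠ 1) (t2 : t * t = 1) : IsConj s t :=
  (Z.inv_conj s1 s2).symm.trans (Z.inv_conj t1 t2)

theorem comm_t {a b : F} (h : Z.ok a b) (e : Z.S a b * Z.t = Z.t * Z.S a b) : a = 0 ∧ b = 0 := by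
  have h1 := congrArg Z.ρ e
  rw [map_mul, map_mul, Z.ρ_S h, Z.ρ_t] at h1
  have h2 := congrFun (congrFun h1 0) 0
  have h3 := congrFun (congrFun h1 1) 0
  simp [Sm, Jm, Matrix.mul_apply, Fin.sum_univ_succ] at h2 h3
  exact ⟨h3, h2⟩

theorem M_central {l : F} (hl : l ≠ 0) (h : Z.σ l ^ 2 = l) : Z.M l ∈ Subgroup.center G := by
  have h' : Z.σ l ≠ 0 := by simpa using hl
  have h2 : l ^ 2 = Z.σ l := by simpa [Z.σσ] using congrArg Z.σ h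
  have e : Z.ρ (Z.M l) = l • (1 : Matrix (Fin 3) (Fin 3) F) := by
    rw [Z.ρ_M hl]
    ext i j
    fin_cases i <;> fin_cases j <;> simp [Dm] <;> field_simp <;> grind
  rw [Subgroup.mem_center_iff]
  intro g
  apply Z.inj
  rw [map_mul, map_mul, e]
  simp

/-- an element carrying a transvection with centre `e0` to an element fixing the line of `e0`. -/
theorem fx_of_conj {g : G} {b c : F} (hb : Z.σ b = b) (hb0 : b ≠ 0) (h : Z.Fx (g * Z.S 0 b * g⁻¹) e0 c) :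
    ∃ d, Z.Fx g e0 d := by
  have := Z.two
  obtain ⟨a', b', h1, e⟩ := Z.borel h
  have hc := h.ne e0_ne
  have sq : g * Z.S 0 b * g⁻¹ * (g * Z.S 0 b * g⁻¹) = 1 := by
    calc _ = g * (Z.S 0 b * Z.S 0 b) * g⁻¹ := by group
      _ = 1 := by rw [Z.S0_sq hb]; group
  have c1 : c = 1 := by
    have h2 := h.mul h
    rw [sq, e0, fx_iff] at h2
    have h3 := h2.1
    simp at h3
    have : (c + 1) ^ 2 = 0 := by grind
    have : c + 1 = 0 := by simpa using this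
    grind
  rw [c1, Z.M_one, mul_one] at e
  have ha := Z.zero_of_sq h1 (e ▸ sq)
  subst ha
  have e2 : g * Z.S 0 b = Z.S 0 b' * g := by rw [← e]; group
  have e3 := congrArg Z.ρ e2
  rw [map_mul, map_mul, Z.ρ_S h1, Z.ρ_S (Z.ok_zero hb)] at e3
  have h2 := congrFun (congrFun e3 1) 2
  have h3 := congrFun (congrFun e3 2) 2
  simp [Sm, Matrix.mul_apply, Fin.sum_univ_succ, hb0] at h2 h3
  exact ⟨Z.ρ g 0 0, by rw [e0, fx_iff]; simp [h2, h3]⟩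

theorem borel_conj {g : G} {c b : F} (h : Z.Fx g e0 c) (hb : Z.σ b = b) :
    ∃ b', Z.σ b' = b' ∧ g * Z.S 0 b * g⁻¹ = Z.S 0 b' := by
  obtain ⟨a', b', h1, rfl⟩ := Z.borel h
  have hc := h.ne e0_ne
  have h2 : Z.σ (c * Z.σ c * b) = c * Z.σ c * b := by simp [Z.σσ, hb, mul_comm]
  refine ⟨_, h2, ?_⟩
  calc _ = Z.S a' b' * (Z.M c * Z.S 0 b * (Z.M c)⁻¹) * (Z.S a' b')⁻¹ := by group
    _ = _ := by rw [Z.M_conj hc (Z.ok_zero hb), mul_zero, ← Z.S0_comm h2 h1]; group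

/-- moving the line of `e0`. -/
theorem move {g : G} (h : ¬ ∃ c, Z.Fx g e0 c) : ∃ a b c, Z.ok a b ∧ Z.Fx (Z.t * (Z.S a b)⁻¹ * g) e0 c ∧
    a * c = Z.ρ g 1 0 ∧ b * c = Z.ρ g 0 0 ∧ c = Z.ρ g 2 0 := by
  have := Z.two
  have f00 := Z.f g 0 0
  simp [Jm] at f00
  have hz : Z.ρ g 2 0 ≠ 0 := by
    intro h0
    simp [h0] at f00
    exact h ⟨Z.ρ g 0 0, by rw [e0, fx_iff]; simp [h0, f00]⟩
  have hz' : Z.σ (Z.ρ g 2 0) ≠ 0 := by simpa using hz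
  have hok : Z.ok (Z.ρ g 1 0 / Z.ρ g 2 0) (Z.ρ g 0 0 / Z.ρ g 2 0) := by
    unfold ok
    simp only [map_div₀]
    field_simp
    grind
  refine ⟨_, _, Z.ρ g 2 0, hok, ?_, by field_simp, by field_simp, rfl⟩
  have e1 : Z.ρ g *ᵥ e0 = Z.ρ g 2 0 • (Z.ρ (Z.S (Z.ρ g 1 0 / Z.ρ g 2 0) (Z.ρ g 0 0 / Z.ρ g 2 0)) *ᵥ e2) := by
    rw [e0, e2, mv, mv, Z.ρ_S hok]
    ext i
    fin_cases i <;> simp [Sm] <;> field_simp
  unfold Fx
  rw [map_mul, map_mul, ← mulVec_mulVec, ← mulVec_mulVec, e1, mulVec_smul, mv_inv, mulVec_smul, e2, mv, Z.ρ_t]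
  simp [Jm, e0]

/-- conjugating a model. -/
def conj (k : G) : Mod G F q :=
  { Z with
    ρ := Z.ρ.comp (MulAut.conj k⁻¹).toMonoidHom
    inj := Z.inj.comp (MulAut.conj k⁻¹).injective
    form := fun _ => Z.form _
    det := fun _ => Z.det _
    surj := fun A h1 h2 => by
      obtain ⟨g, hg⟩ := Z.surj A h1 h2
      refine ⟨k * g * k⁻¹, ?_⟩
      rw [← hg]
      change Z.ρ (k⁻¹ * (k * g * k⁻¹) * k⁻¹⁻¹) = _
      congr 1; group }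

theorem conj_ρ (k g : G) : (Z.conj k).ρ g = Z.ρ (k⁻¹ * g * k) := by
  change Z.ρ (k⁻¹ * g * k⁻¹⁻¹) = _
  rw [inv_inv]

theorem conj_of {k g h : G} (e : (Z.conj k).ρ g = Z.ρ h) : g = k * h * k⁻¹ := by
  rw [conj_ρ] at e
  rw [← Z.inj e]; group

theorem conj_S (k : G) {a b : F} (h : Z.ok a b) : (Z.conj k).S a b = k * Z.S a b * k⁻¹ :=
  Z.conj_of (((Z.conj k).ρ_S h).trans (Z.ρ_S h).symm)

theorem conj_M (k : G) {l : F} (h : l ≠ 0) : (Z.conj k).M l = k * Z.M l * k⁻¹ :=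
  Z.conj_of (((Z.conj k).ρ_M h).trans (Z.ρ_M h).symm)

theorem conj_t (k : G) : (Z.conj k).t = k * Z.t * k⁻¹ :=
  Z.conj_of ((Z.conj k).ρ_t.trans Z.ρ_t.symm)

theorem conj_fx {k g : G} {v : Fin 3 → F} {c : F} : (Z.conj k).Fx g v c ↔ Z.Fx (k⁻¹ * g * k) v c := by
  unfold Fx; rw [conj_ρ]

end Mod

end Cfsg.Agent.Fil.U3
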