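import Mathlib
import Cfsg.Agent.Fil.T

set_option autoImplicit false
set_option linter.unusedSectionVars false

/-! Binary actions of `SU₃(q)`, `q` even: subgroups of the Borel subgroup. -/

namespace Cfsg.Agent.Fil.U3.Mod

open Matrix Cfsg.Agent.Herm Cfsg.Agent.Fil.Bn

variable {F : Type*} [Field F] {G : Type*} [Group G] {q : ℕ} (Z : Mod G F q)

def B (v w : Fin 3 → F) : F := Z.σ (v 0) * w 2 + Z.σ (v 1) * w 1 + Z.σ (v 2) * w 0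

theorem B_mv (g : G) (v w : Fin 3 → F) : Z.B (Z.ρ g *ᵥ v) (Z.ρ g *ᵥ w) = Z.B v w := by
  have f00 := Z.f g 0 0
  have f01 := Z.f g 0 1
  have f02 := Z.f g 0 2
  have f10 := Z.f g 1 0
  have f11 := Z.f g 1 1
  have f12 := Z.f g 1 2
  have f20 := Z.f g 2 0
  have f21 := Z.f g 2 1
  have f22 := Z.f g 2 2
  simp [Jm] at f00 f01 f02 f10 f11 f12 f20 f21 f22
  simp [B, mulVec, dotProduct, Fin.sum_univ_succ]
  linear_combination Z.σ (v 0) * w 0 * f00 + Z.σ (v 0) * w 1 * f01 + Z.σ (v 0) * w 2 * f02 +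
    Z.σ (v 1) * w 0 * f10 + Z.σ (v 1) * w 1 * f11 + Z.σ (v 1) * w 2 * f12 +
    Z.σ (v 2) * w 0 * f20 + Z.σ (v 2) * w 1 * f21 + Z.σ (v 2) * w 2 * f22

theorem B_fx {g : G} {v w : Fin 3 → F} {c d : F} (h1 : Z.Fx g v c) (h2 : Z.Fx g w d) (h : Z.B v w ≠ 0) :
    Z.σ c * d = 1 := by
  have := Z.B_mv g v w
  rw [h1, h2] at this
  apply mul_right_cancel₀ h
  rw [one_mul]
  nth_rw 2 [← this]
  simp [B]; ring

theorem ρ_inv (g : G) : Z.ρ g⁻¹ = Jm F * ((Z.ρ g).map Z.σ)ᵀ * Jm F := by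
  have hJ : Jm F * Jm F = 1 := by rw [← Z.ρ_t, ← map_mul, Z.t_sq, map_one]
  calc Z.ρ g⁻¹ = Jm F * (((Z.ρ g).map Z.σ)ᵀ * Jm F * Z.ρ g) * Z.ρ g⁻¹ := by rw [Z.form, hJ, one_mul]
    _ = Jm F * ((Z.ρ g).map Z.σ)ᵀ * Jm F * (Z.ρ g * Z.ρ g⁻¹) := by simp only [mul_assoc]
    _ = _ := by rw [← map_mul, mul_inv_cancel, map_one, mul_one]

theorem ch (g : G) : Z.ρ g * Z.ρ g = (Z.ρ g).trace • Z.ρ g - Z.σ (Z.ρ g).trace • 1 + Z.ρ g⁻¹ := by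
  have h1 : (Z.ρ g).adjugate = Z.ρ g⁻¹ := by
    calc _ = Z.ρ g⁻¹ * (Z.ρ g * (Z.ρ g).adjugate) := by rw [← mul_assoc, ← map_mul, inv_mul_cancel, map_one, one_mul]
      _ = _ := by rw [mul_adjugate, Z.det, one_smul, mul_one]
  have h2 : (Z.ρ g⁻¹).trace = Z.σ (Z.ρ g).trace := by
    rw [Z.ρ_inv]
    simp [Jm, Matrix.trace, Matrix.mul_apply, Fin.sum_univ_succ, vecMul, dotProduct]
    ring
  rw [← h2, ← h1, adjugate_fin_three]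
  ext i j
  fin_cases i <;> fin_cases j <;> simp [Matrix.trace, Matrix.mul_apply, Fin.sum_univ_succ] <;> ring

theorem cube {g : G} (h : (Z.ρ g).trace = 0) : g * g * g = 1 := by
  apply Z.inj
  rw [map_mul, map_mul, Z.ch, h, map_zero, zero_smul, zero_smul, sub_zero, zero_add, ← map_mul, inv_mul_cancel]

theorem four {g : G} (h : (Z.ρ g).trace = 1) : g ^ 4 = 1 := by
  have := Z.two
  have h1 := Z.ch g
  rw [h, map_one, one_smul, one_smul] at h1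
  have h2 : Z.ρ g * Z.ρ g⁻¹ = 1 := by rw [← map_mul, mul_inv_cancel, map_one]
  have h3 : Z.ρ g * (Z.ρ g * Z.ρ g) = Z.ρ g * Z.ρ g - Z.ρ g + 1 := by
    nth_rw 1 [h1]; rw [mul_add, mul_sub, h2, mul_one]
  apply Z.inj
  rw [map_pow, map_one]
  calc Z.ρ g ^ 4 = Z.ρ g * (Z.ρ g * (Z.ρ g * Z.ρ g)) := by simp only [pow_succ, pow_zero, one_mul, mul_assoc]
    _ = Z.ρ g * (Z.ρ g * Z.ρ g) - Z.ρ g * Z.ρ g + Z.ρ g := by nth_rw 1 [h3]; rw [mul_add, mul_sub, mul_one]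
    _ = 1 := by rw [h3]; abel

theorem diag {g : G} {c d : F} (h1 : Z.Fx g e0 c) (h2 : Z.Fx g e2 d) : g = Z.M c ∧ Z.σ c * d = 1 := by
  refine ⟨?_, Z.B_fx h1 h2 (by simp [B, e0, e2])⟩
  obtain ⟨a, b, h, rfl⟩ := Z.borel h1
  have hc := h1.ne e0_ne
  rw [e2, fx_iff, map_mul, Z.ρ_S h, Z.ρ_M hc] at h2
  simp [Sm, Dm, Matrix.mul_apply, Fin.sum_univ_succ, hc] at h2
  rw [h2.1, h2.2.1, Z.S_zero, one_mul]

theorem t_e0 : Z.ρ Z.t *ᵥ e0 = e2 := by rw [e0, mv, Z.ρ_t]; simp [Jm, e2]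

theorem St_e0 {b : F} (hb : Z.σ b = b) : Z.ρ (Z.S 0 b * Z.t) *ᵥ e0 = ![b, 0, 1] := by
  rw [map_mul, ← mulVec_mulVec, t_e0, e2, mv, Z.ρ_S (Z.ok_zero hb)]; simp [Sm]

theorem norm_one {H : Subgroup G} (hb : Bin G (G ⧸ H)) (hB : ∀ h ∈ H, ∃ c, Z.Fx h e0 c)
    (h0 : ∀ b, Z.σ b = b → Z.S 0 b ∈ H) {l : F} (hl : l ≠ 0) (hM : Z.M l ∈ H) : l * Z.σ l = 1 := by
  have := Z.two
  have := Z.fin
  by_contra hc1
  have hl' : Z.σ l ≠ 0 := by simpa using hl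
  set c : F := l * Z.σ l with hc
  have cf : Z.σ c = c := by simp [hc, Z.σσ, mul_comm]
  have cf1 : Z.σ (1 + c) = 1 + c := by simp [cf]
  have hc2 : 1 + c ≠ 0 := fun e => hc1 (by grind)
  have hfix : ∀ g x : G, x • (g : G ⧸ H) = g → ∃ d, Z.Fx x (Z.ρ g *ᵥ e0) d := by
    intro g x hx
    obtain ⟨d, hd⟩ := hB _ ((smul_mk_iff H x g).mp hx)
    exact ⟨d, Z.fx_conj.mp hd⟩
  have tM : Z.t⁻¹ * Z.M l * Z.t ∈ H := by
    rw [Z.t_inv, Z.t_M hl, ← Z.M_inv hl', Z.inv.apply_pow Z.cardF, ← Z.M_pow hl]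
    exact H.inv_mem (H.pow_mem hM _)
  set n := Z.S 0 (1 + c) with hn
  set n' := Z.S 0 1 with hn'
  have key : n * Z.M l * n⁻¹ * Z.M l = n' * (Z.M l * Z.M l) * n'⁻¹ := by
    have e1 : n⁻¹ = n := RankOne.inv_eq_of_mul_self (Z.S0_sq cf1)
    have e2 : n'⁻¹ = n' := RankOne.inv_eq_of_mul_self (Z.S0_sq (map_one _))
    rw [e1, e2]
    calc n * Z.M l * n * Z.M l = n * (Z.M l * n) * Z.M l := by group
      _ = Z.S 0 (1 + c + c * (1 + c)) * (Z.M l * Z.M l) := by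
        rw [hn, Z.M_S hl (Z.ok_zero cf1), mul_zero, ← hc, ← Z.S0_mul cf1 (by simp [cf])]; simp only [mul_assoc]
      _ = Z.S 0 (1 + c * (c * 1)) * (Z.M l * Z.M l) := by
        congr 2; grind
      _ = n' * (Z.M l * (Z.M l * n')) := by
        rw [hn', Z.M_S hl (Z.ok_zero (map_one _)), mul_zero, ← hc, ← mul_assoc (Z.M l),
          Z.M_S hl (Z.ok_zero (by simp [cf])), mul_zero, ← hc, ← Z.S0_mul (map_one _) (by simp [cf])]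
        simp only [mul_assoc]
      _ = _ := by group
  obtain ⟨g, g0, g1, g2, g3⟩ := hb.quad (x0 := ((1 : G) : G ⧸ H)) (x1 := (Z.t : G ⧸ H))
    (x2 := ((n * Z.t : G) : G ⧸ H)) (x3 := ((n' * Z.t : G) : G ⧸ H)) (a := Z.M l)
    (b := n * (Z.M l)⁻¹ * n⁻¹) ((smul_mk_iff _ _ _).mpr (by simpa using hM))
    ((smul_mk_iff _ _ _).mpr tM)
    ((smul_mk_iff _ _ _).mpr (by
      simpa using H.mul_mem (H.mul_mem (h0 _ cf1) (H.inv_mem hM)) (H.inv_mem (h0 _ cf1))))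
    ((smul_mk_iff _ _ _).mpr (by
      have : (n * Z.t)⁻¹ * (n * (Z.M l)⁻¹ * n⁻¹) * (n * Z.t) = (Z.t⁻¹ * Z.M l * Z.t)⁻¹ := by group
      rw [this]; exact H.inv_mem tM))
    (by
      rw [← inv_smul_eq_iff, ← mul_smul, smul_mk_iff]
      have : (n' * Z.t)⁻¹ * ((n * (Z.M l)⁻¹ * n⁻¹)⁻¹ * Z.M l) * (n' * Z.t) =
          (Z.t⁻¹ * Z.M l * Z.t) * (Z.t⁻¹ * Z.M l * Z.t) := by
        have : (n * (Z.M l)⁻¹ * n⁻¹)⁻¹ * Z.M l = n * Z.M l * n⁻¹ * Z.M l := by group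
        rw [this, key]; group
      rw [this]
      exact H.mul_mem tM tM)
  have gH : g ∈ H := by simpa using (smul_mk_iff _ _ _).mp g0
  obtain ⟨c0, a0⟩ := hB g gH
  obtain ⟨c1, a1⟩ := hfix _ _ g1
  obtain ⟨c2, a2⟩ := hfix _ _ g2
  rw [t_e0] at a1
  obtain ⟨rfl, -⟩ := Z.diag a0 a1
  have hc0 := a0.ne e0_ne
  rw [Z.St_e0 cf1, fx_iff, Z.ρ_M hc0] at a2
  simp [Dm, hc2] at a2
  have n0 : (Z.σ c0)⁻¹ = c0 := by rw [a2.2, a2.1]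
  have n1 : c0 * Z.σ c0 = 1 := by
    nth_rw 1 [← n0]; exact inv_mul_cancel₀ (by simpa using hc0)
  have : Z.M c0 • ((n' * Z.t : G) : G ⧸ H) = (n' * Z.t : G) := by
    rw [smul_mk_iff]
    have : (n' * Z.t)⁻¹ * Z.M c0 * (n' * Z.t) = Z.t⁻¹ * n'⁻¹ * (Z.M c0 * n') * Z.t := by group
    rw [this, hn', Z.M_S hc0 (Z.ok_zero (map_one _)), n1, mul_zero, mul_one, Z.t_inv, mul_assoc Z.t,
      inv_mul_cancel_left, Z.t_M hc0, n0]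
    exact gH
  rw [this] at g3
  obtain ⟨c3, a3⟩ := hfix _ _ g3.symm
  rw [Z.St_e0 (map_one _), fx_iff, Z.ρ_M hl] at a3
  simp [Dm] at a3
  apply hc1
  rw [hc]
  nth_rw 1 [a3.1, ← a3.2]
  exact inv_mul_cancel₀ hl'

theorem tri3 {H : Subgroup G} (hb : Bin G (G ⧸ H)) {x p : G} (hx : x ∈ H) (h1 : p * p * p = 1)
    (h2 : x * p * (x * p) * (x * p) = 1) :
    ∃ g ∈ H, p⁻¹ * g * p ∈ H ∧ (p * p)⁻¹ * (x * g) * (p * p) ∈ H := by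
  obtain ⟨g, a1, a2, a3⟩ := hb.tri (x1 := (p : G ⧸ H)) (x2 := ((1 : G) : G ⧸ H)) (x3 := ((p * p : G) : G ⧸ H))
    (a := p * x * p⁻¹) (b := x⁻¹) ((smul_mk_iff _ _ _).mpr (by simpa [mul_assoc] using hx))
    ((smul_mk_iff _ _ _).mpr (by simpa using hx)) (by
      rw [eq_inv_smul_iff, ← mul_smul, smul_mk_iff]
      have : (p * p)⁻¹ * (x * (p * x * p⁻¹)) * (p * p) =
          (p * p * p)⁻¹ * p * (x * p * (x * p) * (x * p)) * p⁻¹ * x⁻¹ := by group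
      rw [this, h1, h2]
      simpa using hx)
  refine ⟨g, by simpa using (smul_mk_iff _ _ _).mp a2, (smul_mk_iff _ _ _).mp a1, ?_⟩
  rw [← smul_mk_iff, mul_smul, a3, ← mul_smul, smul_mk_iff]
  have : (p * p)⁻¹ * (x * (p * x * p⁻¹)) * (p * p) =
      (p * p * p)⁻¹ * p * (x * p * (x * p) * (x * p)) * p⁻¹ * x⁻¹ := by group
  rw [this, h1, h2]
  simpa using hx

theorem exists_m {l : F} (h1 : l * Z.σ l = 1) (h2 : l ≠ 1) : ∃ m, Z.σ m = m ∧ m ^ 2 * (l + Z.σ l) = 1 := by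
  have := Z.two
  have h3 : l + Z.σ l ≠ 0 := by
    intro h
    have h4 : (l + 1) ^ 2 = 0 := by grind
    have h5 : l + 1 = 0 := by simpa using h4
    exact h2 (by grind)
  obtain ⟨m, m1, m2⟩ := Z.sqrt (l + Z.σ l)⁻¹
  exact ⟨m, m2 (by simp [Z.σσ, add_comm]), by rw [m1, inv_mul_cancel₀ h3]⟩

theorem p_cube {l m : F} (h1 : l * Z.σ l = 1) (h2 : Z.σ m = m) (h3 : m ^ 2 * (l + Z.σ l) = 1) :
    Z.p l m * Z.p l m * Z.p l m = 1 := by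
  have := Z.two
  apply Z.cube
  rw [Z.ρ_p h1 h2 h3]
  simp [Pm, Matrix.trace, Fin.sum_univ_succ]
  grind

theorem ν_ne : Z.ν ≠ 1 := fun h => Z.ν3 (by rw [h, one_pow])

theorem cube_one {H : Subgroup G} (hb : Bin G (G ⧸ H)) (hB : ∀ h ∈ H, ∃ c, Z.Fx h e0 c ∧ c * Z.σ c = 1)
    {l : F} (hl : l * Z.σ l = 1) (hM : Z.M l ∈ H) : Z.σ l ^ 2 = l := by
  have := Z.two
  have l0 : l ≠ 0 := by rintro rfl; simp at hl
  have l1 : (Z.σ l)⁻¹ = l := by rw [inv_eq_iff_eq_inv, eq_comm, inv_eq_of_mul_eq_one_right hl]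
  obtain ⟨m, m1, m2⟩ := Z.exists_m Z.ν1 Z.ν_ne
  have m0 : m ≠ 0 := by rintro rfl; simp at m2
  have n1 := Z.ν1
  obtain ⟨g, g0, g1, g2⟩ := tri3 hb hM (Z.p_cube Z.ν1 m1 m2) (Z.cube (by
    rw [map_mul, Z.ρ_p Z.ν1 m1 m2, Z.ρ_M l0]
    simp [Pm, Dm, Matrix.trace, Matrix.mul_apply, Fin.sum_univ_succ, l1]
    grind))
  obtain ⟨c0, a0, b0⟩ := hB _ g0
  obtain ⟨c1, a1, -⟩ := hB _ g1
  obtain ⟨c2, a2, -⟩ := hB _ g2
  rw [fx_conj] at a1 a2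
  have u2 : Z.ρ (Z.p Z.ν m) *ᵥ e0 = ![Z.ν * m ^ 2, m, m ^ 2] := by
    rw [e0, mv, Z.ρ_p Z.ν1 m1 m2]; simp [Pm]
  have u3 : Z.ρ (Z.p Z.ν m * Z.p Z.ν m) *ᵥ e0 = ![Z.σ Z.ν * m ^ 2, m, m ^ 2] := by
    rw [map_mul, ← mulVec_mulVec, u2, mv, Z.ρ_p Z.ν1 m1 m2]
    ext i
    fin_cases i <;> simp [Pm] <;> grind
  rw [u2] at a1
  rw [u3] at a2
  have e := Z.B_fx a0 a1 (by simp [B, e0, m0])
  have e' : c1 = c0 := by grind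
  subst e'
  have a3 : Z.Fx g ![Z.σ Z.ν * m ^ 2, m, m ^ 2] c1 := by
    have : (![Z.σ Z.ν * m ^ 2, m, m ^ 2] : Fin 3 → F) = e0 + ![Z.ν * m ^ 2, m, m ^ 2] := by
      ext i
      fin_cases i <;> simp [e0]
      grind
    unfold Fx at a0 a1 ⊢
    rw [this, mulVec_add, a0, a1, smul_add]
  have a4 := a2.mul (a3.inv (fun h => m0 (by simpa using congrFun h 1)))
  rw [mul_inv_cancel_right, fx_iff, Z.ρ_M l0] at a4
  simp [Dm, l1, m0] at a4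
  have a5 : Z.σ l / l = l := by rw [a4.2.1, a4.2.2]
  field_simp at a5
  grind

def Dt (g : G) (v : Fin 3 → F) : F := (Matrix.of ![Z.ρ g *ᵥ (Z.ρ g *ᵥ v), Z.ρ g *ᵥ v, v]).det

theorem Dt_conj (k g : G) (v : Fin 3 → F) : Z.Dt (k⁻¹ * g * k) v = Z.Dt g (Z.ρ k *ᵥ v) := by
  have : Matrix.of ![Z.ρ g *ᵥ (Z.ρ g *ᵥ (Z.ρ k *ᵥ v)), Z.ρ g *ᵥ (Z.ρ k *ᵥ v), Z.ρ k *ᵥ v] =
      Matrix.of ![Z.ρ (k⁻¹ * g * k) *ᵥ (Z.ρ (k⁻¹ * g * k) *ᵥ v), Z.ρ (k⁻¹ * g * k) *ᵥ v, v] * (Z.ρ k)ᵀ := by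
    have e : ∀ w, Z.ρ k *ᵥ (Z.ρ (k⁻¹ * g * k) *ᵥ w) = Z.ρ g *ᵥ (Z.ρ k *ᵥ w) := by
      intro w
      rw [mulVec_mulVec, mulVec_mulVec, ← map_mul, ← map_mul]; congr 2; group
    rw [← e, ← e]
    generalize Z.ρ (k⁻¹ * g * k) *ᵥ v = v1
    generalize Z.ρ (k⁻¹ * g * k) *ᵥ v1 = v2
    generalize Z.ρ k = A
    ext i j
    fin_cases i <;> simp [Matrix.mul_apply, mulVec, dotProduct, mul_comm]
  rw [Dt, Dt, this, det_mul, det_transpose, Z.det, mul_one]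

theorem Dt_S {a b : F} (h : Z.ok a b) (v : Fin 3 → F) : Z.Dt (Z.S a b) v = Z.σ a * a ^ 2 * v 2 ^ 3 := by
  rw [Dt, Z.ρ_S h, det_fin_three]
  simp [Sm, mulVec, dotProduct, Fin.sum_univ_succ]
  ring

theorem ρ_tSt {a b : F} (h : Z.ok a b) : Z.ρ (Z.t * Z.S a b * Z.t) = !![1, 0, 0; a, 1, 0; b, Z.σ a, 1] := by
  rw [map_mul, map_mul, Z.ρ_t, Z.ρ_S h]
  ext i j
  fin_cases i <;> fin_cases j <;> simp [Sm, Jm, Matrix.mul_apply, Fin.sum_univ_succ]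

theorem alg1 [CharP F 2] {a a' b b' k n n' : F} (h : k * (b * b') = a' * a * (n ^ 3 + n' ^ 3)) :
    1 + (a' * (k * n' ^ 3 * a) + b * (k ^ 2 * b')) + (1 + a * (k * n ^ 3 * a') + 1) = 1 := by
  grind

theorem alg2 [CharP F 2] {a a' b b' k n n' : F} (h : k * (b * b') = a' * a * (n ^ 3 + n' ^ 3)) (h1 : n * n' = 1)
    (h2 : b + b' = a' * a) :
    ((k * n' ^ 3 * a + a * (k ^ 2 * b')) * (1 + (a' * (k * n' ^ 3 * a) + b * (k ^ 2 * b'))) +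
            ((1 + a * (k * n ^ 3 * a')) * (k * n' ^ 3 * a + a * (k ^ 2 * b')) + a * (k ^ 2 * b'))) * (k ^ 2 * b') -
        (k ^ 2 * b' * (1 + (a' * (k * n' ^ 3 * a) + b * (k ^ 2 * b'))) +
            (k * n ^ 3 * a' * (k * n' ^ 3 * a + a * (k ^ 2 * b')) + k ^ 2 * b')) *
          (k * n' ^ 3 * a + a * (k ^ 2 * b')) =
      k ^ 3 * n ^ 3 * (a' * a ^ 2) := by
  grind

theorem no_four {H : Subgroup G} (hb : Bin G (G ⧸ H)) (hB : ∀ h ∈ H, ∃ c, Z.Fx h e0 c ∧ Z.σ c ^ 2 = c)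
    {α : F} (hα : α ≠ 0) (h1 : ∀ b, Z.ok α b → Z.S α b ∈ H) : False := by
  have := Z.two
  have hα' : Z.σ α ≠ 0 := by simpa using hα
  obtain ⟨β, hβ⟩ := Z.exists_ok α
  have hβ' := hβ
  unfold ok at hβ'
  have β0 : β ≠ 0 := by rintro rfl; simp [hα] at hβ'
  have β1 : Z.σ β ≠ 0 := by simpa using β0
  have n1 := Z.ν1
  have n3 := Z.ν3
  have ν0 : Z.ν ≠ 0 := by intro h; simp [h] at n1
  have s0 : Z.ν ^ 3 + Z.σ Z.ν ^ 3 ≠ 0 := by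
    intro h
    have h4 : (Z.ν ^ 3 + 1) ^ 2 = 0 := by grind
    have h5 : Z.ν ^ 3 + 1 = 0 := by simpa using h4
    exact n3 (by grind)
  obtain ⟨κ, hκ⟩ : ∃ κ : F, κ = Z.σ α * α * (Z.ν ^ 3 + Z.σ Z.ν ^ 3) / (β * Z.σ β) := ⟨_, rfl⟩
  have κ1 : Z.σ κ = κ := by rw [hκ]; simp [Z.σσ, mul_comm, add_comm]
  have κ0 : κ ≠ 0 := by rw [hκ]; simp [hα, β0, s0]
  have κ2 : κ * (β * Z.σ β) = Z.σ α * α * (Z.ν ^ 3 + Z.σ Z.ν ^ 3) := by rw [hκ]; field_simp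
  clear hκ
  have l0 : κ * Z.ν ≠ 0 := mul_ne_zero κ0 ν0
  have ok1 := Z.ok_M l0 (Z.ok_inv hβ)
  have e1 := Z.M_conj l0 (Z.ok_inv hβ)
  have r1 : Z.σ (κ * Z.ν) ^ 2 / (κ * Z.ν) * α = κ * Z.σ Z.ν ^ 3 * α := by
    rw [map_mul, κ1]; field_simp; grind
  have r2 : κ * Z.ν * Z.σ (κ * Z.ν) * Z.σ β = κ ^ 2 * Z.σ β := by
    rw [map_mul, κ1]; grind
  rw [r1, r2] at ok1 e1
  set v := Z.S α β with hv
  set v' := Z.t * Z.S (κ * Z.σ Z.ν ^ 3 * α) (κ ^ 2 * Z.σ β) * Z.t with hv'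
  have m1 : Z.ρ (v * v') = Sm Z.σ α β *
      !![1, 0, 0; κ * Z.σ Z.ν ^ 3 * α, 1, 0; κ ^ 2 * Z.σ β, κ * Z.ν ^ 3 * Z.σ α, 1] := by
    rw [map_mul, hv, hv', Z.ρ_S hβ, Z.ρ_tSt ok1]; simp [κ1, Z.σσ]
  obtain ⟨k, a', b', ok2, e2⟩ := Z.two_elt (g := v * v') (Z.four (by
    rw [m1]
    simp only [Sm, Matrix.trace, Matrix.diag, Matrix.mul_apply, Fin.sum_univ_succ]
    simpa using alg1 κ2))
  have d1 := Z.Dt_conj k (v * v') (Z.ρ k⁻¹ *ᵥ e0)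
  rw [e2, Z.Dt_S ok2, mv_inv'] at d1
  have d2 : Z.Dt (v * v') e0 = κ ^ 3 * Z.ν ^ 3 * (Z.σ α * α ^ 2) := by
    rw [Dt, m1, det_fin_three]
    simpa [Sm, e0, mulVec, dotProduct, Matrix.mul_apply, Fin.sum_univ_succ] using alg2 κ2 n1 hβ'
  rw [d2] at d1
  generalize (Z.ρ k⁻¹ *ᵥ e0) 2 = y at d1
  have d0 : Z.σ a' * a' ^ 2 * y ^ 3 ≠ 0 := by rw [d1]; simp [κ0, ν0, hα]
  have a0 : a' ≠ 0 := by rintro rfl; simp at d0
  have y0 : y ≠ 0 := by rintro rfl; simp at d0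
  have a1 : Z.σ a' ≠ 0 := by simpa using a0
  have y1 : Z.σ y ≠ 0 := by simpa using y0
  have ν2 : Z.σ Z.ν ≠ 0 := by simpa using ν0
  obtain ⟨μ, μ0, μ1⟩ : ∃ μ : F, μ ≠ 0 ∧ Z.σ μ ^ 2 / μ * a' = α := by
    refine ⟨(Z.σ (κ * Z.ν / y) * (κ * Z.ν / y * Z.σ (κ * Z.ν / y)) / (a' / α * Z.σ (a' / α)))⁻¹, ?_, ?_⟩
    · simp [κ0, ν0, y0, a0, hα]
    · simp only [map_inv₀, map_div₀, map_mul, Z.σσ, κ1]
      field_simp
      linear_combination d1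
  have e3 := Z.M_conj μ0 ok2
  have ok3 := Z.ok_M μ0 ok2
  rw [μ1] at e3 ok3
  have h3 : (k * (Z.M μ)⁻¹)⁻¹ * (v * v') * (k * (Z.M μ)⁻¹) ∈ H := by
    have : (k * (Z.M μ)⁻¹)⁻¹ * (v * v') * (k * (Z.M μ)⁻¹) = Z.M μ * (k⁻¹ * (v * v') * k) * (Z.M μ)⁻¹ := by group
    rw [this, e2, e3]
    exact h1 _ ok3
  generalize k * (Z.M μ)⁻¹ = k' at h3
  obtain ⟨g, a1, a2, a3⟩ := hb.tri (x1 := ((Z.t * Z.M (κ * Z.ν) : G) : G ⧸ H)) (x2 := ((1 : G) : G ⧸ H))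
    (x3 := (k' : G ⧸ H)) (a := v') (b := v⁻¹)
    ((smul_mk_iff _ _ _).mpr (by
      have : (Z.t * Z.M (κ * Z.ν))⁻¹ * v' * (Z.t * Z.M (κ * Z.ν)) = Z.S α (Z.σ β) := by
        rw [hv', ← e1]
        calc _ = (Z.M (κ * Z.ν))⁻¹ * (Z.t⁻¹ * Z.t) * (Z.M (κ * Z.ν) * Z.S α (Z.σ β) * (Z.M (κ * Z.ν))⁻¹) *
              (Z.t * Z.t) * Z.M (κ * Z.ν) := by group
          _ = _ := by rw [Z.t_sq]; group
      rw [this]; exact h1 _ (Z.ok_inv hβ)))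
    ((smul_mk_iff _ _ _).mpr (by simpa using h1 _ hβ))
    (by rw [eq_inv_smul_iff, ← mul_smul, smul_mk_iff]; exact h3)
  have gH : g ∈ H := by simpa using (smul_mk_iff _ _ _).mp a2
  obtain ⟨c0, b0, c0'⟩ := hB _ gH
  obtain ⟨c1, b1, -⟩ := hB _ ((smul_mk_iff _ _ _).mp a1)
  rw [fx_conj, map_mul, ← mulVec_mulVec, Z.fx_M l0, mulVec_smul, t_e0] at b1
  have b2 : Z.Fx g Mod.e2 c1 := by
    unfold Fx at b1 ⊢
    rw [mulVec_smul, smul_comm c1] at b1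
    exact smul_right_injective _ l0 b1
  have hz : g ∈ Subgroup.center G := (Z.diag b0 b2).1 ▸ Z.M_central (b0.ne e0_ne) c0'
  have a4 : g • (k' : G ⧸ H) = k' := by
    rw [smul_mk_iff, mul_assoc, ← Subgroup.mem_center_iff.mp hz, inv_mul_cancel_left]; exact gH
  rw [a4] at a3
  have a5 := (smul_mk_iff _ _ _).mp a3.symm
  have a6 : k'⁻¹ * v * k' ∈ H := by
    have : k'⁻¹ * v * k' = k'⁻¹ * (v * v') * k' * (k'⁻¹ * v' * k')⁻¹ := by group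
    rw [this]; exact H.mul_mem h3 (H.inv_mem a5)
  obtain ⟨c2, b3, -⟩ := hB _ a5
  obtain ⟨c3, b4, -⟩ := hB _ a6
  rw [fx_conj] at b3 b4
  have w0 : Z.ρ k' *ᵥ e0 ≠ 0 := fun h => e0_ne (by rw [← Z.mv_inv k' e0, h, mulVec_zero])
  generalize Z.ρ k' *ᵥ e0 = w at b3 b4 w0
  have hw : w = ![w 0, w 1, w 2] := by ext i; fin_cases i <;> rfl
  rw [hw, fx_iff] at b3 b4
  rw [hv', Z.ρ_tSt ok1] at b3
  rw [hv, Z.ρ_S hβ] at b4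
  simp [Sm] at b3 b4
  have z2 : w 2 = 0 := by
    by_contra h
    have : c3 = 1 := by grind
    grind
  have z1 : w 1 = 0 := by
    by_contra h
    have : c3 = 1 := by grind
    grind
  have z0 : w 0 = 0 := by
    have := b3.2.1
    simpa [z1, κ0, ν0, hα] using this
  exact w0 (by rw [hw, z0, z1, z2]; ext i; fin_cases i <;> rfl)

theorem S_of {H : Subgroup G} (h0 : ∀ b, Z.σ b = b → Z.S 0 b ∈ H) {a b b' : F} (h1 : Z.ok a b) (h2 : Z.ok a b')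
    (h : Z.S a b ∈ H) : Z.S a b' ∈ H := by
  have := Z.two
  have h3 : Z.σ (b + b') = b + b' := by unfold ok at h1 h2; rw [map_add]; grind
  have := H.mul_mem (h0 _ h3) h
  rw [Z.S_mul (Z.ok_zero h3) h1] at this
  convert this using 2
  · simp
  · simp; grind

theorem reduce {H : Subgroup G} (h0 : ∀ b, Z.σ b = b → Z.S 0 b ∈ H) {h : G} (hh : h ∈ H) {c : F}
    (hc : Z.Fx h e0 c) (h1 : Z.σ c ^ 2 ≠ c) : ∃ k, Z.Fx k e0 1 ∧ (∀ b, Z.σ b = b → (Z.conj k).S 0 b ∈ H) ∧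
      (Z.conj k).M c ∈ H := by
  have := Z.two
  obtain ⟨a, b, ok1, rfl⟩ := Z.borel hc
  have c0 := hc.ne e0_ne
  have h2 : 1 + Z.σ c ^ 2 / c ≠ 0 := by
    intro h; apply h1; field_simp at h; grind
  obtain ⟨d, ok2⟩ := Z.exists_ok (a / (1 + Z.σ c ^ 2 / c))
  set e := a / (1 + Z.σ c ^ 2 / c) with he
  have h3 : ∀ b, Z.σ b = b → (Z.conj (Z.S e d)).S 0 b ∈ H := by
    intro b hb
    rw [Z.conj_S _ (Z.ok_zero hb), ← Z.S0_comm hb ok2, mul_inv_cancel_right]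
    exact h0 b hb
  refine ⟨Z.S e d, Z.fx_S ok2, h3, ?_⟩
  rw [Z.conj_M _ c0, Z.S_inv ok2, mul_assoc, Z.M_S c0 (Z.ok_inv ok2), ← mul_assoc,
    Z.S_mul ok2 (Z.ok_M c0 (Z.ok_inv ok2))]
  have ok3 := Z.ok_mul ok2 (Z.ok_M c0 (Z.ok_inv ok2))
  have e1 : e + Z.σ c ^ 2 / c * e = a := by
    rw [← one_add_mul, he, mul_div_cancel₀ _ h2]
  rw [e1] at ok3 ⊢
  generalize d + c * Z.σ c * Z.σ d + Z.σ e * (Z.σ c ^ 2 / c * e) = b' at ok3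
  have h4 : Z.σ (b + b') = b + b' := by unfold ok at ok1 ok3; rw [map_add]; grind
  have := H.mul_mem (h0 _ h4) hh
  rw [← mul_assoc, Z.S_mul (Z.ok_zero h4) ok1] at this
  convert this using 3
  · simp
  · simp; grind

theorem fx_B {k h : G} {c d : F} (hk : Z.Fx k e0 d) (hh : Z.Fx h e0 c) : (Z.conj k).Fx h e0 c := by
  rw [conj_fx]
  have := ((hk.inv e0_ne).mul hh).mul hk
  rwa [mul_right_comm, inv_mul_cancel₀ (hk.ne e0_ne), one_mul] at this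

theorem in_borel {H : Subgroup G} (hb : Bin G (G ⧸ H)) (hB : ∀ h ∈ H, ∃ c, Z.Fx h e0 c)
    (h0 : ∀ b, Z.σ b = b → Z.S 0 b ∈ H) (hZ : Subgroup.center G ≤ H) {h : G} (hh : h ∈ H) :
    ∃ b, Z.σ b = b ∧ ∃ z ∈ Subgroup.center G, h = Z.S 0 b * z := by
  have s1 : ∀ h ∈ H, ∃ c, Z.Fx h e0 c ∧ c * Z.σ c = 1 := by
    intro h hh
    obtain ⟨c, hc⟩ := hB h hh
    refine ⟨c, hc, ?_⟩
    by_cases h1 : Z.σ c ^ 2 = c
    · have h2 : c ^ 2 = Z.σ c := by simpa [Z.σσ] using congrArg Z.σ h1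
      have c0 := hc.ne e0_ne
      apply mul_left_cancel₀ c0
      grind
    obtain ⟨k, k1, k2, k3⟩ := Z.reduce h0 hh hc h1
    exact (Z.conj k).norm_one hb (fun h hh => (hB h hh).imp fun c hc => Z.fx_B k1 hc) k2 (hc.ne e0_ne) k3
  have s2 : ∀ h ∈ H, ∃ c, Z.Fx h e0 c ∧ Z.σ c ^ 2 = c := by
    intro h hh
    obtain ⟨c, hc, hc'⟩ := s1 h hh
    refine ⟨c, hc, ?_⟩
    by_contra h1
    obtain ⟨k, k1, k2, k3⟩ := Z.reduce h0 hh hc h1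
    exact h1 ((Z.conj k).cube_one hb (fun h hh => (s1 h hh).imp fun c hc => ⟨Z.fx_B k1 hc.1, hc.2⟩) hc' k3)
  obtain ⟨c, hc, hc'⟩ := s2 h hh
  obtain ⟨a, b, ok1, rfl⟩ := Z.borel hc
  have hz := Z.M_central (hc.ne e0_ne) hc'
  by_cases ha : a = 0
  · subst ha
    exact ⟨b, Z.fix_of_ok ok1, _, hz, rfl⟩
  · exact (Z.no_four hb s2 ha fun b' ok2 =>
      Z.S_of h0 ok1 ok2 ((H.mul_mem_cancel_right (hZ hz)).mp hh)).elim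

end Cfsg.Agent.Fil.U3.Mod
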