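import Mathlib
import Cfsg.Agent.Fil.U

set_option autoImplicit false
set_option linter.unusedSectionVars false

/-! Binary actions of `SU₃(q)`, `q` even: subgroups containing two root subgroups. -/

namespace Cfsg.Agent.Fil.U3.Mod

open Matrix Cfsg.Agent.Herm Cfsg.Agent.Fil.Bn

variable {F : Type*} [Field F] {G : Type*} [Group G] {q : ℕ} (Z : Mod G F q)

theorem t_mem {H : Subgroup G} (h0 : ∀ b, Z.σ b = b → Z.S 0 b ∈ H)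
    (h1 : ∀ b, Z.σ b = b → Z.t * Z.S 0 b * Z.t ∈ H) : Z.t ∈ H := by
  have := Z.two
  have ok1 := Z.ok_zero (map_one Z.σ)
  have : Z.t = Z.S 0 1 * (Z.t * Z.S 0 1 * Z.t) * Z.S 0 1 := by
    apply Z.inj
    rw [map_mul, map_mul, Z.ρ_tSt ok1, Z.ρ_t, Z.ρ_S ok1]
    ext i j
    fin_cases i <;> fin_cases j <;> simp [Sm, Jm, Matrix.mul_apply, Fin.sum_univ_succ] <;> grind
  rw [this]
  exact H.mul_mem (H.mul_mem (h0 _ (map_one _)) (h1 _ (map_one _))) (h0 _ (map_one _))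

theorem stab_aux {H : Subgroup G} (h0 : ∀ b, Z.σ b = b → Z.S 0 b ∈ H) (ht : Z.t ∈ H) {g : G}
    (hg : Z.Fx g e1 1) (hc : Z.ρ g 2 0 ≠ 0) : g ∈ H := by
  have := Z.two
  rw [e1, fx_iff] at hg
  simp only [mul_one, mul_zero, add_zero, zero_add] at hg
  obtain ⟨h01, h11, h21⟩ := hg
  have f01 := Z.f g 0 1
  have f12 := Z.f g 1 2
  have f00 := Z.f g 0 0
  have f02 := Z.f g 0 2
  have f20 := Z.f g 2 0
  have f22 := Z.f g 2 2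
  have hd := Z.d g
  simp [h01, h11, h21, Jm] at f01 f12 f00 f02 f20 f22 hd
  simp [f01, f12] at f00 f02 f20 f22
  have a1 : Z.σ (Z.ρ g 0 0) = Z.ρ g 0 0 := by grind
  have a2 : Z.σ (Z.ρ g 2 0) = Z.ρ g 2 0 := by grind
  have a3 : Z.σ (Z.ρ g 2 2) = Z.ρ g 2 2 := by grind
  have b1 : Z.σ ((Z.ρ g 0 0 + 1) / Z.ρ g 2 0) = (Z.ρ g 0 0 + 1) / Z.ρ g 2 0 := by simp [a1, a2]
  have b2 : Z.σ ((Z.ρ g 2 2 + 1) / Z.ρ g 2 0) = (Z.ρ g 2 2 + 1) / Z.ρ g 2 0 := by simp [a3, a2]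
  have : g = Z.S 0 ((Z.ρ g 0 0 + 1) / Z.ρ g 2 0) * (Z.t * Z.S 0 (Z.ρ g 2 0) * Z.t) *
      Z.S 0 ((Z.ρ g 2 2 + 1) / Z.ρ g 2 0) := by
    apply Z.inj
    rw [map_mul, map_mul, Z.ρ_tSt (Z.ok_zero a2), Z.ρ_S (Z.ok_zero b1), Z.ρ_S (Z.ok_zero b2)]
    ext i j
    fin_cases i <;> fin_cases j <;>
      simp [Sm, Matrix.mul_apply, Fin.sum_univ_succ, h01, h11, h21, f01, f12] <;> field_simp <;> grind
  rw [this]
  exact H.mul_mem (H.mul_mem (h0 _ b1) (H.mul_mem (H.mul_mem ht (h0 _ a2)) ht)) (h0 _ b2)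

theorem ρ_mul_t (g : G) (i : Fin 3) : Z.ρ (g * Z.t) i 0 = Z.ρ g i 2 := by
  rw [map_mul, Z.ρ_t]; simp [Jm, Matrix.mul_apply, Fin.sum_univ_succ]

theorem fx_t : Z.Fx Z.t e1 1 := by rw [e1, fx_iff, Z.ρ_t]; simp [Jm]

theorem stab {H : Subgroup G} (h0 : ∀ b, Z.σ b = b → Z.S 0 b ∈ H) (ht : Z.t ∈ H) {g : G}
    (hg : Z.Fx g e1 1) : g ∈ H := by
  by_cases hc : Z.ρ g 2 0 = 0
  · rw [← H.mul_mem_cancel_right ht]
    refine Z.stab_aux h0 ht (by simpa using hg.mul Z.fx_t) ?_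
    rw [ρ_mul_t]
    intro h
    have hd := Z.d g
    rw [e1, fx_iff] at hg
    simp only [mul_one, mul_zero, add_zero, zero_add] at hg
    simp [hc, h, hg.2.2] at hd
  · exact Z.stab_aux h0 ht hg hc

theorem fx_M1 {κ : F} (h0 : κ ≠ 0) (h : Z.σ κ = κ) : Z.Fx (Z.M κ) e1 1 := by
  rw [e1, fx_iff, Z.ρ_M h0]; simp [Dm, h, h0]

theorem exists_fix : ∃ κ : F, Z.σ κ = κ ∧ κ ≠ 0 ∧ κ ≠ 1 := by
  have := Z.two
  have n1 := Z.ν1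
  have n3 := Z.ν3
  obtain ⟨m, m1, m2⟩ := Z.exists_m Z.ν1 Z.ν_ne
  refine ⟨Z.ν + Z.σ Z.ν, by simp [Z.σσ, add_comm], fun h => by simp [h] at m2, fun h => n3 ?_⟩
  grind

theorem step {H : Subgroup G} (h0 : ∀ b, Z.σ b = b → Z.S 0 b ∈ H) (ht : Z.t ∈ H) {g : G} (hg : g ∈ H)
    (h : Z.ρ g 1 0 ≠ 0) : ∃ a b, Z.ok a b ∧ a * Z.ρ g 2 0 = Z.ρ g 1 0 ∧
      ∀ κ b', Z.σ κ = κ → Z.ok (κ * a) b' → Z.S (κ * a) b' ∈ H := by
  have := Z.two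
  obtain ⟨a, b, c, ok1, hk, e1, -, rfl⟩ := Z.move (g := g) (by
    rintro ⟨c, hc⟩
    rw [e0, fx_iff] at hc
    simpa [h] using hc.2.1)
  refine ⟨a, b, ok1, e1, ?_⟩
  set r := Z.S a b with hr
  have y0 : ∀ b, Z.σ b = b → (Z.conj r).S 0 b ∈ H := by
    intro b hb
    rw [Z.conj_S _ (Z.ok_zero hb), ← Z.S0_comm hb ok1, mul_inv_cancel_right]
    exact h0 b hb
  have y1 : ∀ b, Z.σ b = b → (Z.conj r).t * (Z.conj r).S 0 b * (Z.conj r).t ∈ H := by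
    intro b hb
    obtain ⟨b', hb', e⟩ := Z.borel_conj (hk.inv e0_ne) hb
    rw [Z.conj_S _ (Z.ok_zero hb), Z.conj_t]
    have : r * Z.t * r⁻¹ * (r * Z.S 0 b * r⁻¹) * (r * Z.t * r⁻¹) = g * Z.S 0 b' * g⁻¹ := by
      rw [← e]
      nth_rw 1 [← Z.t_inv]
      group
    rw [this]
    exact H.mul_mem (H.mul_mem hg (h0 _ hb')) (H.inv_mem hg)
  obtain ⟨k, k1, k2, k3⟩ := Z.exists_fix
  have k4 : 1 + k ≠ 0 := fun h => k3 (by grind)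
  have y2 := (Z.conj r).stab y0 ((Z.conj r).t_mem y0 y1) ((Z.conj r).fx_M1 k2 k1)
  rw [Z.conj_M _ k2, hr, Z.S_inv ok1, mul_assoc, Z.M_S k2 (Z.ok_inv ok1), ← mul_assoc,
    H.mul_mem_cancel_right (Z.stab h0 ht (Z.fx_M1 k2 k1)), Z.S_mul ok1 (Z.ok_M k2 (Z.ok_inv ok1))] at y2
  have ok2 := Z.ok_mul ok1 (Z.ok_M k2 (Z.ok_inv ok1))
  intro κ b' hκ ok3
  by_cases κ0 : κ = 0
  · subst κ0
    rw [zero_mul] at ok3 ⊢
    exact h0 _ (Z.fix_of_ok ok3)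
  have l0 : κ / (1 + k) ≠ 0 := div_ne_zero κ0 k4
  have l1 : Z.σ (κ / (1 + k)) = κ / (1 + k) := by simp [hκ, k1]
  have y3 := Z.stab h0 ht (Z.fx_M1 l0 l1)
  have y4 := H.mul_mem (H.mul_mem y3 y2) (H.inv_mem y3)
  have ok4 := Z.ok_M l0 ok2
  rw [Z.M_conj l0 ok2] at y4
  have e : Z.σ (κ / (1 + k)) ^ 2 / (κ / (1 + k)) * (a + Z.σ k ^ 2 / k * a) = κ * a := by
    rw [l1, k1]; field_simp
  rw [e] at y4 ok4
  exact Z.S_of h0 ok4 ok3 y4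

theorem top_of {H : Subgroup G} (hS : ∀ a b, Z.ok a b → Z.S a b ∈ H) (ht : Z.t ∈ H) : H = ⊤ := by
  have := Z.two
  have hM : ∀ l, l ≠ 0 → Z.M l ∈ H := by
    intro l hl
    obtain ⟨a, a1, a2⟩ := Z.sqrt (l + Z.σ l)
    have ok1 : Z.ok a l := by unfold ok; rw [a2 (by simp [Z.σσ, add_comm]), ← a1, sq]
    obtain ⟨a', b', c, ok2, hk, -, -, e⟩ := Z.move (g := Z.t * Z.S a l * Z.t) (by
      rintro ⟨c, hc⟩
      rw [e0, fx_iff, Z.ρ_tSt ok1] at hc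
      simpa [hl] using hc.2.2)
    rw [Z.ρ_tSt ok1] at e
    simp at e
    subst e
    obtain ⟨a'', b'', ok3, e⟩ := Z.borel hk
    rw [← H.mul_mem_cancel_left (hS _ _ ok3), ← e]
    exact H.mul_mem (H.mul_mem ht (H.inv_mem (hS _ _ ok2))) (H.mul_mem (H.mul_mem ht (hS _ _ ok1)) ht)
  have hB : ∀ g c, Z.Fx g e0 c → g ∈ H := by
    intro g c hc
    obtain ⟨a, b, ok1, rfl⟩ := Z.borel hc
    exact H.mul_mem (hS _ _ ok1) (hM _ (hc.ne e0_ne))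
  rw [eq_top_iff]
  intro g _
  by_cases h : ∃ c, Z.Fx g e0 c
  · obtain ⟨c, hc⟩ := h
    exact hB g c hc
  · obtain ⟨a, b, c, ok1, hk, -⟩ := Z.move h
    exact (H.mul_mem_cancel_left (H.mul_mem ht (H.inv_mem (hS _ _ ok1)))).mp (hB _ _ hk)

theorem top_of_ne {H : Subgroup G} (h0 : ∀ b, Z.σ b = b → Z.S 0 b ∈ H) (ht : Z.t ∈ H) {g : G} (hg : g ∈ H)
    (h : Z.ρ g 1 0 ≠ 0) : H = ⊤ := by
  have := Z.two
  obtain ⟨a, b, ok1, e1, h1⟩ := Z.step h0 ht hg h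
  have a0 : a ≠ 0 := by rintro rfl; exact h (by simpa using e1.symm)
  have hr : Z.S a b ∈ H := by simpa using h1 1 b (map_one _) (by simpa using ok1)
  obtain ⟨a2, b2, ok2, e2, h2⟩ := Z.step h0 ht (H.mul_mem (H.mul_mem ht hr) ht) (by
    rw [Z.ρ_tSt ok1]; simpa using a0)
  rw [Z.ρ_tSt ok1] at e2
  simp at e2
  have ok1' := ok1
  unfold ok at ok1'
  have b0 : b ≠ 0 := by rintro rfl; simp [a0] at ok1'
  have b1 : Z.σ b ≠ 0 := by simpa using b0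
  have s0 : b⁻¹ + Z.σ b⁻¹ ≠ 0 := by
    rw [map_inv₀]
    intro h
    field_simp at h
    rw [add_comm, ok1'] at h
    simp [a0] at h
  refine Z.top_of (fun x y ok3 => ?_) ht
  obtain ⟨κ', k1⟩ : ∃ κ', κ' = (x / a + Z.σ (x / a)) / (b⁻¹ + Z.σ b⁻¹) := ⟨_, rfl⟩
  have k2 : Z.σ κ' = κ' := by rw [k1, map_div₀, map_add, map_add, Z.σσ, Z.σσ, add_comm, add_comm (Z.σ _)]
  have k3 : κ' * (b⁻¹ + Z.σ b⁻¹) = x / a + Z.σ (x / a) := by rw [k1, div_mul_cancel₀ _ s0]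
  have k4 : Z.σ (x / a + κ' * b⁻¹) = x / a + κ' * b⁻¹ := by
    rw [map_add, map_mul, k2]
    clear k1
    grind
  obtain ⟨y1, ok4⟩ := Z.exists_ok ((x / a + κ' * b⁻¹) * a)
  obtain ⟨y2, ok5⟩ := Z.exists_ok (κ' * a2)
  have h3 := H.mul_mem (h1 _ _ k4 ok4) (h2 _ _ k2 ok5)
  have ok6 := Z.ok_mul ok4 ok5
  rw [Z.S_mul ok4 ok5] at h3
  have e : (x / a + κ' * b⁻¹) * a + κ' * a2 = x := by
    rw [← e2]
    have : a2 ≠ 0 := by rintro rfl; exact a0 (by simpa using e2.symm)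
    field_simp
    clear k1 k3 k4
    grind
  rw [e] at h3 ok6
  exact Z.S_of h0 ok6 ok3 h3

theorem fx_e1 {H : Subgroup G} (hH : H ≠ ⊤) (h0 : ∀ b, Z.σ b = b → Z.S 0 b ∈ H) (ht : Z.t ∈ H) {g : G}
    (hg : g ∈ H) : ∃ c, Z.Fx g e1 c := by
  have := Z.two
  have h1 : Z.ρ g 1 0 = 0 := by
    by_contra h
    exact hH (Z.top_of_ne h0 ht hg h)
  have h2 : Z.ρ g 1 2 = 0 := by
    by_contra h
    exact hH (Z.top_of_ne h0 ht (H.mul_mem hg ht) (by rwa [ρ_mul_t]))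
  have f10 := Z.f g 1 0
  have f12 := Z.f g 1 2
  have hd := Z.d g
  simp [h1, h2, Jm] at f10 f12 hd
  have a1 : Z.σ (Z.ρ g 0 1) = 0 := by grind
  have a2 : Z.σ (Z.ρ g 2 1) = 0 := by grind
  refine ⟨Z.ρ g 1 1, ?_⟩
  rw [e1, fx_iff]
  simpa using ⟨by simpa using a1, by simpa using a2⟩

theorem det3 {g : G} {x y x' y' c1 c2 c3 : F} (h1 : Z.Fx g e1 c1) (h2 : Z.Fx g ![x, 0, y] c2)
    (h3 : Z.Fx g ![x', 0, y'] c3) (h : x * y' - x' * y ≠ 0) : c1 * c2 * c3 = 1 := by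
  have hd := Z.d g
  rw [e1, fx_iff] at h1
  rw [fx_iff] at h2 h3
  simp only [mul_one, mul_zero, add_zero, zero_add] at h1 h2 h3
  obtain ⟨a1, a2, a3⟩ := h1
  simp only [a1, a2, a3, mul_zero, zero_mul, sub_zero, add_zero] at hd
  apply mul_right_cancel₀ h
  linear_combination (-c1 * c2 * x) * h3.2.2 + (c1 * c2 * y) * h3.1 - (c1 * (Z.ρ g 2 0 * x' + Z.ρ g 2 2 * y')) * h2.1 +
    (c1 * (Z.ρ g 0 0 * x' + Z.ρ g 0 2 * y')) * h2.2.2 + (x * y' - x' * y) * hd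

theorem p_e1 {l m : F} (h1 : l * Z.σ l = 1) (h2 : Z.σ m = m) (h3 : m ^ 2 * (l + Z.σ l) = 1) :
    Z.ρ (Z.p l m) *ᵥ e1 = ![Z.σ l * m, 0, m] := by
  rw [e1, mv, Z.ρ_p h1 h2 h3]; simp [Pm]

theorem ρ_St {b : F} (hb : Z.σ b = b) : Z.ρ (Z.S 0 b * Z.t) = !![b, 0, 1; 0, 1, 0; 1, 0, 0] := by
  rw [map_mul, Z.ρ_t, Z.ρ_S (Z.ok_zero hb)]
  ext i j
  fin_cases i <;> fin_cases j <;> simp [Sm, Jm, Matrix.mul_apply, Fin.sum_univ_succ]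

theorem full {H : Subgroup G} (hb : Bin G (G ⧸ H)) (hH : H ≠ ⊤) (h0 : ∀ b, Z.σ b = b → Z.S 0 b ∈ H)
    (ht : Z.t ∈ H) {l : F} (hl : l * Z.σ l = 1) : ∃ h ∈ H, Z.Fx h e1 l := by
  have := Z.two
  by_cases l1 : l = 1
  · exact ⟨Z.t, ht, l1 ▸ Z.fx_t⟩
  obtain ⟨m, m1, m2⟩ := Z.exists_m hl l1
  have m0 : m ≠ 0 := by rintro rfl; simp at m2
  have τ : Z.σ (l + Z.σ l) = l + Z.σ l := by simp [Z.σσ, add_comm]
  obtain ⟨g, g0, g1, g2⟩ := tri3 hb (H.mul_mem (h0 _ τ) ht) (Z.p_cube hl m1 m2) (Z.cube (by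
    rw [map_mul, Z.ρ_p hl m1 m2, Z.ρ_St τ]
    simp [Pm, Matrix.trace, Matrix.mul_apply, Fin.sum_univ_succ]
    grind))
  obtain ⟨c0, a0⟩ := Z.fx_e1 hH h0 ht g0
  obtain ⟨c1, a1⟩ := Z.fx_e1 hH h0 ht g1
  obtain ⟨c2, a2⟩ := Z.fx_e1 hH h0 ht g2
  refine ⟨_, H.mul_mem (H.mul_mem g0 g1) g2, ?_⟩
  have a3 := (a0.mul a1).mul a2
  rw [fx_conj] at a1 a2
  rw [Z.p_e1 hl m1 m2] at a1
  have u3 : Z.ρ (Z.p l m * Z.p l m) *ᵥ e1 = ![l * m, 0, m] := by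
    rw [map_mul, ← mulVec_mulVec, Z.p_e1 hl m1 m2, mv, Z.ρ_p hl m1 m2]
    ext i
    fin_cases i <;> simp [Pm] <;> grind
  rw [u3] at a2
  have a4 : Z.Fx (Z.S 0 (l + Z.σ l) * Z.t) ![l * m, 0, m] l := by
    rw [fx_iff, Z.ρ_St τ]; simp; grind
  have a5 := (a4.inv (fun h => m0 (by simpa using congrFun h 2))).mul a2
  rw [inv_mul_cancel_left] at a5
  have a6 := Z.det3 a0 a1 a5 (by
    intro h
    have : (1 : F) = 0 := by grind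
    exact one_ne_zero this)
  have l0 : l ≠ 0 := by rintro rfl; simp at hl
  have : c0 * c1 * c2 = l := by field_simp at a6; exact a6
  rwa [this] at a3

theorem not_t {H : Subgroup G} (hb : Bin G (G ⧸ H)) (hH : H ≠ ⊤) (h0 : ∀ b, Z.σ b = b → Z.S 0 b ∈ H)
    (ht : Z.t ∈ H) : False := by
  have := Z.two
  have all : ∀ g c, Z.Fx g e1 c → g ∈ H := by
    intro g c hc
    have h1 := Z.B_fx hc hc (by simp [B, e1])
    obtain ⟨h, hh, h2⟩ := Z.full hb hH h0 ht (l := c) (by rw [mul_comm, h1])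
    have h3 := (h2.inv e1_ne).mul hc
    rw [inv_mul_cancel₀ (hc.ne e1_ne)] at h3
    exact (H.mul_mem_cancel_left (H.inv_mem hh)).mp (Z.stab h0 ht h3)
  have iff : ∀ x k : G, x • (k : G ⧸ H) = k ↔ ∃ c, Z.Fx x (Z.ρ k *ᵥ e1) c := by
    intro x k
    rw [smul_mk_iff]
    constructor
    · intro h
      obtain ⟨c, hc⟩ := Z.fx_e1 hH h0 ht h
      exact ⟨c, Z.fx_conj.mp hc⟩
    · rintro ⟨c, hc⟩
      exact all _ c (Z.fx_conj.mpr hc)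
  have n1 := Z.ν1
  have n3 := Z.ν3
  have n2 : Z.σ Z.ν * Z.σ (Z.σ Z.ν) = 1 := by rw [Z.σσ, mul_comm, n1]
  have n4 : Z.ν ^ 2 * Z.σ (Z.ν ^ 2) = 1 := by rw [map_pow, ← mul_pow, n1, one_pow]
  obtain ⟨m, m1, m2⟩ := Z.exists_m n2 (fun h => Z.ν_ne (by simpa [h] using n1))
  obtain ⟨k, k1, k2⟩ := Z.exists_m n4 (fun h => Z.ν_ne (by
    have h4 : (Z.ν + 1) ^ 2 = 0 := by grind
    have h5 : Z.ν + 1 = 0 := by simpa using h4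
    grind))
  have m0 : m ≠ 0 := by rintro rfl; simp at m2
  have k0 : k ≠ 0 := by rintro rfl; simp at k2
  have u1 := Z.p_e1 n2 m1 m2
  have u3 := Z.p_e1 n4 k1 k2
  rw [Z.σσ] at u1 m2
  rw [map_pow] at u3 k2
  have τ : Z.σ (Z.ν + Z.σ Z.ν) = Z.ν + Z.σ Z.ν := by simp [Z.σσ, add_comm]
  have τ2 : Z.σ (Z.ν ^ 2 + Z.σ Z.ν ^ 2) = Z.ν ^ 2 + Z.σ Z.ν ^ 2 := by simp [Z.σσ, add_comm]
  have ne : Z.ν + Z.σ Z.ν + (Z.ν ^ 2 + Z.σ Z.ν ^ 2) ≠ 0 := by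
    intro h
    apply n3
    grind
  set s := Z.S 0 (Z.ν + Z.σ Z.ν) with hs
  set r := Z.S 0 (Z.ν ^ 2 + Z.σ Z.ν ^ 2) with hr
  have u2 : Z.ρ (r * Z.p (Z.σ Z.ν) m) *ᵥ e1 = ![Z.ν * m + (Z.ν ^ 2 + Z.σ Z.ν ^ 2) * m, 0, m] := by
    rw [map_mul, ← mulVec_mulVec, u1, mv, hr, Z.ρ_S (Z.ok_zero τ2)]; simp [Sm]
  have b1 : (s * Z.t) • (Z.p (Z.σ Z.ν) m : G ⧸ H) = Z.p (Z.σ Z.ν) m := (iff _ _).mpr ⟨Z.ν, by
    rw [u1, fx_iff, Z.ρ_St τ]; simp; grind⟩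
  obtain ⟨g, a1, a2, a3⟩ := hb.tri (x1 := ((r * Z.p (Z.σ Z.ν) m : G) : G ⧸ H)) (x2 := (Z.p (Z.σ Z.ν) m : G ⧸ H))
    (x3 := (Z.p (Z.ν ^ 2) k : G ⧸ H)) (a := r * (s * Z.t) * r⁻¹) (b := s * Z.t)
    (by
      rw [smul_mk_iff] at b1 ⊢
      have : (r * Z.p (Z.σ Z.ν) m)⁻¹ * (r * (s * Z.t) * r⁻¹) * (r * Z.p (Z.σ Z.ν) m) =
        (Z.p (Z.σ Z.ν) m)⁻¹ * (s * Z.t) * Z.p (Z.σ Z.ν) m := by group
      rwa [this]) b1
    (by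
      rw [← inv_smul_eq_iff, ← mul_smul]
      have e : (s * Z.t)⁻¹ * (r * (s * Z.t) * r⁻¹) = (r * Z.t)⁻¹ * (r * Z.t)⁻¹ := by
        have e1 : r⁻¹ = r := RankOne.inv_eq_of_mul_self (Z.S0_sq τ2)
        have e2 : r * s = s * r := Z.S0_comm τ2 (Z.ok_zero τ)
        calc _ = Z.t⁻¹ * s⁻¹ * (r * s) * Z.t * r⁻¹ := by group
          _ = Z.t⁻¹ * r * Z.t * r⁻¹ := by rw [e2]; group
          _ = _ := by rw [_root_.mul_inv_rev, e1, Z.t_inv]; group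
      have b2 : (r * Z.t) • (Z.p (Z.ν ^ 2) k : G ⧸ H) = Z.p (Z.ν ^ 2) k := (iff _ _).mpr ⟨Z.σ Z.ν ^ 2, by
        rw [u3, fx_iff, Z.ρ_St τ2]; simp; grind⟩
      rw [e, mul_smul, inv_smul_eq_iff.mpr b2.symm, inv_smul_eq_iff.mpr b2.symm])
  obtain ⟨c1, d1⟩ := (iff _ _).mp a1
  obtain ⟨c2, d2⟩ := (iff _ _).mp a2
  rw [u2] at d1
  rw [u1] at d2
  have e1 := Z.B_fx d2 d1 (by
    simp [B, m1]
    intro h
    apply ne
    apply mul_right_cancel₀ (pow_ne_zero 2 m0)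
    grind)
  have e2 := Z.B_fx d2 d2 (by
    simp [B, m1]
    intro h
    have : (1 : F) = 0 := by grind
    exact one_ne_zero this)
  have e3 : c1 = c2 := by grind
  subst e3
  have a4 : g • (Z.p (Z.ν ^ 2) k : G ⧸ H) = Z.p (Z.ν ^ 2) k := (iff _ _).mpr ⟨c1, by
    rw [u3]
    rw [fx_iff] at d1 d2 ⊢
    have τ0 : (Z.ν ^ 2 + Z.σ Z.ν ^ 2) * m ≠ 0 := mul_ne_zero (by rintro h; simp [h] at k2) m0
    have g00 : Z.ρ g 0 0 = c1 := mul_right_cancel₀ τ0 (by linear_combination d1.1 - d2.1)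
    have g10 : Z.ρ g 1 0 = 0 := mul_right_cancel₀ τ0 (by linear_combination d1.2.1 - d2.2.1)
    have g20 : Z.ρ g 2 0 = 0 := mul_right_cancel₀ τ0 (by linear_combination d1.2.2 - d2.2.2)
    rw [g00, g10, g20] at d2 ⊢
    have g02 : Z.ρ g 0 2 = 0 := mul_right_cancel₀ m0 (by linear_combination d2.1)
    have g12 : Z.ρ g 1 2 = 0 := mul_right_cancel₀ m0 (by linear_combination d2.2.1)
    have g22 : Z.ρ g 2 2 = c1 := mul_right_cancel₀ m0 (by linear_combination d2.2.2)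
    simp [g02, g12, g22]⟩
  rw [a4] at a3
  obtain ⟨c3, d3⟩ := (iff _ _).mp a3.symm
  have e4 : r⁻¹ = r := RankOne.inv_eq_of_mul_self (Z.S0_sq τ2)
  have e5 : r * (s * Z.t) * r⁻¹ = r⁻¹ * (s * Z.t) * r := by rw [e4]
  rw [e5, fx_conj, u3, mv, hr, Z.ρ_S (Z.ok_zero τ2), fx_iff, Z.ρ_St τ] at d3
  simp [Sm] at d3
  apply ne
  apply mul_right_cancel₀ k0
  grind

/-- the main result for `SU₃(q)`. -/
theorem main {H : Subgroup G} (hb : Bin G (G ⧸ H)) (hH : H ≠ ⊤) (hZ : Subgroup.center G ≤ H) {s : G}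
    (hs : s ∈ H) (s1 : s ≠ 1) (s2 : s * s = 1) : ∃ k : G, (∀ b, Z.σ b = b → (Z.conj k).S 0 b ∈ H) ∧
      ∀ h ∈ H, ∃ b, Z.σ b = b ∧ ∃ z ∈ Subgroup.center G, h = (Z.conj k).S 0 b * z := by
  have := Z.finite
  have all : ∀ Y : Mod G F q, ∀ c, Y.σ c = c → c ≠ 0 → Y.S 0 c ∈ H → ∀ b, Y.σ b = b → Y.S 0 b ∈ H := by
    intro Y c c1 c0 hc b hb'
    exact hb.mem_of_comm Z.one hc (fun h => c0 (Y.S_eq_one (Y.ok_zero c1) h).2) (Y.S0_sq c1) (Y.S0_sq hb')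
      (Y.S0_comm c1 (Y.ok_zero hb'))
  obtain ⟨k, hk⟩ := isConj_iff.mp (Z.inv_conj s1 s2)
  rw [← Z.conj_S k (Z.ok_zero (map_one _))] at hk
  have h0 := all (Z.conj k) 1 (map_one _) one_ne_zero (hk ▸ hs)
  refine ⟨k, h0, fun h hh => (Z.conj k).in_borel hb (fun g hg => ?_) h0 hZ hh⟩
  generalize Z.conj k = Y at h0
  have := Y.two
  by_contra hg'
  set j := g * Y.S 0 1 * g⁻¹ with hj
  have j1 : j ∈ H := H.mul_mem (H.mul_mem hg (h0 1 (map_one _))) (H.inv_mem hg)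
  have j2 : j * j = 1 := by
    calc _ = g * (Y.S 0 1 * Y.S 0 1) * g⁻¹ := by rw [hj]; group
      _ = 1 := by rw [Y.S0_sq (map_one _)]; group
  obtain ⟨a, b, c, ok1, h1, -⟩ := Y.move (g := j) (fun ⟨c, hc⟩ => hg' (Y.fx_of_conj (map_one _) one_ne_zero hc))
  have c0 := h1.ne e0_ne
  set r := Y.S a b with hr
  have h2 : Y.Fx (Y.t * (r⁻¹ * j * r)) e0 c := by
    have := h1.mul (Y.fx_S ok1)
    rw [mul_one] at this
    simpa [mul_assoc] using this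
  have h3 : Y.Fx (Y.t * (r⁻¹ * j * r)) e2 c⁻¹ := by
    have h4 := h2.inv e0_ne
    have e : (Y.t * (r⁻¹ * j * r))⁻¹ = Y.t⁻¹ * (Y.t * (r⁻¹ * j * r)) * Y.t := by
      rw [_root_.mul_inv_rev, Y.t_inv, ← mul_assoc Y.t, Y.t_sq, one_mul]
      congr 1
      calc _ = r⁻¹ * j⁻¹ * r := by group
        _ = _ := by rw [RankOne.inv_eq_of_mul_self j2]
    rwa [e, fx_conj, t_e0] at h4
  obtain ⟨e1, e2⟩ := Y.diag h2 h3
  have c1 : Y.σ c = c := by field_simp at e2; exact e2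
  obtain ⟨κ, k1, k2⟩ := Y.sqrt c
  have κ0 : κ ≠ 0 := by rintro rfl; exact c0 (by simpa using k1.symm)
  have e3 : (Y.conj (r * (Y.M κ)⁻¹)).t = j := by
    rw [conj_t]
    have e4 := Y.t_M κ0
    rw [k2 c1, ← Y.M_inv κ0] at e4
    calc _ = r * (Y.M κ)⁻¹ * Y.t * Y.M κ * r⁻¹ := by group
      _ = r * Y.t * (Y.M κ * (Y.t * Y.t) * Y.M κ) * r⁻¹ := by rw [← e4]; group
      _ = r * Y.t * (Y.t * (r⁻¹ * j * r)) * r⁻¹ := by rw [Y.t_sq, mul_one, Y.M_mul κ0 κ0, ← sq, k1, e1]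
      _ = r * (Y.t * Y.t) * r⁻¹ * j := by group
      _ = j := by rw [Y.t_sq]; group
  refine (Y.conj (r * (Y.M κ)⁻¹)).not_t hb hH (fun b hb' => ?_) (e3 ▸ j1)
  obtain ⟨b', b1, b2⟩ := Y.borel_conj ((Y.fx_S ok1).mul ((Y.fx_M κ0).inv e0_ne)) hb'
  rw [Y.conj_S _ (Y.ok_zero hb'), b2]
  exact h0 _ b1

end Cfsg.Agent.Fil.U3.Mod
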