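import Mathlib
import Cfsg.Agent.Fil.V
import Cfsg.Prelude.Def_Involutions

set_option autoImplicit false
set_option linter.unusedSectionVars false

/-! Binary actions: transfer, strong embedding, and the groups `PSU₃(q)`. -/

namespace Cfsg.Agent.Fil.Bn

open Matrix Cfsg.Agent.Herm Cfsg.Agent.Fil.U3

theorem bin_congr {G G' X X' : Type*} [Group G] [Group G'] [MulAction G X] [MulAction G' X'] (π : G' →* G)
    (hπ : Function.Surjective π) (φ : X' ≃ X) (h : ∀ g x, φ (g • x) = π g • φ x) : Bin G' X' ↔ Bin G X := by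
  constructor
  · intro hb n I J hn hp
    obtain ⟨g, hg⟩ := hb n (fun i => φ.symm (I i)) (fun i => φ.symm (J i)) hn (fun i j hij => by
      obtain ⟨g, h1, h2⟩ := hp i j hij
      obtain ⟨g, rfl⟩ := hπ g
      exact ⟨g, φ.injective (by simp [h, h1]), φ.injective (by simp [h, h2])⟩)
    exact ⟨π g, fun i => by simpa [h] using congrArg φ (hg i)⟩
  · intro hb n I J hn hp
    obtain ⟨g, hg⟩ := hb n (fun i => φ (I i)) (fun i => φ (J i)) hn (fun i j hij => by
      obtain ⟨g, h1, h2⟩ := hp i j hij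
      exact ⟨π g, by rw [← h, h1], by rw [← h, h2]⟩)
    obtain ⟨g, rfl⟩ := hπ g
    exact ⟨g, fun i => φ.injective (by rw [h, hg])⟩

theorem bin_comap {G G' : Type*} [Group G] [Group G'] (π : G' →* G) (hπ : Function.Surjective π)
    (H : Subgroup G) : Bin G' (G' ⧸ H.comap π) ↔ Bin G (G ⧸ H) := by
  let f : G' ⧸ H.comap π → G ⧸ H := Quotient.map' π (fun a b h => by
    rw [QuotientGroup.leftRel_apply] at h ⊢
    simpa using h)
  have hf : ∀ g : G', f g = (π g : G ⧸ H) := fun _ => rfl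
  refine bin_congr π hπ (Equiv.ofBijective f ⟨?_, ?_⟩) ?_
  · intro a b
    induction a using QuotientGroup.induction_on with
    | H a =>
    induction b using QuotientGroup.induction_on with
    | H b =>
    intro h
    rw [hf, hf, QuotientGroup.eq] at h
    rw [QuotientGroup.eq]
    simpa using h
  · intro a
    induction a using QuotientGroup.induction_on with
    | H a =>
    obtain ⟨a, rfl⟩ := hπ a
    exact ⟨a, rfl⟩
  · intro g a
    induction a using QuotientGroup.induction_on with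
    | H a =>
    change f ((g * a : G') : G' ⧸ H.comap π) = π g • (π a : G ⧸ H)
    rw [hf, map_mul]; rfl

theorem exists_se {G : Type*} [Group G] [Finite G] [IsSimpleGroup G] {H : Subgroup G} (hH : H ≠ ⊤) {s : G}
    (hs : s ∈ H) (s1 : s ≠ 1) (s2 : s * s = 1)
    (h : ∀ a ∈ H, a ≠ 1 → a * a = 1 → ∀ b, b * b = 1 → a * b = b * a → b ∈ H) :
    ∃ M : Subgroup G, Cfsg.IsStronglyEmbedded M := by
  let r : G → G → Prop := fun a b => a ≠ 1 ∧ a * a = 1 ∧ b ≠ 1 ∧ b * b = 1 ∧ a * b = b * a
  have symm : ∀ {a b}, Relation.ReflTransGen r a b → Relation.ReflTransGen r b a := by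
    intro a b h
    induction h with
    | refl => exact Relation.ReflTransGen.refl
    | tail _ h ih => exact Relation.ReflTransGen.head ⟨h.2.2.1, h.2.2.2.1, h.1, h.2.1, h.2.2.2.2.symm⟩ ih
  have cj : ∀ g {a b}, Relation.ReflTransGen r a b →
      Relation.ReflTransGen r (g * a * g⁻¹) (g * b * g⁻¹) := by
    intro g a b h
    induction h with
    | refl => exact Relation.ReflTransGen.refl
    | tail _ h ih =>
      exact ih.tail ⟨by simpa using h.1, by rw [conj_mul, h.2.1]; group, by simpa using h.2.2.1,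
        by rw [conj_mul, h.2.2.2.1]; group, by rw [conj_mul, h.2.2.2.2, conj_mul]⟩
  have inH : ∀ t, Relation.ReflTransGen r s t → t ∈ H := by
    intro t ht
    induction ht with
    | refl => exact hs
    | tail _ h2 ih => exact h _ ih h2.1 h2.2.1 _ h2.2.2.2.1 h2.2.2.2.2
  let M : Subgroup G :=
    { carrier := {g | Relation.ReflTransGen r s (g * s * g⁻¹)}
      mul_mem' := fun {a b} ha hb => by
        have := ha.trans (cj a hb)
        change Relation.ReflTransGen r s _
        convert this using 1; group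
      one_mem' := by
        change Relation.ReflTransGen r s _
        simpa using Relation.ReflTransGen.refl
      inv_mem' := fun {a} ha => by
        have := symm (cj a⁻¹ ha)
        change Relation.ReflTransGen r s _
        convert this using 1; group }
  have sM : s ∈ M := by
    change Relation.ReflTransGen r s _
    simpa using Relation.ReflTransGen.refl
  have inv : ∀ t ∈ M, t ≠ 1 → t * t = 1 → Relation.ReflTransGen r s t := by
    intro t ht t1 t2
    rcases Nat.even_or_odd (orderOf (s * t)) with he | ho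
    · obtain ⟨k, k1, k2, k3, k4⟩ := RankOne.exists_central_involution s2 t2 he
      exact (Relation.ReflTransGen.single ⟨s1, s2, k1, k2, k3⟩).tail ⟨k1, k2, t1, t2, k4.symm⟩
    · obtain ⟨j, hj⟩ := RankOne.exists_conj_of_odd s2 t2 ho
      have : ((s * t) ^ j)⁻¹ ∈ M := M.inv_mem (M.pow_mem (M.mul_mem sM ht) j)
      change Relation.ReflTransGen r s _ at this
      rwa [inv_inv, hj] at this
  refine ⟨M, fun e => hH ?_, RankOne.even_card_of_involution_mem sM s1 s2, fun g hg => ?_⟩
  · have h1 : Subgroup.normalClosure {s} ≤ H := by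
      rw [Subgroup.normalClosure, Subgroup.closure_le]
      intro x hx
      obtain ⟨y, hy, hx'⟩ := Group.mem_conjugatesOfSet_iff.mp hx
      rw [Set.mem_singleton_iff.mp hy] at hx'
      obtain ⟨g, rfl⟩ := isConj_iff.mp hx'
      exact inH _ (show g ∈ M from e ▸ Subgroup.mem_top g)
    rcases (inferInstance : (Subgroup.normalClosure {s}).Normal).eq_bot_or_eq_top with h2 | h2
    · exact absurd (Subgroup.mem_bot.mp (h2 ▸ Subgroup.subset_normalClosure rfl)) s1
    · exact top_le_iff.mp (h2 ▸ h1)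
  · by_contra ho
    obtain ⟨t, ⟨ht, u, hu, rfl⟩, t1, t2⟩ := RankOne.exists_involution_mem (Nat.not_odd_iff_even.mp ho)
    have u1 : u ≠ 1 := by rintro rfl; exact t1 (map_one _)
    have u2 : u * u = 1 := (MulAut.conj g).injective (by rw [map_mul, map_one]; exact t2)
    exact hg ((inv _ ht t1 t2).trans (symm (cj g (inv u hu u1 u2))))

theorem comm_of_central {K G : Type*} [Group K] [Group G] {x y : K} (x2 : x * x = 1) (y2 : y * y = 1)
    (π : K →* G) (hk : π.ker = Subgroup.center K) (hc : π x * π y = π y * π x)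
    (h : ∀ z ∈ Subgroup.center K, z * z = 1 → z = 1) : y * x * y⁻¹ = x := by
  have h1 : x * y * x * y ∈ Subgroup.center K := by
    rw [← hk, MonoidHom.mem_ker, map_mul, map_mul, map_mul, hc, mul_assoc (π y), ← map_mul π x, x2, map_one,
      mul_one, ← map_mul, y2, map_one]
  have h2 : x * y * x * y = 1 := h _ h1 (by
    calc _ = x * (x * (x * y * x * y)) * (x * y * x * y) := by rw [← mul_assoc x x, x2, one_mul]
      _ = x * ((x * y * x * y) * x) * (x * y * x * y) := by rw [Subgroup.mem_center_iff.mp h1 x]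
      _ = (x * x) * y * x * y * (x * x) * y * x * y := by group
      _ = y * x * (y * y) * x * y := by rw [x2]; group
      _ = y * (x * x) * y := by rw [y2]; group
      _ = 1 := by rw [x2, mul_one, y2])
  rw [RankOne.inv_eq_of_mul_self y2]
  calc _ = (x * x) * (y * x * y) := by rw [x2, one_mul]
    _ = x * (x * y * x * y) := by group
    _ = x := by rw [h2, mul_one]

theorem exists_mod {F : Type*} [Field F] [Fintype F] {a : ℕ} (ha : 2 ≤ a) (hF : Fintype.card F = (2 ^ a) ^ 2) :
    Nonempty (Mod (Cfsg.SU 3 F (2 ^ a)) F (2 ^ a)) := by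
  have hF' := natCard_of_card hF
  have : Fact (Nat.Prime 2) := ⟨Nat.prime_two⟩
  have two : CharP F 2 := by
    obtain ⟨p, k, hp, hc, e⟩ := exists_char_pow hF'
    have h1 : 2 ∣ p ^ k := e ▸ dvd_pow_self 2 (by omega)
    have h2 := (Nat.prime_dvd_prime_iff_eq Nat.prime_two hp).mp (Nat.prime_two.dvd_of_dvd_pow h1)
    subst h2; exact hc
  set σ := frob hF' with hσ
  have hi : Inv σ := inv_frob hF'
  obtain ⟨ν, ν1, ν3⟩ : ∃ ν : F, ν * σ ν = 1 ∧ ν ^ 3 ≠ 1 := by
    by_contra hc
    push Not at hc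
    have h1 := hi.card_normOne hF'
    have h2 : Nat.card (normOne σ) ≤ 3 := by
      have : IsCyclic (normOne σ) := inferInstance
      rw [← IsCyclic.exponent_eq_card]
      apply Nat.le_of_dvd (by norm_num)
      apply Monoid.exponent_dvd_of_forall_pow_eq_one
      intro x
      ext
      simpa using hc x.1 (by rw [mul_comm]; exact mem_normOne.mp x.2)
    have : 2 ^ 2 ≤ 2 ^ a := Nat.pow_le_pow_right (by norm_num) ha
    omega
  obtain ⟨ε, hε⟩ := hi.exists_trace (c := 1) (map_one _)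
  let C : Matrix (Fin 3) (Fin 3) F := !![0, 1, 0; 1, 0, σ ε; 1, 0, ε]
  let D : Matrix (Fin 3) (Fin 3) F := !![0, ε, σ ε; 1, 0, 0; 0, 1, 1]
  have CD : C * D = 1 := by
    ext i j
    fin_cases i <;> fin_cases j <;> simp [C, D, Matrix.mul_apply, Fin.sum_univ_succ] <;> grind
  have DC : D * C = 1 := mul_eq_one_comm.mp CD
  have CC : (C.map σ)ᵀ * C = Jm F := by
    ext i j
    fin_cases i <;> fin_cases j <;> simp [C, Jm, Matrix.mul_apply, Fin.sum_univ_succ, hi.invol] <;> grind
  have DJ : (D.map σ)ᵀ * Jm F = C := by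
    ext i j
    fin_cases i <;> fin_cases j <;> simp [C, D, Jm, Matrix.mul_apply, Fin.sum_univ_succ, hi.invol]
  have mem : ∀ g : Matrix.SpecialLinearGroup (Fin 3) F, g ∈ Cfsg.SU 3 F (2 ^ a) ↔ (g.1.map σ)ᵀ * g.1 = 1 := by
    intro g
    constructor
    · intro h
      ext i j
      have := h (Pi.single j 1) (Pi.single i 1)
      rw [hermForm_eq hF', hermForm_eq hF', stdB_single_left, stdB_apply] at this
      simp only [Matrix.mul_apply, transpose_apply, map_apply, one_apply]
      change ∑ k, σ ((g.1 *ᵥ Pi.single i 1) k) * (g.1 *ᵥ Pi.single j 1) k = _ at this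
      simpa [Pi.single_apply, mulVec_single_one] using this
    · intro h u v
      rw [hermForm_eq hF', hermForm_eq hF', stdB_apply, stdB_apply]
      change ∑ k, σ ((g.1 *ᵥ v) k) * (g.1 *ᵥ u) k = _
      have e : ∀ k, σ ((g.1 *ᵥ v) k) = (g.1.map σ *ᵥ (σ ∘ v)) k := fun k => RingHom.map_mulVec σ g.1 v k
      simp only [e]
      change (g.1.map σ *ᵥ (σ ∘ v)) ⬝ᵥ (g.1 *ᵥ u) = (σ ∘ v) ⬝ᵥ u
      rw [dotProduct_mulVec, vecMul_mulVec, h, vecMul_one]
  refine ⟨{ σ := σ
            ρ := { toFun := fun g => D * g.1.1 * C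
                   map_one' := by simp [DC]
                   map_mul' := fun g h => by
                     change D * (g.1.1 * h.1.1) * C = _
                     calc _ = D * g.1.1 * (C * D) * h.1.1 * C := by rw [CD]; simp only [mul_assoc, one_mul]
                       _ = _ := by simp only [mul_assoc] }
            two := two
            fin := inferInstance
            inv := hi
            cardF := hF'
            inj := fun g h e => ?_
            form := fun g => ?_
            det := fun g => ?_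
            surj := fun A h1 h2 => ?_
            ν := ν
            ν1 := ν1
            ν3 := ν3
            syl := fun P => ?_
            qpow := ⟨a, rfl⟩ }⟩
  · have e' : D * g.1.1 * C = D * h.1.1 * C := e
    apply Subtype.ext
    apply Subtype.ext
    calc g.1.1 = (C * D) * g.1.1 * (C * D) := by rw [CD]; simp
      _ = C * (D * g.1.1 * C) * D := by simp only [mul_assoc]
      _ = (C * D) * h.1.1 * (C * D) := by rw [e']; simp only [mul_assoc]
      _ = _ := by rw [CD]; simp
  · change ((D * g.1.1 * C).map σ)ᵀ * Jm F * (D * g.1.1 * C) = _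
    rw [Matrix.map_mul, Matrix.map_mul, transpose_mul, transpose_mul]
    calc _ = (C.map σ)ᵀ * ((g.1.1.map σ)ᵀ * (((D.map σ)ᵀ * Jm F) * D) * g.1.1) * C := by simp only [mul_assoc]
      _ = _ := by rw [DJ, CD, mul_one, (mem _).mp g.2, mul_one, CC]
  · change (D * g.1.1 * C).det = 1
    rw [det_mul, det_mul, g.1.2, mul_one, ← det_mul, DC, det_one]
  · refine ⟨⟨⟨C * A * D, by rw [det_mul, det_mul, h2, mul_one, ← det_mul, CD, det_one]⟩, (mem _).mpr ?_⟩, ?_⟩
    · change ((C * A * D).map σ)ᵀ * (C * A * D) = 1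
      rw [Matrix.map_mul, Matrix.map_mul, transpose_mul, transpose_mul]
      calc _ = (D.map σ)ᵀ * ((A.map σ)ᵀ * ((C.map σ)ᵀ * C) * A) * D := by simp only [mul_assoc]
        _ = _ := by rw [CC, h1, DJ, CD]
    · change D * (C * A * D) * C = A
      calc _ = (D * C) * A * (D * C) := by simp only [mul_assoc]
        _ = _ := by rw [DC]; simp
  · obtain ⟨e⟩ := sylow_SU_three hF' (p := 2) rfl P
    rw [Nat.card_congr e.toEquiv, Heis.card hF']

section
variable {F : Type*} [Field F] {K G : Type*} [Group K] [Group G] {q : ℕ} (Z : Mod K F q) (π : K →* G)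
  (hk : π.ker = Subgroup.center K)

include hk in
theorem u3_one {a b : F} (h : Z.ok a b) (e : π (Z.S a b) = 1) : a = 0 ∧ b = 0 := by
  have : Z.S a b ∈ Subgroup.center K := hk ▸ e
  exact Z.comm_t h (Subgroup.mem_center_iff.mp this Z.t).symm

include hk in
theorem u3_center (x : G) : x ∈ (Subgroup.center (Z.P.map π)).map (Z.P.map π).subtype ↔
    ∃ b, Z.σ b = b ∧ x = π (Z.S 0 b) := by
  have := Z.two
  constructor
  · rintro ⟨⟨_, _, ⟨a, b, ok1, rfl⟩, rfl⟩, hx, rfl⟩
    have ha : a = 0 := by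
      by_contra ha
      obtain ⟨d, ok2⟩ := Z.exists_ok (Z.ν * a)
      have h1 := congrArg Subtype.val (Subgroup.mem_center_iff.mp hx ⟨_, _, ⟨_, d, ok2, rfl⟩, rfl⟩)
      change π _ * π _ = π _ * π _ at h1
      rw [← map_mul, ← map_mul, ← mul_inv_eq_one, ← map_inv, ← map_mul, Z.S_mul ok1 ok2, Z.S_mul ok2 ok1,
        Z.S_inv (Z.ok_mul ok1 ok2), Z.S_mul (Z.ok_mul ok2 ok1) (Z.ok_inv (Z.ok_mul ok1 ok2))] at h1
      have h2 := (u3_one Z π hk (Z.ok_mul (Z.ok_mul ok2 ok1) (Z.ok_inv (Z.ok_mul ok1 ok2))) h1).2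
      unfold Mod.ok at ok1 ok2
      simp only [map_add, map_mul, Z.σσ] at h2 ok2
      have h3 : (Z.ν + Z.σ Z.ν) * (Z.σ a * a) = 0 := by grind
      obtain ⟨m, -, m2⟩ := Z.exists_m Z.ν1 Z.ν_ne
      have h4 : Z.ν + Z.σ Z.ν ≠ 0 := by rintro h; simp [h] at m2
      simp [h4, ha] at h3
    subst ha
    exact ⟨b, Z.fix_of_ok ok1, rfl⟩
  · rintro ⟨b, hb, rfl⟩
    refine ⟨⟨_, _, ⟨0, b, Z.ok_zero hb, rfl⟩, rfl⟩, Subgroup.mem_center_iff.mpr ?_, rfl⟩
    rintro ⟨_, _, ⟨c, d, ok1, rfl⟩, rfl⟩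
    apply Subtype.ext
    change π _ * π _ = π _ * π _
    rw [← map_mul, ← map_mul, Z.S0_comm hb ok1]

include hk in
theorem u3_sylow [Finite G] (hs : ∀ P : Sylow 2 G, Nat.card P = q ^ 3) : ∃ P : Sylow 2 G, (P : Subgroup G) = Z.P.map π := by
  refine Mod.sylow_of (Z.isP.map π) fun P => ?_
  rw [hs, ← Z.card_P]
  refine Nat.card_eq_of_bijective (fun x => ⟨π x, x, x.2, rfl⟩) ⟨?_, ?_⟩
  · intro x y h
    have h1 : π (x.1 * y.1⁻¹) = 1 := by
      rw [map_mul, map_inv, mul_inv_eq_one]; exact congrArg Subtype.val h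
    obtain ⟨a, b, ok1, e⟩ := Z.P.mul_mem x.2 (Z.P.inv_mem y.2)
    rw [e] at h1
    obtain ⟨rfl, rfl⟩ := u3_one Z π hk ok1 h1
    rw [Z.S_zero, mul_inv_eq_one] at e
    exact Subtype.ext e
  · rintro ⟨_, x, hx, rfl⟩
    exact ⟨⟨x, hx⟩, rfl⟩

include Z in
theorem u3_inv_center {z : K} (hz : z ∈ Subgroup.center K) (h : z * z = 1) : z = 1 := by
  by_contra h1
  obtain ⟨k, hk⟩ := isConj_iff.mp (Z.inv_conj h1 h).symm
  rw [Subgroup.mem_center_iff.mp hz, mul_inv_cancel_right] at hk
  have := (Z.comm_t (Z.ok_zero (map_one _)) (hk ▸ (Subgroup.mem_center_iff.mp hz Z.t).symm)).2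
  exact one_ne_zero this

include hk in
theorem u3_bin (hπ : Function.Surjective π) :
    Bin G (G ⧸ (Subgroup.center (Z.P.map π)).map (Z.P.map π).subtype) := by
  apply bin_of_elem
  · intro x hx
    obtain ⟨b, hb, rfl⟩ := (u3_center Z π hk x).mp hx
    rw [← map_mul, Z.S0_sq hb, map_one]
  · intro g a ha' b hb' a1 b1 hc
    obtain ⟨g, rfl⟩ := hπ g
    obtain ⟨a, ha, rfl⟩ := (u3_center Z π hk a).mp ha'
    obtain ⟨b, hb, rfl⟩ := (u3_center Z π hk b).mp hb'
    have a0 : a ≠ 0 := by rintro rfl; exact a1 (by rw [Z.S_zero, map_one])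
    have b0 : b ≠ 0 := by rintro rfl; exact b1 (by rw [Z.S_zero, map_one])
    have h3 := comm_of_central (x := Z.S 0 a) (y := g * Z.S 0 b * g⁻¹) (Z.S0_sq ha)
      (by rw [conj_mul, Z.S0_sq hb]; group) π hk (by simpa using hc) fun z => u3_inv_center Z
    obtain ⟨c, h4⟩ := Z.fx_of_conj (g := g * Z.S 0 b * g⁻¹) ha a0 (h3.symm ▸ Z.fx_S (Z.ok_zero ha))
    obtain ⟨d, h5⟩ := Z.fx_of_conj hb b0 h4
    intro w
    rw [u3_center Z π hk, u3_center Z π hk]
    constructor
    · rintro ⟨e, he, rfl⟩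
      obtain ⟨e', he', h6⟩ := Z.borel_conj (h5.inv Mod.e0_ne) he
      exact ⟨e', he', by rw [← h6]; simp⟩
    · rintro ⟨e, he, h⟩
      obtain ⟨e', he', h6⟩ := Z.borel_conj h5 he
      exact ⟨e', he', by rw [← h6, map_mul, map_mul, ← h, map_inv]; group⟩

include Z hk in
theorem u3_main [Finite G] (hπ : Function.Surjective π) (hs : ∀ P : Sylow 2 G, Nat.card P = q ^ 3)
    (H : Subgroup G) (hH : H ≠ ⊤) (he : Even (Nat.card H)) : Bin G (G ⧸ H) ↔
      ∃ P : Sylow 2 G, H = (Subgroup.center (P : Subgroup G)).map (P : Subgroup G).subtype := by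
  have := Z.finite
  have : Fact (Nat.Prime 2) := ⟨Nat.prime_two⟩
  constructor
  · intro hb
    obtain ⟨s, hs1, s1, s2⟩ := RankOne.exists_involution_mem he
    obtain ⟨s, rfl⟩ := hπ s
    have h1 : s * s ∈ Subgroup.center K := by rw [← hk, MonoidHom.mem_ker, map_mul, s2]
    have h2 : Odd (orderOf (s * s)) := by
      by_contra ho
      obtain ⟨k, k1, k2⟩ := RankOne.exists_involution_pow (Nat.not_odd_iff_even.mp ho)
      exact k1 (u3_inv_center Z (Subgroup.pow_mem _ h1 k) k2)
    obtain ⟨m, hm⟩ := h2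
    have h3 : π (s ^ (2 * m + 1)) = π s := by rw [map_pow, pow_succ, pow_mul, sq, s2, one_pow, one_mul]
    obtain ⟨k, k1, k2⟩ := Z.main ((bin_comap π hπ H).mpr hb) (fun e => hH (by
        rw [← Subgroup.map_comap_eq_self_of_surjective hπ H, e, Subgroup.map_top_of_surjective _ hπ]))
      (by rw [← hk]; exact Subgroup.ker_le_comap π H) (s := s ^ (2 * m + 1)) (by rwa [Subgroup.mem_comap, h3])
      (fun e => s1 (by rw [← h3, e, map_one]))
      (by rw [← (Commute.refl s).mul_pow, ← hm, pow_orderOf_eq_one])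
    obtain ⟨P, hP⟩ := u3_sylow (Z.conj k) π hk hs
    refine ⟨P, ?_⟩
    rw [hP]
    ext x
    rw [u3_center _ π hk]
    constructor
    · intro hx
      obtain ⟨x, rfl⟩ := hπ x
      obtain ⟨b, hb, z, hz, rfl⟩ := k2 x hx
      rw [← hk, MonoidHom.mem_ker] at hz
      exact ⟨b, hb, by rw [map_mul, hz, mul_one]⟩
    · rintro ⟨b, hb, rfl⟩
      exact k1 b hb
  · rintro ⟨P, rfl⟩
    obtain ⟨R, hR⟩ := u3_sylow Z π hk hs
    obtain ⟨g, rfl⟩ := MulAction.exists_smul_eq G R P
    obtain ⟨g, rfl⟩ := hπ g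
    have : ((π g • R : Sylow 2 G) : Subgroup G) = (Z.conj g).P.map π := by
      ext x
      rw [Sylow.coe_subgroup_smul, Subgroup.mem_pointwise_smul_iff_inv_smul_mem, hR]
      constructor
      · rintro ⟨_, ⟨a, b, ok1, rfl⟩, e⟩
        refine ⟨_, ⟨a, b, ok1, rfl⟩, ?_⟩
        rw [Z.conj_S g ok1, map_mul, map_mul, e]
        simp [mul_assoc]
      · rintro ⟨_, ⟨a, b, ok1, rfl⟩, rfl⟩
        refine ⟨_, ⟨a, b, ok1, rfl⟩, ?_⟩
        rw [Z.conj_S g ok1]
        simp [mul_assoc]
    rw [this]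
    exact u3_bin (Z.conj g) π hk hπ

end

theorem psu_main {F : Type*} [Field F] [Fintype F] {a : ℕ} (ha : 2 ≤ a) (hF : Fintype.card F = (2 ^ a) ^ 2)
    {G : Type*} [Group G] [Finite G] (e : G ≃* Cfsg.PSU 3 F (2 ^ a)) (H : Subgroup G) (hH : H ≠ ⊤)
    (he : Even (Nat.card H)) : Bin G (G ⧸ H) ↔
      ∃ P : Sylow 2 G, H = (Subgroup.center (P : Subgroup G)).map (P : Subgroup G).subtype := by
  obtain ⟨Z⟩ := exists_mod ha hF
  have : Fact (Nat.Prime 2) := ⟨Nat.prime_two⟩
  refine u3_main Z (e.symm.toMonoidHom.comp (QuotientGroup.mk' _)) ?_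
    (e.symm.surjective.comp (QuotientGroup.mk'_surjective _)) (fun P => ?_) H hH he
  · ext x
    simp [MonoidHom.mem_ker, QuotientGroup.eq_one_iff]
  · obtain ⟨Q, ⟨f⟩⟩ := sylow_congr e P
    obtain ⟨f'⟩ := sylow_PSU_three (natCard_of_card hF) (p := 2) rfl Q
    rw [Nat.card_congr (f.trans f').toEquiv, Heis.card (natCard_of_card hF)]

end Cfsg.Agent.Fil.Bn
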