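import Mathlib

/-! A model of the wreath product `D₈ ≀ C₂`. -/

set_option autoImplicit false

namespace Cfsg.Agent.W8

open Subgroup

@[ext] structure D8 where
  i : Bool
  j : Bool
  k : Bool
  deriving DecidableEq, Fintype

instance : Group D8 where
  mul a b := ⟨a.i ^^ b.i, a.j ^^ b.j, (a.k ^^ b.k) ^^ (a.j && b.i)⟩
  one := ⟨false, false, false⟩
  inv a := ⟨a.i, a.j, a.k ^^ (a.j && a.i)⟩
  mul_assoc := by decide +kernel
  one_mul := by decide +kernel
  mul_one := by decide +kernel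
  inv_mul_cancel := by decide +kernel

@[ext] structure W where
  g : D8
  h : D8
  s : Bool
  deriving DecidableEq, Fintype

instance : Mul W := ⟨fun a b => ⟨a.g * (bif a.s then b.h else b.g), a.h * (bif a.s then b.g else b.h),
  a.s ^^ b.s⟩⟩

theorem mul_def (a b : W) : a * b = ⟨a.g * (bif a.s then b.h else b.g),
  a.h * (bif a.s then b.g else b.h), a.s ^^ b.s⟩ := rfl

instance : Group W where
  one := ⟨1, 1, false⟩
  inv a := ⟨bif a.s then a.h⁻¹ else a.g⁻¹, bif a.s then a.g⁻¹ else a.h⁻¹, a.s⟩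
  mul_assoc := by
    rintro ⟨a, b, _ | _⟩ ⟨c, d, _ | _⟩ ⟨e, f, _ | _⟩ <;> simp [mul_def, mul_assoc]
  one_mul := by decide +kernel
  mul_one := by decide +kernel
  inv_mul_cancel := by decide +kernel

theorem card_W : Nat.card W = 128 := by rw [Nat.card_eq_fintype_card]; decide +kernel

instance : MulAction D8 (Bool × Bool) where
  smul d p := (p.1 ^^ d.i, (p.2 ^^ d.k) ^^ (d.j && p.1))
  one_smul := by decide +kernel
  mul_smul := by decide +kernel

instance : MulAction W (Bool × Bool × Bool) where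
  smul w p := (p.1 ^^ w.s, (bif (p.1 ^^ w.s) then w.h else w.g) • p.2)
  one_smul := by decide +kernel
  mul_smul := by
    rintro ⟨a, b, _ | _⟩ ⟨c, d, _ | _⟩ ⟨_ | _, p⟩ <;> exact Prod.ext rfl (mul_smul _ _ _)

theorem syl {H α : Type*} [Group H] [Fintype α] [DecidableEq α] (f : H →* Equiv.Perm α)
    (hα : Fintype.card α = 8) (hf : Function.Injective f) (hH : Nat.card H = 128) :
    ∃ T : Sylow 2 (Equiv.Perm (Fin 8)), Nonempty (H ≃* T) := by
  let g := (Fintype.equivFinOfCardEq hα).permCongrHom.toMonoidHom.comp f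
  have hg : Function.Injective g := (Equiv.permCongrHom _).injective.comp hf
  refine ⟨Sylow.ofCard g.range ?_, ⟨MonoidHom.ofInjective hg⟩⟩
  rw [← Nat.card_congr (MonoidHom.ofInjective hg).toEquiv, hH, Nat.card_eq_fintype_card,
    Fintype.card_perm, Fintype.card_fin]
  decide +kernel

theorem syl_W (T : Sylow 2 (Equiv.Perm (Fin 8))) : Nonempty (W ≃* T) := by
  obtain ⟨U, ⟨e⟩⟩ := syl (MulAction.toPermHom W (Bool × Bool × Bool)) rfl
    ((injective_iff_map_eq_one _).2 fun w hw => by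
      have : ∀ p : Bool × Bool × Bool, w • p = p := fun p => congrArg (· p) hw
      revert w
      intro w _
      revert w
      decide +kernel) card_W
  exact ⟨e.trans (Sylow.equiv U T)⟩

def D : Subgroup W where
  carrier := {w | w.s = false}
  one_mem' := rfl
  mul_mem' := fun {a b} ha hb => by simp_all [mul_def]
  inv_mem' := fun h => h

/-- the two normal elementary abelian subgroups of order 16 -/
def V (t : Bool) : Subgroup W where
  carrier := {w | w.s = false ∧ (bif t then w.g.i else w.g.j) = false ∧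
    (bif t then w.h.i else w.h.j) = false}
  one_mem' := by cases t <;> exact ⟨rfl, rfl, rfl⟩
  mul_mem' := by
    rintro ⟨⟨a, b, c⟩, ⟨d, e, f⟩, s⟩ ⟨⟨a', b', c'⟩, ⟨d', e', f'⟩, s'⟩
    cases t <;> rintro ⟨rfl, h1, h2⟩ ⟨rfl, h3, h4⟩ <;> simp only [cond] at h1 h2 h3 h4 <;>
      subst h1 h2 h3 h4 <;> exact ⟨rfl, rfl, rfl⟩
  inv_mem' := by
    rintro ⟨⟨a, b, c⟩, ⟨d, e, f⟩, s⟩ ⟨rfl, h⟩
    exact ⟨rfl, h⟩

instance : DecidablePred (· ∈ D) := fun w => inferInstanceAs (Decidable (w.s = false))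

instance (t : Bool) : DecidablePred (· ∈ V t) := fun _ => inferInstanceAs (Decidable (_ ∧ _ ∧ _))

abbrev Z : Subgroup W := V false ⊓ V true

instance : DecidablePred (· ∈ Z) := fun w => inferInstanceAs (Decidable (w ∈ V false ∧ w ∈ V true))

def a₁ : W := ⟨⟨true, false, false⟩, 1, false⟩
def b₁ : W := ⟨⟨false, true, false⟩, 1, false⟩
def a₂ : W := ⟨1, ⟨true, false, false⟩, false⟩
def b₂ : W := ⟨1, ⟨false, true, false⟩, false⟩
def s : W := ⟨1, 1, true⟩
def z : W := ⟨⟨false, false, true⟩, ⟨false, false, true⟩, false⟩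

theorem card_D : Nat.card D = 64 := by rw [Nat.card_eq_fintype_card]; decide +kernel
theorem card_V (t : Bool) : Nat.card (V t) = 16 := by
  rw [Nat.card_eq_fintype_card]; cases t <;> decide +kernel
theorem card_Z : Nat.card Z = 4 := by rw [Nat.card_eq_fintype_card]; decide +kernel

def Good (w : W) : Prop := w * w = 1 ∧ ∀ g : W, w * (g * w * g⁻¹) = g * w * g⁻¹ * w

theorem good_iff (w : W) : Good w ↔ w ∈ V false ∨ w ∈ V true := by
  unfold Good
  revert w
  decide +kernel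

theorem le_V {A : Subgroup W} (h : ∀ a ∈ A, Good a) : ∃ t, A ≤ V t := by
  by_contra! k
  obtain ⟨a, a1, a2⟩ := SetLike.not_le_iff_exists.1 (k false)
  obtain ⟨b, b1, b2⟩ := SetLike.not_le_iff_exists.1 (k true)
  rcases (good_iff _).1 (h _ (mul_mem a1 b1)) with e | e
  · exact a2 ((mul_mem_cancel_right (((good_iff _).1 (h b b1)).resolve_right b2)).1 e)
  · exact b2 ((mul_mem_cancel_left (((good_iff _).1 (h a a1)).resolve_left a2)).1 e)

theorem D_le {K : Subgroup W} (h1 : a₁ ∈ K) (h2 : b₁ ∈ K) (h3 : a₂ ∈ K) (h4 : b₂ ∈ K) : D ≤ K := by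
  have k : ∀ w ∈ K, ∀ b : Bool, (bif b then w else 1) ∈ K := fun w hw b => by
    cases b; exacts [one_mem _, hw]
  have : ∀ w ∈ D, w = (bif w.g.i then a₁ else 1) * (bif w.g.j then b₁ else 1) *
    (bif w.g.k then a₁ * b₁ * a₁ * b₁ else 1) * (bif w.h.i then a₂ else 1) *
    (bif w.h.j then b₂ else 1) * (bif w.h.k then a₂ * b₂ * a₂ * b₂ else 1) := by decide +kernel
  intro w hw
  rw [this w hw]
  refine mul_mem (mul_mem (mul_mem (mul_mem (mul_mem ?_ ?_) ?_) ?_) ?_) ?_ <;> apply k <;>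
    apply_rules [mul_mem]

theorem V_comm (t : Bool) : ∀ a ∈ V t, ∀ b ∈ V t, a * b = b * a := by
  cases t <;> decide +kernel

variable (φ : MulAut W)

theorem aut_V (t : Bool) : ∃ u, ∀ v ∈ V t, φ v ∈ V u := by
  obtain ⟨u, hu⟩ := le_V (A := (V t).map φ.toMonoidHom) (by
    rintro _ ⟨v, hv, rfl⟩
    obtain ⟨h1, h2⟩ := (good_iff v).2 (by cases t; exacts [Or.inl hv, Or.inr hv])
    refine ⟨by rw [← map_mul, h1, map_one], fun g => ?_⟩
    simpa using congrArg φ (h2 (φ.symm g)))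
  exact ⟨u, fun v hv => hu ⟨v, hv, rfl⟩⟩

theorem aut_two : ∃ u, ∀ t, ∀ v ∈ V t, φ v ∈ V (t ^^ u) := by
  obtain ⟨u, hu⟩ := aut_V φ false
  obtain ⟨u', hu'⟩ := aut_V φ true
  have : u' = (true ^^ u) := by
    by_contra e
    obtain rfl : u' = u := by revert e; cases u <;> cases u' <;> simp
    have := V_comm _ _ (hu a₁ (by decide)) _ (hu' b₁ (by decide))
    rw [← map_mul, ← map_mul, φ.injective.eq_iff] at this
    exact absurd this (by decide)
  subst this
  exact ⟨u, fun t => by cases t; exacts [by simpa using hu, hu']⟩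

theorem aut_D : ∀ w ∈ D, φ w ∈ D := by
  obtain ⟨u, hu⟩ := aut_two φ
  exact D_le (K := D.comap φ.toMonoidHom) (hu false _ (by decide)).1 (hu true _ (by decide)).1
    (hu false _ (by decide)).1 (hu true _ (by decide)).1

theorem aut_of_V {t : Bool} (h : ∀ v ∈ V t, φ v ∈ V t) : ∀ t, ∀ v ∈ V t, φ v ∈ V t := by
  obtain ⟨_ | _, hu⟩ := aut_two φ
  · simpa using hu
  have h1 := V_comm _ _ (h (bif t then b₁ else a₁) (by cases t <;> decide)) _
    (by simpa using hu (!t) (bif t then a₁ else b₁) (by cases t <;> decide))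
  rw [← map_mul, ← map_mul, φ.injective.eq_iff] at h1
  exact absurd h1 (by cases t <;> decide)

set_option synthInstance.maxSize 2000 in
theorem four : ∀ A ∈ V false, ∀ B ∈ V true, A * B ≠ B * A → ∀ B' ∈ V true, A * B' = B' * A →
    ∀ A' ∈ V false, A' * B' ≠ B' * A' → A' * B = B * A' →
      (A * a₁⁻¹ ∈ Z ∧ B * b₁⁻¹ ∈ Z ∧ A' * a₂⁻¹ ∈ Z ∧ B' * b₂⁻¹ ∈ Z) ∨
      (s * A * s⁻¹ * a₁⁻¹ ∈ Z ∧ s * B * s⁻¹ * b₁⁻¹ ∈ Z ∧ s * A' * s⁻¹ * a₂⁻¹ ∈ Z ∧
        s * B' * s⁻¹ * b₂⁻¹ ∈ Z) := by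
  decide +kernel

theorem Z_cent : ∀ y ∈ Z, ∀ d ∈ D, y * d = d * y := by decide +kernel

theorem triv (h1 : φ a₁ * a₁⁻¹ ∈ Z) (h2 : φ b₁ * b₁⁻¹ ∈ Z) (h3 : φ a₂ * a₂⁻¹ ∈ Z)
    (h4 : φ b₂ * b₂⁻¹ ∈ Z) : (∀ d ∈ D, φ d * d⁻¹ ∈ Z) ∧ ∀ d ∈ D, φ (φ d) = d := by
  have h5 : ∀ d ∈ D, φ d * d⁻¹ ∈ Z := fun d hd => (D_le (K :=
    { carrier := {d | d ∈ D ∧ φ d * d⁻¹ ∈ Z}
      one_mem' := ⟨one_mem _, by simpa using one_mem _⟩
      mul_mem' := fun {a b} ha hb => ⟨mul_mem ha.1 hb.1, by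
        convert mul_mem hb.2 ha.2 using 1
        rw [← mul_assoc, Z_cent _ hb.2 _ (aut_D φ a ha.1), map_mul]; group⟩
      inv_mem' := fun {a} ha => ⟨inv_mem ha.1, by
        convert inv_mem ha.2 using 1
        have := Z_cent _ ha.2 _ ha.1
        rw [map_inv, inv_inv, mul_inv_rev, inv_inv, inv_mul_eq_iff_eq_mul, ← mul_assoc,
          eq_mul_inv_iff_mul_eq]
        calc _ = a * (φ a * a⁻¹) * a := by group
          _ = _ := by rw [← this]; group⟩ })
      ⟨by decide, h1⟩ ⟨by decide, h2⟩ ⟨by decide, h3⟩ ⟨by decide, h4⟩ hd).2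
  have h6 : ∀ y ∈ Z, ∃ a ∈ D, ∃ b ∈ D, y = a * a * (b * b) := by decide +kernel
  have h7 : ∀ y ∈ Z, ∀ d ∈ D, y * d * (y * d) = d * d := by decide +kernel
  have h8 : ∀ d ∈ D, φ (d * d) = d * d := fun d hd => by
    rw [map_mul, ← h7 _ (h5 d hd) d hd]; group
  refine ⟨h5, fun d hd => ?_⟩
  obtain ⟨a, ha, b, hb, e⟩ := h6 _ (h5 d hd)
  have h9 : ∀ y ∈ Z, y * y = 1 := by decide +kernel
  have e2 := h9 _ (h5 d hd)
  rw [mul_inv_eq_iff_eq_mul] at e
  rw [e, map_mul, map_mul, h8 a ha, h8 b hb, e]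
  rw [e, mul_inv_cancel_right] at e2
  rw [← mul_assoc, e2, one_mul]

theorem cent_D : ∀ w : W, w * a₁ * w⁻¹ = a₁ → w * b₁ * w⁻¹ = b₁ → w * a₂ * w⁻¹ = a₂ →
    w * b₂ * w⁻¹ = b₂ → w ∈ Z := by decide +kernel

theorem sq_D : ∀ d ∈ D, d * d ∈ Z := by decide +kernel

abbrev X := {w : W // w ∉ D ∧ w * w = 1}

instance : MulAction (MulAut W) X where
  smul φ x := ⟨φ x, fun h => x.2.1 (by simpa using aut_D φ⁻¹ _ h), by rw [← map_mul, x.2.2, map_one]⟩
  one_smul _ := rfl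
  mul_smul _ _ _ := rfl

theorem card_X : Fintype.card X = 8 := by decide +kernel

theorem cent_X : ∀ w : W, (∀ x : X, w * x * w⁻¹ = x) → w = 1 ∨ w = z := by decide +kernel

theorem cent_z : ∀ w : W, w * z = z * w := by decide +kernel

end Cfsg.Agent.W8
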