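import Mathlib
import Cfsg.Agent.Fil.W
import Cfsg.Agent.RankOne.SzClass
import Cfsg.Agent.Ben.Basic

set_option autoImplicit false
set_option linter.unusedSectionVars false

/-! Binary actions of `SL₂(q)`: the matrix model. -/

namespace Cfsg.Agent.Fil.L2

open Matrix Cfsg.Agent.Fil.Bn

structure Mod (G F : Type*) [Group G] [Field F] where
  ρ : G →* Matrix (Fin 2) (Fin 2) F
  fin : Finite F
  inj : Function.Injective ρ
  det : ∀ g, (ρ g).det = 1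
  surj : ∀ A : Matrix (Fin 2) (Fin 2) F, A.det = 1 → ∃ g, ρ g = A

theorem sq2 {F : Type*} [Field F] [Finite F] {a b : F} (ha : a ≠ 0) (hb : b ≠ 0) (c : F) :
    ∃ x y, a * x ^ 2 + b * y ^ 2 = c := by
  have := Fintype.ofFinite F
  by_cases h2 : ringChar F = 2
  · obtain ⟨x, hx⟩ := FiniteField.isSquare_of_char_two h2 (c / a)
    exact ⟨x, 0, by rw [sq, ← hx]; field_simp; simp⟩
  · obtain ⟨x, y, h⟩ := FiniteField.exists_root_sum_quadratic (f := Polynomial.C a * Polynomial.X ^ 2)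
      (g := Polynomial.C b * Polynomial.X ^ 2 - Polynomial.C c) (Polynomial.degree_C_mul_X_pow 2 ha)
      (by
        rw [Polynomial.degree_sub_C (by rw [Polynomial.degree_C_mul_X_pow 2 hb]; norm_num),
          Polynomial.degree_C_mul_X_pow 2 hb]; rfl)
      (FiniteField.odd_card_of_char_ne_two h2)
    simp at h
    exact ⟨x, y, by linear_combination h⟩

namespace Mod

variable {F : Type*} [Field F] {G : Type*} [Group G] (Z : Mod G F)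

include Z in
theorem finite : Finite G := by
  have := Z.fin
  exact Finite.of_injective _ Z.inj

theorem d (g : G) : Z.ρ g 0 0 * Z.ρ g 1 1 - Z.ρ g 0 1 * Z.ρ g 1 0 = 1 := by
  rw [← Matrix.det_fin_two, Z.det]

open scoped _root_.Classical in
noncomputable def el (a b c d : F) : G := if h : ∃ g, Z.ρ g = !![a, b; c, d] then h.choose else 1

theorem ρ_el {a b c d : F} (h : a * d - b * c = 1) : Z.ρ (Z.el a b c d) = !![a, b; c, d] := by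
  have h := Z.surj !![a, b; c, d] (by rw [det_fin_two_of, h])
  rw [el, dif_pos h]
  exact h.choose_spec

theorem ext' {g h : G} (h1 : Z.ρ g 0 0 = Z.ρ h 0 0) (h2 : Z.ρ g 0 1 = Z.ρ h 0 1) (h3 : Z.ρ g 1 0 = Z.ρ h 1 0)
    (h4 : Z.ρ g 1 1 = Z.ρ h 1 1) : g = h := by
  apply Z.inj
  ext i j
  fin_cases i <;> fin_cases j <;> assumption

theorem m (g h : G) (i j : Fin 2) : Z.ρ (g * h) i j = Z.ρ g i 0 * Z.ρ h 0 j + Z.ρ g i 1 * Z.ρ h 1 j := by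
  rw [map_mul, Matrix.mul_apply, Fin.sum_univ_two]

theorem ρ_inv (g : G) : Z.ρ g⁻¹ = !![Z.ρ g 1 1, -Z.ρ g 0 1; -Z.ρ g 1 0, Z.ρ g 0 0] := by
  rw [← adjugate_fin_two]
  calc _ = Z.ρ g⁻¹ * (Z.ρ g * (Z.ρ g).adjugate) := by rw [mul_adjugate, Z.det, one_smul, mul_one]
    _ = _ := by rw [← mul_assoc, ← map_mul, inv_mul_cancel, map_one, one_mul]

noncomputable def S (b : F) : G := Z.el 1 b 0 1
noncomputable def L (c : F) : G := Z.el 1 0 c 1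
noncomputable def M (l : F) : G := Z.el l 0 0 l⁻¹
noncomputable def t : G := Z.el 0 1 (-1) 0
noncomputable def C (τ : F) : G := Z.el 0 (-1) 1 τ
def tr (g : G) : F := Z.ρ g 0 0 + Z.ρ g 1 1

theorem ρ_S (b : F) : Z.ρ (Z.S b) = !![1, b; 0, 1] := Z.ρ_el (by ring)
theorem ρ_L (b : F) : Z.ρ (Z.L b) = !![1, 0; b, 1] := Z.ρ_el (by ring)
theorem ρ_M {l : F} (h : l ≠ 0) : Z.ρ (Z.M l) = !![l, 0; 0, l⁻¹] := Z.ρ_el (by field_simp; ring)
theorem ρ_t : Z.ρ Z.t = !![0, 1; -1, 0] := Z.ρ_el (by ring)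
theorem ρ_C (τ : F) : Z.ρ (Z.C τ) = !![0, -1; 1, τ] := Z.ρ_el (by ring)

theorem S_mul (a b : F) : Z.S a * Z.S b = Z.S (a + b) := by
  apply Z.ext' <;> simp [m, ρ_S, add_comm]

theorem S_zero : Z.S 0 = 1 := by apply Z.ext' <;> simp [ρ_S]

theorem S_inv (a : F) : (Z.S a)⁻¹ = Z.S (-a) := by
  rw [inv_eq_iff_mul_eq_one, S_mul, add_neg_cancel, S_zero]

theorem S_inj {a b : F} (h : Z.S a = Z.S b) : a = b := by
  simpa [ρ_S] using congrFun (congrFun (congrArg Z.ρ h) 0) 1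

theorem S_ne {a : F} (h : a ≠ 0) : Z.S a ≠ 1 := fun e => h (Z.S_inj (e.trans Z.S_zero.symm))

theorem M_S {l : F} (hl : l ≠ 0) (b : F) : Z.M l * Z.S b = Z.S (l ^ 2 * b) * Z.M l := by
  apply Z.ext' <;> simp [m, ρ_S, Z.ρ_M hl]
  field_simp

theorem M_inv {l : F} (hl : l ≠ 0) : (Z.M l)⁻¹ = Z.M l⁻¹ := by
  apply Z.ext' <;> simp [ρ_inv, Z.ρ_M hl, Z.ρ_M (inv_ne_zero hl)]

theorem M_one : Z.M 1 = 1 := by apply Z.ext' <;> simp [Z.ρ_M one_ne_zero]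

theorem t_M {l : F} (hl : l ≠ 0) : Z.t⁻¹ * Z.M l * Z.t = (Z.M l)⁻¹ := by
  apply Z.ext' <;> simp [m, ρ_inv, Z.ρ_M hl, ρ_t]

theorem borel {g : G} (h : Z.ρ g 1 0 = 0) : Z.ρ g 0 0 ≠ 0 ∧ g = Z.S (Z.ρ g 0 1 * Z.ρ g 0 0) * Z.M (Z.ρ g 0 0) := by
  have hd := Z.d g
  rw [h, mul_zero, sub_zero] at hd
  have h0 : Z.ρ g 0 0 ≠ 0 := by rintro e; simp [e] at hd
  refine ⟨h0, ?_⟩
  apply Z.ext' <;> simp [m, ρ_S, Z.ρ_M h0, h, h0]
  field_simp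
  linear_combination hd

theorem center_iff {g : G} : g ∈ Subgroup.center G ↔ Z.ρ g 0 1 = 0 ∧ Z.ρ g 1 0 = 0 ∧ Z.ρ g 0 0 = Z.ρ g 1 1 := by
  rw [Subgroup.mem_center_iff]
  constructor
  · intro h
    have h1 := congrArg Z.ρ (h (Z.S 1))
    have h2 := congrArg Z.ρ (h (Z.L 1))
    have a1 := congrFun (congrFun h1 0) 0
    have a2 := congrFun (congrFun h1 0) 1
    have a3 := congrFun (congrFun h2 0) 0
    simp [m, ρ_S, ρ_L, -map_mul] at a1 a2 a3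
    exact ⟨a3, a1, by linear_combination -a2⟩
  · rintro ⟨h1, h2, h3⟩ x
    apply Z.ext' <;> simp [m, h1, h2, h3, -map_mul, mul_comm]

include Z in
theorem comm2 {g x y : G} (hg : g ∉ Subgroup.center G) (hx : x * g = g * x) (hy : y * g = g * y) :
    x * y = y * x := by
  rw [Z.center_iff] at hg
  have a : ∀ i j, Z.ρ (x * g) i j = Z.ρ (g * x) i j := fun i j => by rw [hx]
  have b : ∀ i j, Z.ρ (y * g) i j = Z.ρ (g * y) i j := fun i j => by rw [hy]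
  simp only [m] at a b
  have a1 := a 0 0
  have a2 := a 0 1
  have a3 := a 1 0
  have b1 := b 0 0
  have b2 := b 0 1
  have b3 := b 1 0
  clear a b
  by_cases h1 : Z.ρ g 0 1 = 0
  · by_cases h2 : Z.ρ g 1 0 = 0
    · have h3 : Z.ρ g 0 0 - Z.ρ g 1 1 ≠ 0 := fun h => hg ⟨h1, h2, sub_eq_zero.mp h⟩
      apply Z.ext' <;> rw [m, m] <;> apply mul_left_cancel₀ h3 <;> grind
    · apply Z.ext' <;> rw [m, m] <;> apply mul_left_cancel₀ h2 <;> grind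
  · apply Z.ext' <;> rw [m, m] <;> apply mul_left_cancel₀ h1 <;> grind

theorem tr_conj (k g : G) : Z.tr (k * g * k⁻¹) = Z.tr g := by
  have := Z.d k
  simp only [tr, m, ρ_inv]
  simp
  linear_combination (Z.ρ g 0 0 + Z.ρ g 1 1) * this

theorem tr_inv (g : G) : Z.tr g⁻¹ = Z.tr g := by simp [tr, ρ_inv, add_comm]

theorem conj_C {g : G} (h : Z.tr g ^ 2 ≠ 4) : ∃ k, g = k * Z.C (Z.tr g) * k⁻¹ := by
  have := Z.fin
  have hd := Z.d g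
  obtain ⟨x, y, hxy⟩ : ∃ x y : F, Z.ρ g 1 0 * x ^ 2 + (Z.ρ g 1 1 - Z.ρ g 0 0) * x * y - Z.ρ g 0 1 * y ^ 2 = 1 := by
    have hD : (Z.ρ g 1 1 - Z.ρ g 0 0) ^ 2 + 4 * Z.ρ g 0 1 * Z.ρ g 1 0 ≠ 0 := by
      intro e; apply h; unfold tr; linear_combination e + 4 * hd
    by_cases hc : Z.ρ g 1 0 = 0
    · have h1 : Z.ρ g 1 1 - Z.ρ g 0 0 ≠ 0 := by intro e; simp [hc, e] at hD
      exact ⟨(1 + Z.ρ g 0 1) / (Z.ρ g 1 1 - Z.ρ g 0 0), 1, by rw [hc]; field_simp; ring⟩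
    by_cases h2 : (2 : F) = 0
    · obtain ⟨x, hx⟩ := FiniteField.isSquare_of_char_two
        (CharP.ringChar_of_prime_eq_zero Nat.prime_two (by simpa using h2)) (Z.ρ g 1 0)⁻¹
      exact ⟨x, 0, by rw [sq, ← hx]; field_simp; simp⟩
    · obtain ⟨X, Y, e⟩ := sq2 one_ne_zero (neg_ne_zero.mpr hD) (4 * Z.ρ g 1 0)
      refine ⟨(X - (Z.ρ g 1 1 - Z.ρ g 0 0) * Y) / (2 * Z.ρ g 1 0), Y, ?_⟩
      field_simp
      linear_combination e
  have hk : x * (Z.ρ g 1 0 * x + Z.ρ g 1 1 * y) - (Z.ρ g 0 0 * x + Z.ρ g 0 1 * y) * y = 1 := by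
    linear_combination hxy
  refine ⟨Z.el x (Z.ρ g 0 0 * x + Z.ρ g 0 1 * y) y (Z.ρ g 1 0 * x + Z.ρ g 1 1 * y), ?_⟩
  rw [eq_mul_inv_iff_mul_eq]
  apply Z.ext' <;> simp [m, Z.ρ_el hk, ρ_C, tr, -map_mul]
  · linear_combination (-x) * hd
  · linear_combination (-y) * hd

theorem conj_of_tr {g h : G} (h1 : Z.tr g ^ 2 ≠ 4) (h2 : Z.tr h = Z.tr g) : ∃ k, h = k * g * k⁻¹ := by
  obtain ⟨k, hk⟩ := Z.conj_C h1
  obtain ⟨l, hl⟩ := Z.conj_C (g := h) (h2 ▸ h1)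
  refine ⟨l * k⁻¹, ?_⟩
  rw [hl, h2]
  nth_rw 2 [hk]
  group

theorem uni {g : G} (h : Z.tr g = 2) : ∃ k b, g = k * Z.S b * k⁻¹ := by
  have hd := Z.d g
  unfold tr at h
  by_cases hc : Z.ρ g 1 0 = 0
  · refine ⟨1, Z.ρ g 0 1, ?_⟩
    have h1 : Z.ρ g 0 0 = 1 := by
      have : (Z.ρ g 0 0 - 1) ^ 2 = 0 := by rw [hc] at hd; linear_combination Z.ρ g 0 0 * h - hd
      simpa [sub_eq_zero] using this
    apply Z.ext' <;> simp [ρ_S, hc, h1]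
    linear_combination h - h1
  · have hk : (Z.ρ g 0 0 - 1) * 0 - (-(Z.ρ g 1 0)⁻¹) * Z.ρ g 1 0 = 1 := by field_simp; ring
    refine ⟨Z.el (Z.ρ g 0 0 - 1) (-(Z.ρ g 1 0)⁻¹) (Z.ρ g 1 0) 0, -(Z.ρ g 1 0)⁻¹,
      eq_mul_inv_iff_mul_eq.mpr (Z.ext' ?_ ?_ ?_ ?_)⟩
    all_goals simp only [m, Z.ρ_el hk, ρ_S]
    all_goals simp
    · linear_combination Z.ρ g 0 0 * h - hd
    · field_simp; ring
    · linear_combination Z.ρ g 1 0 * h

/-- conjugating a model. -/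
def conj (k : G) : Mod G F :=
  { Z with
    ρ := Z.ρ.comp (MulAut.conj k⁻¹).toMonoidHom
    inj := Z.inj.comp (MulAut.conj k⁻¹).injective
    det := fun _ => Z.det _
    surj := fun A h2 => by
      obtain ⟨g, hg⟩ := Z.surj A h2
      refine ⟨k * g * k⁻¹, ?_⟩
      rw [← hg]
      change Z.ρ (k⁻¹ * (k * g * k⁻¹) * k⁻¹⁻¹) = _
      congr 1; group }

theorem conj_ρ (k g : G) : (Z.conj k).ρ g = Z.ρ (k⁻¹ * g * k) := by
  change Z.ρ (k⁻¹ * g * k⁻¹⁻¹) = _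
  rw [inv_inv]

theorem conj_el (k : G) {a b c d : F} (h : a * d - b * c = 1) : (Z.conj k).el a b c d = k * Z.el a b c d * k⁻¹ := by
  have e := ((Z.conj k).ρ_el h).trans (Z.ρ_el h).symm
  rw [conj_ρ] at e
  rw [← Z.inj e]; group

theorem conj_S (k : G) (b : F) : (Z.conj k).S b = k * Z.S b * k⁻¹ := Z.conj_el k (by ring)
theorem conj_C' (k : G) (b : F) : (Z.conj k).C b = k * Z.C b * k⁻¹ := Z.conj_el k (by ring)
theorem conj_M (k : G) {l : F} (h : l ≠ 0) : (Z.conj k).M l = k * Z.M l * k⁻¹ := Z.conj_el k (by field_simp; ring)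

theorem top_of {H : Subgroup G} (hS : ∀ b, Z.S b ∈ H) {g : G} (hg : g ∈ H) (hc : Z.ρ g 1 0 ≠ 0) : H = ⊤ := by
  have hd := Z.d g
  have hj := H.mul_mem (hS (-(Z.ρ g 0 0 / Z.ρ g 1 0))) hg
  have hL : ∀ c, Z.L c ∈ H := by
    intro c
    have := H.mul_mem (H.mul_mem hj (hS (-(c / Z.ρ g 1 0 ^ 2)))) (H.inv_mem hj)
    convert this using 1
    rw [eq_mul_inv_iff_mul_eq]
    apply Z.ext' <;> simp [m, ρ_S, ρ_L, -map_mul] <;> field_simp <;> grind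
  have key : ∀ g, Z.ρ g 1 0 ≠ 0 → g ∈ H := by
    intro g hc
    have hd := Z.d g
    have := H.mul_mem (H.mul_mem (hS ((Z.ρ g 0 0 - 1) / Z.ρ g 1 0)) (hL (Z.ρ g 1 0))) (hS ((Z.ρ g 1 1 - 1) / Z.ρ g 1 0))
    convert this using 1
    apply Z.ext' <;> simp [m, ρ_S, ρ_L, -map_mul] <;> field_simp <;> grind
  rw [eq_top_iff]
  intro x _
  by_cases h : Z.ρ x 1 0 = 0
  · rw [← H.mul_mem_cancel_right (hL 1)]
    apply key
    have hd := Z.d x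
    simp [m, ρ_L, h, -map_mul] at hd ⊢
    rintro e; simp [e] at hd
  · exact key x h

/-- an element fixing the image of the first coordinate line under `k`. -/
theorem fix_iff (x k : G) : Z.ρ (k⁻¹ * x * k) 1 0 = 0 ↔
    Z.ρ k 0 0 * (Z.ρ x 1 0 * Z.ρ k 0 0 + Z.ρ x 1 1 * Z.ρ k 1 0) =
      Z.ρ k 1 0 * (Z.ρ x 0 0 * Z.ρ k 0 0 + Z.ρ x 0 1 * Z.ρ k 1 0) := by
  simp only [m, ρ_inv]
  simp
  constructor <;> intro h <;> linear_combination h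

theorem no_torus_aux {H : Subgroup G} (hb : Bin G (G ⧸ H)) (hB : ∀ h ∈ H, Z.ρ h 1 0 = 0) {β : F} (hβ : β ≠ 0)
    (h0 : Z.S β ∈ H) {l : F} (hl : l ≠ 0) (hM : Z.M l ∈ H) (h1 : l ^ 2 ≠ -1) : l ^ 2 = 1 := by
  have hc2 : (1 + l ^ 2) * β ≠ 0 := mul_ne_zero (fun e => h1 (by linear_combination e)) hβ
  set n := Z.S ((1 + l ^ 2) * β) with hn
  set n' := Z.S β with hn'
  have nH : n ∈ H := by
    have := H.mul_mem h0 (H.mul_mem (H.mul_mem hM h0) (H.inv_mem hM))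
    rw [hn', Z.M_S hl, mul_inv_cancel_right, S_mul] at this
    convert this using 2
    ring
  have tM : Z.t⁻¹ * Z.M l * Z.t ∈ H := by rw [Z.t_M hl]; exact H.inv_mem hM
  have key : n * Z.M l * n⁻¹ * Z.M l = n' * (Z.M l * Z.M l) * n'⁻¹ := by
    rw [hn, hn', S_inv, S_inv]
    apply Z.ext' <;> simp [m, ρ_S, Z.ρ_M hl, -map_mul]
    field_simp
    ring
  obtain ⟨g, g0, g1, g2, g3⟩ := hb.quad (x0 := ((1 : G) : G ⧸ H)) (x1 := (Z.t : G ⧸ H))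
    (x2 := ((n * Z.t : G) : G ⧸ H)) (x3 := ((n' * Z.t : G) : G ⧸ H)) (a := Z.M l)
    (b := n * (Z.M l)⁻¹ * n⁻¹) ((smul_mk_iff _ _ _).mpr (by simpa using hM))
    ((smul_mk_iff _ _ _).mpr tM)
    ((smul_mk_iff _ _ _).mpr (by
      simpa using H.mul_mem (H.mul_mem nH (H.inv_mem hM)) (H.inv_mem nH)))
    ((smul_mk_iff _ _ _).mpr (by
      have : (n * Z.t)⁻¹ * (n * (Z.M l)⁻¹ * n⁻¹) * (n * Z.t) = (Z.t⁻¹ * Z.M l * Z.t)⁻¹ := by group
      rw [this]; exact H.inv_mem tM))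
    (by
      rw [← inv_smul_eq_iff, ← mul_smul, smul_mk_iff]
      have : (n' * Z.t)⁻¹ * ((n * (Z.M l)⁻¹ * n⁻¹)⁻¹ * Z.M l) * (n' * Z.t) =
          (Z.t⁻¹ * Z.M l * Z.t) * (Z.t⁻¹ * Z.M l * Z.t) := by
        have : (n * (Z.M l)⁻¹ * n⁻¹)⁻¹ * Z.M l = n * Z.M l * n⁻¹ * Z.M l := by group
        rw [this, key]; group
      rw [this]
      exact H.mul_mem tM tM)
  have gH : g ∈ H := by simpa using (smul_mk_iff _ _ _).mp g0
  have a0 := hB g gH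
  have a1 := (Z.fix_iff _ _).mp (hB _ ((smul_mk_iff _ _ _).mp g1))
  have a2 := (Z.fix_iff _ _).mp (hB _ ((smul_mk_iff _ _ _).mp g2))
  simp [hn, m, ρ_t, ρ_S, a0, -map_mul] at a1 a2
  have hz : g ∈ Subgroup.center G := Z.center_iff.mpr ⟨a1.symm, a0, by
    apply mul_left_cancel₀ hc2
    linear_combination -a2 + a1⟩
  have a4 : g • ((n' * Z.t : G) : G ⧸ H) = (n' * Z.t : G) := by
    rw [smul_mk_iff, mul_assoc, ← Subgroup.mem_center_iff.mp hz, inv_mul_cancel_left]; exact gH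
  rw [a4] at g3
  have a3 := (Z.fix_iff _ _).mp (hB _ ((smul_mk_iff _ _ _).mp g3.symm))
  simp [hn', m, ρ_t, ρ_S, Z.ρ_M hl, -map_mul] at a3
  field_simp at a3
  exact a3.symm

theorem no_torus {H : Subgroup G} (hb : Bin G (G ⧸ H)) (hB : ∀ h ∈ H, Z.ρ h 1 0 = 0) {β : F} (hβ : β ≠ 0)
    (h0 : Z.S β ∈ H) {h : G} (hh : h ∈ H) (h1 : Z.ρ h 0 0 ^ 2 ≠ -1) : Z.ρ h 0 0 ^ 2 = 1 := by
  by_contra h2
  obtain ⟨l0, e⟩ := Z.borel (hB h hh)
  generalize Z.ρ h 0 0 = l at *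
  generalize Z.ρ h 0 1 * l = b at e
  have h3 : 1 - l ^ 2 ≠ 0 := fun e => h2 (by linear_combination -e)
  refine h2 ((Z.conj (Z.S (b / (1 - l ^ 2)))).no_torus_aux hb (fun g hg => ?_) hβ ?_ l0 ?_ h1)
  · rw [conj_ρ, fix_iff]; simp [ρ_S, hB g hg]
  · rw [conj_S, S_mul, S_inv, S_mul]; simpa using h0
  · rw [Z.conj_M _ l0, S_inv, mul_assoc, Z.M_S l0, ← mul_assoc, S_mul]
    convert hh using 1
    rw [e]; congr 2; field_simp; ring

end Mod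

end Cfsg.Agent.Fil.L2
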